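import Mathlib

/-!
helper61: piece VC of CALL S1906 (helper14) - every injective endomorphism of `P` keeps `lam u = -1`.
-/

set_option autoImplicit false

namespace Cfsg.Agent.Helper61.S1906P

variable {F : Type*} [Field F] {V : Type*} [AddCommGroup V] [Module F V] {P : Type*} [Group P]

/-- VC. Every injective endomorphism `α` of `P` (an automorphism, `P` being finite) keeps
`lam u = -1`.  Proof: `t := α u` is a central involution (`α` is surjective), `lam t = ± 1`.
Suppose `lam t = 1`, i.e. `ρ t = 1` on `L`.  By `hva`, `ρ t = ± 1` on `W`.  If `+ 1`: `t = 1`,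
so `u = 1`, contradicting `ρ u v = -v ≠ v` for `0 ≠ v ∈ L`.  If `- 1`: `ρ t = ρ w`, so `α u = w`
lies in `commutator P = (commutator P).map α`, hence `u ∈ commutator P` (injectivity) and
`lam u = 1`; but `lam u = -1` by `huL`: contradiction with `2 ≠ 0`. -/
theorem s1906_vc [Finite P] (h2 : (2 : F) ≠ 0) (ρ : Representation F P V)
    (hfaith : ∀ x : P, (∀ v : V, ρ x v = v) → x = 1)
    (L W : Submodule F V) (hL1 : Module.finrank F L = 1) (hLW : IsCompl L W)
    (lam : P →* Fˣ) (hlam : ∀ x : P, ∀ v ∈ L, ρ x v = (lam x : F) • v)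
    (hva : ∀ t : P, (∀ x : P, t * x = x * t) → t * t = 1 →
      (∀ v ∈ W, ρ t v = v) ∨ (∀ v ∈ W, ρ t v = -v))
    (w : P) (hw : w ∈ _root_.commutator P) (hwL : ∀ v ∈ L, ρ w v = v)
    (hwW : ∀ v ∈ W, ρ w v = -v)
    (u : P) (huc : ∀ x : P, x * u = u * x) (hu2 : u * u = 1) (huL : ∀ v ∈ L, ρ u v = -v)
    (α : P →* P) (hα : Function.Injective α) : lam (α u) = -1 := by
  have hsurj : Function.Surjective α := Finite.injective_iff_surjective.mp hα
  obtain ⟨v₀, hv₀L, hv₀⟩ : ∃ v ∈ L, v ≠ 0 := by
    have hne : L ≠ ⊥ := by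
      intro h
      rw [h, finrank_bot] at hL1
      exact absurd hL1 (by norm_num)
    exact Submodule.exists_mem_ne_zero_of_ne_bot hne
  have hneg : ∀ v : V, v = -v → v = 0 := by
    intro v hv
    have h3 : (2 : F) • v = 0 := by
      rw [two_smul]
      nth_rewrite 2 [hv]
      exact add_neg_cancel v
    exact (smul_eq_zero.mp h3).resolve_left h2
  have hdec : ∀ v : V, ∃ l ∈ L, ∃ w' ∈ W, v = l + w' := by
    intro v
    have h3 : v ∈ L ⊔ W := by
      rw [hLW.sup_eq_top]
      exact Submodule.mem_top
    obtain ⟨l, hl, w', hw', rfl⟩ := Submodule.mem_sup.mp h3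
    exact ⟨l, hl, w', hw', rfl⟩
  obtain ⟨t, ht⟩ : ∃ t, t = α u := ⟨_, rfl⟩
  have htc : ∀ x : P, t * x = x * t := by
    intro x
    obtain ⟨y, rfl⟩ := hsurj x
    rw [ht, ← map_mul, ← map_mul, huc y]
  have ht2 : t * t = 1 := by rw [ht, ← map_mul, hu2, map_one]
  have hlam2 : lam t = 1 ∨ lam t = -1 := by
    have h3 : lam t * lam t = 1 := by rw [← map_mul, ht2, map_one]
    have h4 : ((lam t : Fˣ) : F) * (lam t : F) = 1 := by
      rw [← Units.val_mul, h3, Units.val_one]
    rcases mul_self_eq_one_iff.mp h4 with h | h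
    · left
      exact Units.ext (by rw [h, Units.val_one])
    · right
      exact Units.ext (by rw [h, Units.val_neg, Units.val_one])
  rw [← ht]
  rcases hlam2 with h1 | h1
  · exfalso
    have htL : ∀ v ∈ L, ρ t v = v := by
      intro v hv
      rw [hlam t v hv, h1, Units.val_one, one_smul]
    rcases hva t htc ht2 with hW1 | hW1
    · have ht1 : t = 1 := by
        apply hfaith
        intro v
        obtain ⟨l, hl, w', hw', rfl⟩ := hdec v
        rw [map_add, htL l hl, hW1 w' hw']
      have hu1 : u = 1 := hα (by rw [← ht, ht1, map_one])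
      have h3 := huL v₀ hv₀L
      rw [hu1, map_one, Module.End.one_apply] at h3
      exact hv₀ (hneg v₀ h3)
    · have htw : t = w := by
        have h3 : w⁻¹ * t = 1 := by
          apply hfaith
          intro v
          obtain ⟨l, hl, w', hw', rfl⟩ := hdec v
          have h4 : ρ t (l + w') = ρ w (l + w') := by
            rw [map_add, map_add, htL l hl, hW1 w' hw', hwL l hl, hwW w' hw']
          rw [map_mul, Module.End.mul_apply, h4, ← Module.End.mul_apply, ← map_mul,
            inv_mul_cancel, map_one, Module.End.one_apply]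
        exact (inv_mul_eq_one.mp h3).symm
      have humem : u ∈ _root_.commutator P := by
        have h3 : _root_.commutator P = (_root_.commutator P).map α := by
          rw [commutator_def, Subgroup.map_commutator, Subgroup.map_top_of_surjective α hsurj]
        rw [h3] at hw
        obtain ⟨c, hc, hcw⟩ := hw
        have h4 : c = u := hα (by rw [hcw, ← htw, ht])
        rw [← h4]
        exact hc
      have hlamu : lam u = 1 :=
        MonoidHom.mem_ker.mp (Abelianization.commutator_subset_ker lam humem)
      have h3 := huL v₀ hv₀L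
      rw [hlam u v₀ hv₀L, hlamu, Units.val_one, one_smul] at h3
      exact hv₀ (hneg v₀ h3)
  · exact h1

end Cfsg.Agent.Helper61.S1906P
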