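import Mathlib
import Cfsg.Agent.Helper3.Exceptional
import Cfsg.Agent.Helper80.CharIrr

/-!
# CALL S3716 (helper16), piece N4

A class function of norm 4 with integral multiplicities, multiplicity 1 of the principal character
and multiplicity `±1` of a given nonprincipal `X` is `1 ± X ± Y₂ ± Y₃`.
-/

set_option autoImplicit false
open Cfsg
open scoped ComplexConjugate

namespace Cfsg.Agent.Helper61

/-- Integers over a finset with sum of squares two: exactly two are non-zero, and these are `±1`. -/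
theorem d8_int_sq_sum_two {ι : Type*} [DecidableEq ι] (S : Finset ι) (c : ι → ℤ)
    (h : ∑ i ∈ S, c i * c i = 2) :
    (S.filter (fun i => c i ≠ 0)).card = 2 ∧ ∀ i ∈ S, c i ≠ 0 → (c i = 1 ∨ c i = -1) := by
  have hle : ∀ i ∈ S, c i * c i ≤ 2 := by
    intro i hi
    rw [← h]
    exact Finset.single_le_sum (fun j _ => mul_self_nonneg (c j)) hi
  have hunit : ∀ i ∈ S, c i ≠ 0 → (c i = 1 ∨ c i = -1) := by
    intro i hiS hi
    have h2 := hle i hiS
    have hle1 : c i ≤ 1 := by nlinarith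
    have hge : -1 ≤ c i := by nlinarith
    omega
  refine ⟨?_, hunit⟩
  have hsq : ∀ i ∈ S, c i * c i = if c i ≠ 0 then 1 else 0 := by
    intro i hiS
    by_cases hi : c i = 0
    · simp [hi]
    · rcases hunit i hiS hi with h1 | h1 <;> simp [h1]
  have h3 : ∑ i ∈ S, c i * c i = ((S.filter (fun i => c i ≠ 0)).card : ℤ) := by
    rw [Finset.sum_congr rfl hsq, Finset.sum_boole]
  rw [h] at h3
  exact_mod_cast h3.symm

theorem d8_norm_four {G : Type*} [Group G] [Fintype G] (θ : G → ℂ) (hθ : IsClassFunction G θ)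
    (h4 : classInner θ θ = 4) (h1 : classInner θ (fun _ => (1 : ℂ)) = 1)
    (hint : ∀ X : IrrCharacter G, ∃ k : ℤ, classInner θ (X : G → ℂ) = (k : ℂ))
    (X : IrrCharacter G) (ε : ℤ) (hε : ε = 1 ∨ ε = -1) (hX : classInner θ (X : G → ℂ) = (ε : ℂ))
    (hX1 : (X : G → ℂ) ≠ (fun _ => (1 : ℂ))) :
    ∃ (Y₂ Y₃ : IrrCharacter G) (a₂ a₃ : ℤ), (a₂ = 1 ∨ a₂ = -1) ∧ (a₃ = 1 ∨ a₃ = -1) ∧
      ∀ g, θ g = 1 + (ε : ℂ) * (X : G → ℂ) g + (a₂ : ℂ) * (Y₂ : G → ℂ) g + (a₃ : ℂ) * (Y₃ : G → ℂ) g := by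
  classical
  have : Fintype (IrrCharacter G) := Fintype.ofFinite _
  choose c hc using hint
  have hdec := Helper3.classFunction_eq_sum θ hθ
  have hsym : ∀ Y : IrrCharacter G, classInner (Y : G → ℂ) θ = (c Y : ℂ) := by
    intro Y
    rw [Helper3.classInner_conj θ Y, hc]
    simp
  have key := Helper3.classInner_sum_left Finset.univ
    (fun Y : IrrCharacter G => (Y : G → ℂ)) (fun Y => classInner θ Y) θ
  rw [← hdec] at key
  simp only [hc, hsym] at key
  rw [h4] at key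
  have hsumZ : ∑ Y : IrrCharacter G, c Y * c Y = 4 := by exact_mod_cast key.symm
  set T : IrrCharacter G := ⟨fun _ => (1 : ℂ), Helper80.trivial_isIrrCharacter⟩ with hT
  have hcT : c T = 1 := by
    have h5 := hc T
    rw [h1] at h5
    exact_mod_cast h5.symm
  have hcX : c X = ε := by
    have h5 := hc X
    rw [hX] at h5
    exact_mod_cast h5.symm
  have hXT : X ≠ T := by
    intro h
    apply hX1
    rw [h]
  have hXmem : X ∈ Finset.univ.erase T := Finset.mem_erase.mpr ⟨hXT, Finset.mem_univ X⟩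
  set S : Finset (IrrCharacter G) := (Finset.univ.erase T).erase X with hS
  have hεsq : ε * ε = 1 := by rcases hε with h | h <;> rw [h] <;> norm_num
  have hsumS : ∑ Y ∈ S, c Y * c Y = 2 := by
    have e1 := Finset.add_sum_erase Finset.univ (fun Y : IrrCharacter G => c Y * c Y)
      (Finset.mem_univ T)
    have e2 := Finset.add_sum_erase (Finset.univ.erase T) (fun Y : IrrCharacter G => c Y * c Y)
      hXmem
    rw [hsumZ, ← e2, hcT, hcX, hεsq] at e1
    linarith
  obtain ⟨hcard, hunit⟩ := d8_int_sq_sum_two S c hsumS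
  obtain ⟨Y₂, Y₃, h23, hpair⟩ := Finset.card_eq_two.mp hcard
  have hY₂ : Y₂ ∈ S.filter (fun Y => c Y ≠ 0) := by
    rw [hpair]
    exact Finset.mem_insert_self _ _
  have hY₃ : Y₃ ∈ S.filter (fun Y => c Y ≠ 0) := by
    rw [hpair]
    exact Finset.mem_insert_of_mem (Finset.mem_singleton_self _)
  obtain ⟨hY₂S, hc₂⟩ := Finset.mem_filter.mp hY₂
  obtain ⟨hY₃S, hc₃⟩ := Finset.mem_filter.mp hY₃
  refine ⟨Y₂, Y₃, c Y₂, c Y₃, hunit Y₂ hY₂S hc₂, hunit Y₃ hY₃S hc₃, ?_⟩
  intro g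
  have e : ∑ Y : IrrCharacter G, classInner θ Y • (Y : G → ℂ)
      = (1 : ℂ) • (fun _ : G => (1 : ℂ))
        + ((ε : ℂ) • (X : G → ℂ) + ((c Y₂ : ℂ) • (Y₂ : G → ℂ) + (c Y₃ : ℂ) • (Y₃ : G → ℂ))) := by
    simp only [hc]
    rw [← Finset.add_sum_erase Finset.univ _ (Finset.mem_univ T)]
    rw [hcT, Int.cast_one]
    congr 1
    rw [← Finset.add_sum_erase (Finset.univ.erase T) _ hXmem, hcX]
    congr 1
    rw [← Finset.sum_pair (f := fun Y : IrrCharacter G => (c Y : ℂ) • (Y : G → ℂ)) h23, ← hpair]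
    symm
    apply Finset.sum_subset (Finset.filter_subset _ _)
    intro Y hY hY'
    have hcY : c Y = 0 := by
      by_contra hne
      exact hY' (Finset.mem_filter.mpr ⟨hY, hne⟩)
    rw [hcY, Int.cast_zero, zero_smul]
  have h5 := congrFun (hdec.trans e) g
  rw [h5]
  simp only [Pi.add_apply, Pi.smul_apply, smul_eq_mul, mul_one]
  ring

end Cfsg.Agent.Helper61
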