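import Mathlib

/-!
# CALL S3716 (helper16), piece NT

Pure integer arithmetic: the 3-adic case analysis at the end of the `D8` configuration.
-/

set_option autoImplicit false

namespace Cfsg.Agent.Helper61

/-- `48 g' x² = 9 W` is impossible when `3 ∤ g'` and `3 ∤ x`. -/
theorem d8_arith_aux1 (g' x W : ℤ) (hg' : ¬ (3 : ℤ) ∣ g') (hx : ¬ (3 : ℤ) ∣ x)
    (h : 48 * g' * x ^ 2 = 9 * W) : False := by
  have h16 : (3 : ℤ) ∣ 16 * (g' * x ^ 2) := ⟨W, by linarith⟩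
  have h3 : (3 : ℤ) ∣ g' * x ^ 2 :=
    (Int.prime_three.dvd_or_dvd h16).resolve_left (by norm_num)
  rcases Int.prime_three.dvd_or_dvd h3 with h | h
  · exact hg' h
  · exact hx (Int.prime_three.dvd_of_dvd_pow h)

theorem d8_arith (g C₁ C₃ d k₁ k₃ ε a b : ℤ) (hg : 0 < g) (hC₁ : 0 < C₁) (hC₃ : 0 < C₃)
    (hd : 0 < d) (hε : ε = 1 ∨ ε = -1) (ha : a = 0 ∨ a = ε) (hb : b = 0 ∨ b = ε)
    (hg9 : (9 : ℤ) ∣ g) (hg27 : ¬ (27 : ℤ) ∣ g) (h13 : (3 : ℤ) ∣ C₁) (h19 : ¬ (9 : ℤ) ∣ C₁)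
    (h33 : (3 : ℤ) ∣ C₃) (h39 : ¬ (9 : ℤ) ∣ C₃)
    (hdx : (9 : ℤ) ∣ d - (a + b - ε))
    (hk1 : (3 : ℤ) ∣ (k₁ - d) - (2 * ε - 2 * b)) (hk3 : (3 : ℤ) ∣ (k₃ - d) - (2 * ε - 2 * a))
    (e1 : g * (((k₁ - d) * C₃) ^ 2 - 6 * ((k₁ - d) * C₃) * ((k₃ - d) * C₁)
      + 5 * ((k₃ - d) * C₁) ^ 2) = -2 * C₁ ^ 2 * C₃ ^ 2 * (d * (d + ε)))
    (e2 : g * (((k₁ - d) * C₃) ^ 2 + 6 * ((k₁ - d) * C₃) * ((k₃ - d) * C₁)
      - 7 * ((k₃ - d) * C₁) ^ 2) = 8 * C₁ ^ 2 * C₃ ^ 2 * (d * (d + ε))) :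
    d = 1 ∧ ε = -1 := by
  obtain ⟨g', rfl⟩ := hg9
  obtain ⟨c₁, rfl⟩ := h13
  obtain ⟨c₃, rfl⟩ := h33
  have hg' : ¬ (3 : ℤ) ∣ g' := by omega
  have hc₁ : ¬ (3 : ℤ) ∣ c₁ := by omega
  have hc₃ : ¬ (3 : ℤ) ∣ c₃ := by omega
  have hg'0 : g' ≠ 0 := by omega
  have hc₁0 : c₁ ≠ 0 := by omega
  have hc₃0 : c₃ ≠ 0 := by omega
  have e1' : g' * (((k₁ - d) * c₃) ^ 2 - 6 * ((k₁ - d) * c₃) * ((k₃ - d) * c₁)
      + 5 * ((k₃ - d) * c₁) ^ 2) = -2 * c₁ ^ 2 * c₃ ^ 2 * (d * (d + ε)) := by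
    have h81 : (81 : ℤ) * (g' * (((k₁ - d) * c₃) ^ 2 - 6 * ((k₁ - d) * c₃) * ((k₃ - d) * c₁)
        + 5 * ((k₃ - d) * c₁) ^ 2)) = 81 * (-2 * c₁ ^ 2 * c₃ ^ 2 * (d * (d + ε))) := by
      linear_combination e1
    exact mul_left_cancel₀ (by norm_num) h81
  have e2' : g' * (((k₁ - d) * c₃) ^ 2 + 6 * ((k₁ - d) * c₃) * ((k₃ - d) * c₁)
      - 7 * ((k₃ - d) * c₁) ^ 2) = 8 * c₁ ^ 2 * c₃ ^ 2 * (d * (d + ε)) := by
    have h81 : (81 : ℤ) * (g' * (((k₁ - d) * c₃) ^ 2 + 6 * ((k₁ - d) * c₃) * ((k₃ - d) * c₁)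
        - 7 * ((k₃ - d) * c₁) ^ 2)) = 81 * (8 * c₁ ^ 2 * c₃ ^ 2 * (d * (d + ε))) := by
      linear_combination e2
    exact mul_left_cancel₀ (by norm_num) h81
  have hprod : ((k₁ - d) * c₃ - (k₃ - d) * c₁) * (5 * ((k₁ - d) * c₃) - 13 * ((k₃ - d) * c₁)) = 0 := by
    have h0 : g' * (((k₁ - d) * c₃ - (k₃ - d) * c₁)
        * (5 * ((k₁ - d) * c₃) - 13 * ((k₃ - d) * c₁))) = 0 := by
      linear_combination 4 * e1' + e2'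
    exact (mul_eq_zero.mp h0).resolve_left hg'0
  rcases mul_eq_zero.mp hprod with hAB | hAB
  · -- case `A = B`
    have hD0 : c₁ ^ 2 * c₃ ^ 2 * (d * (d + ε)) = 0 := by
      have h2 : (2 : ℤ) * (c₁ ^ 2 * c₃ ^ 2 * (d * (d + ε))) = 2 * 0 := by
        linear_combination e1' - g' * ((k₁ - d) * c₃ - 5 * ((k₃ - d) * c₁)) * hAB
      exact mul_left_cancel₀ (by norm_num) h2
    have hcc : c₁ ^ 2 * c₃ ^ 2 ≠ 0 := mul_ne_zero (pow_ne_zero 2 hc₁0) (pow_ne_zero 2 hc₃0)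
    have hD : d * (d + ε) = 0 := (mul_eq_zero.mp hD0).resolve_left hcc
    have hdε : d + ε = 0 := (mul_eq_zero.mp hD).resolve_left (by omega)
    constructor <;> omega
  · -- case `5 A = 13 B`: impossible
    exfalso
    have hi : 48 * g' * (k₃ - d) ^ 2 = 25 * c₃ ^ 2 * (d * (d + ε)) := by
      have h2 : (2 * c₁ ^ 2) * (48 * g' * (k₃ - d) ^ 2)
          = (2 * c₁ ^ 2) * (25 * c₃ ^ 2 * (d * (d + ε))) := by
        linear_combination (-25 : ℤ) * e1'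
          + g' * (5 * ((k₁ - d) * c₃) - 17 * ((k₃ - d) * c₁)) * hAB
      exact mul_left_cancel₀ (mul_ne_zero (by norm_num) (pow_ne_zero 2 hc₁0)) h2
    have hii : 48 * g' * (k₁ - d) ^ 2 = 169 * c₁ ^ 2 * (d * (d + ε)) := by
      have h2 : (2 * c₃ ^ 2) * (48 * g' * (k₁ - d) ^ 2)
          = (2 * c₃ ^ 2) * (169 * c₁ ^ 2 * (d * (d + ε))) := by
        linear_combination (-169 : ℤ) * e1'
          + g' * (53 * ((k₁ - d) * c₃) - 65 * ((k₃ - d) * c₁)) * hAB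
      exact mul_left_cancel₀ (mul_ne_zero (by norm_num) (pow_ne_zero 2 hc₃0)) h2
    rcases ha with ha | ha <;> rcases hb with hb | hb
    · -- `(a, b) = (0, 0)`
      have hx₃ : ¬ (3 : ℤ) ∣ (k₃ - d) := by omega
      obtain ⟨m, hm⟩ : (9 : ℤ) ∣ d + ε := by omega
      refine d8_arith_aux1 g' (k₃ - d) (25 * c₃ ^ 2 * d * m) hg' hx₃ ?_
      rw [hi, hm]; ring
    · -- `(a, b) = (0, ε)`
      have hx₃ : ¬ (3 : ℤ) ∣ (k₃ - d) := by omega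
      obtain ⟨m, hm⟩ : (9 : ℤ) ∣ d := by omega
      refine d8_arith_aux1 g' (k₃ - d) (25 * c₃ ^ 2 * m * (d + ε)) hg' hx₃ ?_
      rw [hi]
      nth_rewrite 1 [hm]
      ring
    · -- `(a, b) = (ε, 0)`
      have hx₁ : ¬ (3 : ℤ) ∣ (k₁ - d) := by omega
      obtain ⟨m, hm⟩ : (9 : ℤ) ∣ d := by omega
      refine d8_arith_aux1 g' (k₁ - d) (169 * c₁ ^ 2 * m * (d + ε)) hg' hx₁ ?_
      rw [hii]
      nth_rewrite 1 [hm]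
      ring
    · -- `(a, b) = (ε, ε)`
      have h25 : (3 : ℤ) ∣ 25 * (c₃ ^ 2 * (d * (d + ε))) :=
        ⟨16 * g' * (k₃ - d) ^ 2, by linarith⟩
      have h3 : (3 : ℤ) ∣ c₃ ^ 2 * (d * (d + ε)) :=
        (Int.prime_three.dvd_or_dvd h25).resolve_left (by norm_num)
      rcases Int.prime_three.dvd_or_dvd h3 with h | h
      · exact hc₃ (Int.prime_three.dvd_of_dvd_pow h)
      · rcases Int.prime_three.dvd_or_dvd h with h | h <;> omega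

end Cfsg.Agent.Helper61
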