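import Mathlib
import Cfsg.Agent.Helper16.S4Defs2

/-!
# CALL S3702 (helper16), PIECE XB2: `xb_cent`, `xb_frob`, `xb_b`
(`C_G(x) = W ⋊ φ P₂`: elements of `P₂ ∖ ⟨x⟩` act fixed-point-freely on `W`, the Frobenius
surjectivity, and `b` normalises `W`).
-/

set_option autoImplicit false

namespace Cfsg.Agent.Helper61

open Cfsg Cfsg.Agent.Helper16 DihedralGroup

/-- model: `z` is a product of powers of `x` and of any `m ∈ P₂ ∖ ⟨x⟩` -/
theorem s4xb2_m_gen : ∀ m : SM, sP m → m ≠ 1 → m ≠ sx → m ≠ sx⁻¹ →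
    ∃ a b : Fin 3, sz = sx ^ a.val * m ^ b.val := by
  decide +kernel

/-- model: `b⁻¹ x b = x⁻¹` -/
theorem s4xb2_m_b : sb⁻¹ * sx * sb = sx⁻¹ := by
  decide +kernel

section

variable {G : Type*} [Group G] {φ : SM →* G} {W : Subgroup G}

-- XB2 (the XB1 statements as hypotheses)
theorem xb_cent [Finite G] (h : S4Cfg φ) (hW : XData φ W)
    (hcz : ∀ w ∈ W, w * φ sz = φ sz * w → w = 1) :
    ∀ m : SM, sP m → m ≠ 1 → m ≠ sx → m ≠ sx⁻¹ → ∀ w ∈ W, w * φ m = φ m * w → w = 1 := by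
  intro m hm hm1 hmx hmx' w hw hcomm
  obtain ⟨a, b, hab⟩ := s4xb2_m_gen m hm hm1 hmx hmx'
  apply hcz w hw
  rw [hab, map_mul, map_pow, map_pow]
  have h1 : Commute w (φ sx) := hW.le w hw
  have h2 : Commute w (φ m) := hcomm
  exact ((h1.pow_right _).mul_right (h2.pow_right _)).eq

theorem xb_frob [Finite G] (h : S4Cfg φ) (hW : XData φ W)
    (hcz : ∀ w ∈ W, w * φ sz = φ sz * w → w = 1) :
    ∀ m : SM, sP m → m ≠ 1 → m ≠ sx → m ≠ sx⁻¹ → ∀ w₁ ∈ W, ∃ c ∈ W, c * φ m * c⁻¹ = w₁ * φ m := by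
  intro m hm hm1 hmx hmx' w₁ hw₁
  have hmC : φ m * φ sx = φ sx * φ m := by
    rw [← map_mul, ← map_mul]
    exact congrArg φ hm
  have hmem : ∀ c : ↥W, (c : G) * (φ m * (c : G)⁻¹ * (φ m)⁻¹) ∈ W := fun c =>
    W.mul_mem c.2 (hW.norm (φ m) hmC _ (W.inv_mem c.2))
  have hinj : Function.Injective (fun c : ↥W => (⟨(c : G) * (φ m * (c : G)⁻¹ * (φ m)⁻¹), hmem c⟩ : ↥W)) := by
    intro c c' hcc
    have h1 : (c : G) * (φ m * (c : G)⁻¹ * (φ m)⁻¹) = (c' : G) * (φ m * (c' : G)⁻¹ * (φ m)⁻¹) :=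
      congrArg Subtype.val hcc
    have h2 : ((c' : G)⁻¹ * (c : G)) * φ m = φ m * ((c' : G)⁻¹ * (c : G)) := by
      have h3 : (c : G) * φ m * (c : G)⁻¹ = (c' : G) * φ m * (c' : G)⁻¹ := by
        have := congrArg (fun t => t * φ m) h1
        simpa [mul_assoc] using this
      calc ((c' : G)⁻¹ * (c : G)) * φ m = (c' : G)⁻¹ * ((c : G) * φ m * (c : G)⁻¹) * (c : G) := by group
        _ = (c' : G)⁻¹ * ((c' : G) * φ m * (c' : G)⁻¹) * (c : G) := by rw [h3]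
        _ = φ m * ((c' : G)⁻¹ * (c : G)) := by group
    have h4 := xb_cent h hW hcz m hm hm1 hmx hmx' _ (W.mul_mem (W.inv_mem c'.2) c.2) h2
    apply Subtype.ext
    exact (inv_mul_eq_one.mp h4).symm
  have hsurj := Finite.injective_iff_surjective.mp hinj
  obtain ⟨c, hc⟩ := hsurj ⟨w₁, hw₁⟩
  refine ⟨c, c.2, ?_⟩
  have h1 : (c : G) * (φ m * (c : G)⁻¹ * (φ m)⁻¹) = w₁ := congrArg Subtype.val hc
  rw [← h1]
  group

theorem xb_b [Finite G] (h : S4Cfg φ) (hW : XData φ W)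
    (hmem : ∀ c : G, c * φ sx = φ sx * c → ∀ n : ℕ, n.Coprime 3 → c ^ n = 1 → c ∈ W) :
    ∀ w ∈ W, φ sb * w * (φ sb)⁻¹ ∈ W := by
  intro w hw
  apply hmem _ _ (Nat.card W) hW.cop
  · -- (b w b⁻¹)^n = 1
    have h1 : w ^ Nat.card W = 1 := by
      have := pow_card_eq_one' (G := ↥W) (x := ⟨w, hw⟩)
      exact congrArg Subtype.val this
    have h2 : (φ sb * w * (φ sb)⁻¹) ^ Nat.card W = φ sb * w ^ Nat.card W * (φ sb)⁻¹ :=
      conj_pow
    rw [h2, h1]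
    group
  · -- commutes with x
    have hb : (φ sb)⁻¹ * φ sx * φ sb = (φ sx)⁻¹ := by
      rw [← map_inv, ← map_mul, ← map_mul, s4xb2_m_b, map_inv]
    have hwx : w * φ sx = φ sx * w := hW.le w hw
    have hwxi : w * (φ sx)⁻¹ = (φ sx)⁻¹ * w := by
      have : Commute w (φ sx) := hwx
      exact this.inv_right.eq
    calc φ sb * w * (φ sb)⁻¹ * φ sx = φ sb * w * ((φ sb)⁻¹ * φ sx * φ sb) * (φ sb)⁻¹ := by group
      _ = φ sb * (w * (φ sx)⁻¹) * (φ sb)⁻¹ := by rw [hb]; group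
      _ = φ sb * ((φ sx)⁻¹ * w) * (φ sb)⁻¹ := by rw [hwxi]
      _ = φ sb * ((φ sb)⁻¹ * φ sx * φ sb) * w * (φ sb)⁻¹ := by rw [hb]; group
      _ = φ sx * (φ sb * w * (φ sb)⁻¹) := by group

end

end Cfsg.Agent.Helper61
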