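import Mathlib

set_option autoImplicit false
set_option linter.unusedSectionVars false
set_option linter.unusedVariables false
set_option linter.unusedSimpArgs false
set_option linter.style.haveILetI false

namespace Cfsg.Agent.Helper61

/-- a finite abelian 2-group with at most one involution is cyclic -/
theorem aic_p10_aux {A : Type*} [CommGroup A] [Fintype A] [DecidableEq A] (hA : IsPGroup 2 A)
    (v : A) (hv : ∀ t : A, t ^ 2 = 1 → t = 1 ∨ t = v) : IsCyclic A := by
  have hΩ : ∀ k : ℕ, (Finset.univ.filter (fun a : A => a ^ (2 ^ k) = 1)).card ≤ 2 ^ k := by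
    intro k
    induction k with
    | zero =>
      have : (Finset.univ.filter (fun a : A => a ^ (2 ^ 0) = 1)) = {1} := by
        ext a
        simp
      rw [this]
      simp
    | succ k ih =>
      have hfib : ∀ b ∈ (Finset.univ.filter (fun a : A => a ^ (2 ^ (k + 1)) = 1)).image
          (fun a : A => a ^ 2),
          ((Finset.univ.filter (fun a : A => a ^ (2 ^ (k + 1)) = 1)).filter
            (fun x => x ^ 2 = b)).card ≤ 2 := by
        intro b hb
        obtain ⟨x0, hx0, rfl⟩ := Finset.mem_image.mp hb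
        have hsub : ((Finset.univ.filter (fun a : A => a ^ (2 ^ (k + 1)) = 1)).filter
            (fun x => x ^ 2 = x0 ^ 2)) ⊆ {x0, v * x0} := by
          intro x hx
          simp only [Finset.mem_filter, Finset.mem_univ, true_and] at hx
          simp only [Finset.mem_insert, Finset.mem_singleton]
          have h1 : (x * x0⁻¹) ^ 2 = 1 := by rw [mul_pow, inv_pow, hx.2, mul_inv_cancel]
          rcases hv _ h1 with h | h
          · left; exact mul_inv_eq_one.mp h
          · right; rw [← h, inv_mul_cancel_right]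
        exact (Finset.card_le_card hsub).trans Finset.card_le_two
      have h1 := Finset.card_le_mul_card_image (f := fun a : A => a ^ 2)
        (Finset.univ.filter (fun a : A => a ^ (2 ^ (k + 1)) = 1)) 2 hfib
      have h2 : (Finset.univ.filter (fun a : A => a ^ (2 ^ (k + 1)) = 1)).image
          (fun a : A => a ^ 2) ⊆ Finset.univ.filter (fun a : A => a ^ (2 ^ k) = 1) := by
        intro b hb
        obtain ⟨a, ha, rfl⟩ := Finset.mem_image.mp hb
        simp only [Finset.mem_filter, Finset.mem_univ, true_and] at ha ⊢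
        rw [← pow_mul, ← pow_succ']
        exact ha
      calc (Finset.univ.filter (fun a : A => a ^ (2 ^ (k + 1)) = 1)).card
          ≤ 2 * ((Finset.univ.filter (fun a : A => a ^ (2 ^ (k + 1)) = 1)).image
              (fun a : A => a ^ 2)).card := h1
        _ ≤ 2 * (Finset.univ.filter (fun a : A => a ^ (2 ^ k) = 1)).card :=
            Nat.mul_le_mul_left _ (Finset.card_le_card h2)
        _ ≤ 2 * 2 ^ k := Nat.mul_le_mul_left _ ih
        _ = 2 ^ (k + 1) := by ring
  apply isCyclic_of_card_pow_eq_one_le
  intro n hn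
  obtain ⟨k, m, hm, rfl⟩ := Nat.exists_eq_two_pow_mul_odd hn.ne'
  have hsub : (Finset.univ.filter (fun a : A => a ^ (2 ^ k * m) = 1)) ⊆
      Finset.univ.filter (fun a : A => a ^ (2 ^ k) = 1) := by
    intro a ha
    simp only [Finset.mem_filter, Finset.mem_univ, true_and] at ha ⊢
    obtain ⟨j, hj⟩ := hA a
    have h1 : orderOf a ∣ 2 ^ j := orderOf_dvd_of_pow_eq_one hj
    have h2 : orderOf a ∣ 2 ^ k * m := orderOf_dvd_of_pow_eq_one ha
    have hcop : Nat.Coprime (orderOf a) m :=
      Nat.Coprime.coprime_dvd_left h1 (Nat.Coprime.pow_left j (Nat.coprime_two_left.mpr hm))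
    have h3 : orderOf a ∣ 2 ^ k := hcop.dvd_of_dvd_mul_right h2
    exact orderOf_dvd_iff_pow_eq_one.mp h3
  calc (Finset.univ.filter (fun a : A => a ^ (2 ^ k * m) = 1)).card
      ≤ (Finset.univ.filter (fun a : A => a ^ (2 ^ k) = 1)).card := Finset.card_le_card hsub
    _ ≤ 2 ^ k := hΩ k
    _ ≤ 2 ^ k * m := Nat.le_mul_of_pos_right _ hm.pos

/-- PIECE P10 of CALL S2202 -/
theorem exists_two_involutions_of_not_cyclic {G : Type*} [Group G] [Finite G] (H : Subgroup G)
    (h2 : IsPGroup 2 H) (hab : ∀ x ∈ H, ∀ y ∈ H, x * y = y * x) (hnc : ¬ IsCyclic H) :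
    ∃ t ∈ H, ∃ t' ∈ H, orderOf t = 2 ∧ orderOf t' = 2 ∧ t ≠ t' := by
  classical
  by_contra hcon
  push Not at hcon
  apply hnc
  haveI : Fintype ↥H := Fintype.ofFinite _
  letI : CommGroup ↥H :=
    { (inferInstance : Group ↥H) with mul_comm := fun a b => Subtype.ext (hab a a.2 b b.2) }
  by_cases hex : ∃ t : ↥H, orderOf t = 2
  · obtain ⟨t0, ht0⟩ := hex
    exact aic_p10_aux h2 t0 (fun t ht => by
      by_cases h1 : t = 1
      · exact Or.inl h1
      · right
        have : orderOf t = 2 := orderOf_eq_prime ht h1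
        exact Subtype.ext (hcon t t.2 t0 t0.2 (by rw [Subgroup.orderOf_coe]; exact this)
          (by rw [Subgroup.orderOf_coe]; exact ht0)))
  · push Not at hex
    exact aic_p10_aux h2 1 (fun t ht => by
      left
      by_contra h1
      exact hex t (orderOf_eq_prime ht h1))

end Cfsg.Agent.Helper61
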