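import Mathlib
import Cfsg.Agent.Helper3.AicDefs
import Cfsg.Agent.S1230

set_option autoImplicit false
set_option linter.unusedSectionVars false
set_option linter.unusedVariables false
set_option linter.unusedSimpArgs false
set_option linter.style.haveILetI false

namespace Cfsg.Agent.Helper61

open Cfsg.Agent.Helper3

universe u

/-- a copy of `Fin n` without algebraic instances -/
structure AicSmall (n : ℕ) : Type where
  val : Fin n

def aicSmallEquiv (n : ℕ) : AicSmall n ≃ Fin n where
  toFun := AicSmall.val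
  invFun := AicSmall.mk
  left_inv := fun _ => rfl
  right_inv := fun _ => rfl

theorem aic_exists_small (Z : Type u) [CommGroup Z] [Finite Z] :
    ∃ (A : Type) (_ : CommGroup A) (_ : Finite A), Nat.card A = Nat.card Z ∧ Nonempty (Z ≃* A) := by
  classical
  let e : AicSmall (Nat.card Z) ≃ Z := (aicSmallEquiv _).trans (Finite.equivFin Z).symm
  letI inst : CommGroup (AicSmall (Nat.card Z)) := e.commGroup
  refine ⟨AicSmall (Nat.card Z), inst, Finite.of_equiv _ e.symm, Nat.card_congr e, ?_⟩
  exact ⟨(e.mulEquiv).symm⟩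

theorem aic_sl2_center_bot (F : Type) [Field F] [CharP F 2] :
    Subgroup.center (Matrix.SpecialLinearGroup (Fin 2) F) = ⊥ := by
  rw [eq_bot_iff]
  intro A hA
  rw [Matrix.SpecialLinearGroup.mem_center_iff] at hA
  obtain ⟨r, hr, hrA⟩ := hA
  rw [Fintype.card_fin] at hr
  have h2 : (2 : F) = 0 := by
    have := CharP.cast_eq_zero F 2
    exact_mod_cast this
  have hr1 : r = 1 := by
    have : (r - 1) ^ 2 = 0 := by linear_combination hr + (1 - r) * h2
    exact sub_eq_zero.mp ((pow_eq_zero_iff two_ne_zero).mp this)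
  rw [Subgroup.mem_bot]
  apply Subtype.ext
  rw [← hrA, hr1, map_one]
  rfl

theorem aic_invClosure_normal (G : Type*) [Group G] : (invClosure G).Normal := by
  constructor
  intro x hx g
  unfold invClosure at hx ⊢
  induction hx using Subgroup.closure_induction with
  | mem y hy =>
    apply Subgroup.subset_closure
    show orderOf (g * y * g⁻¹) = 2
    have := (MulAut.conj g).orderOf_eq y
    rw [MulAut.conj_apply] at this
    rw [this]
    exact hy
  | one => simp
  | mul a b _ _ ha hb =>
    have := mul_mem ha hb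
    simpa [mul_assoc] using this
  | inv a _ ha =>
    have := inv_mem ha
    simpa [mul_assoc] using this

/-- an element of `invClosure G` commuting with an involution is an involution or trivial -/
theorem aic_sq_eq_one {G : Type*} [Group G] [Finite G] (hc : AicConcl G) (t x : G)
    (ht : orderOf t = 2) (hx : x ∈ invClosure G) (hxt : Commute x t) : x ^ 2 = 1 := by
  obtain ⟨hc1, hc2, hc3, hc4, hc5⟩ := hc
  have hn : orderOf x ≠ 0 := (orderOf_pos x).ne'
  obtain ⟨a, m, hm, hnm⟩ := Nat.exists_eq_two_pow_mul_odd hn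
  have hy1 : x ^ (2 ^ a) = 1 := by
    have hyo : Odd (orderOf (x ^ (2 ^ a))) := by
      have hdvd : orderOf (x ^ (2 ^ a)) ∣ m := by
        apply orderOf_dvd_of_pow_eq_one
        rw [← pow_mul, ← hnm, pow_orderOf_eq_one]
      exact Odd.of_dvd_nat hm hdvd
    have hyZ := hc2 t (x ^ (2 ^ a)) ht (hxt.pow_left _) hyo
    have hyL : x ^ (2 ^ a) ∈ invClosure G := Subgroup.pow_mem _ hx _
    have : x ^ (2 ^ a) ∈ invClosure G ⊓ Subgroup.center G := ⟨hyL, hyZ⟩
    rw [hc3] at this
    exact this
  have hp : IsPGroup 2 (Subgroup.zpowers x) := by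
    rintro ⟨g, hg⟩
    obtain ⟨i, rfl⟩ := Subgroup.mem_zpowers_iff.mp hg
    refine ⟨a, ?_⟩
    apply Subtype.ext
    simp only [Subgroup.coe_pow, Subgroup.coe_one]
    rw [← zpow_natCast, ← zpow_mul, mul_comm, zpow_mul, zpow_natCast, hy1, one_zpow]
  obtain ⟨Q, hQ⟩ := hp.exists_le_sylow
  exact hc1 Q x (hQ (Subgroup.mem_zpowers x))

theorem aic_final {G : Type*} [Group G] [Finite G] (h : AbInvCent G) (P : Sylow 2 G)
    (hnc : ¬ IsCyclic (P : Subgroup G)) (hnn : ¬ (P : Subgroup G).Normal) (hc : AicConcl G) :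
    ∃ (F : Type) (_ : Field F) (_ : Fintype F) (A : Type) (_ : CommGroup A) (_ : Finite A),
      CharP F 2 ∧ Odd (Nat.card A) ∧ Nonempty (G ≃* Matrix.SpecialLinearGroup (Fin 2) F × A) := by
  classical
  have hc' := hc
  obtain ⟨hc1, hc2, hc3, hc4, hc5⟩ := hc
  haveI hLn : (invClosure G).Normal := aic_invClosure_normal G
  -- Sylow 2-subgroups lie in `L`
  have hPL : (P : Subgroup G) ≤ invClosure G := by
    intro x hx
    by_cases hx1 : x = 1
    · rw [hx1]; exact one_mem _
    · apply Subgroup.subset_closure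
      exact orderOf_eq_prime (hc1 P x hx) hx1
  -- the Sylow subgroup of `L`
  have hTnc : ¬ IsCyclic ((P.subtype hPL : Sylow 2 ↥(invClosure G)) : Subgroup ↥(invClosure G)) := by
    intro hcyc
    apply hnc
    rw [Sylow.coe_subtype] at hcyc
    exact isCyclic_of_surjective (Subgroup.subgroupOfEquivOfLe hPL)
      (Subgroup.subgroupOfEquivOfLe hPL).surjective
  have hTnn : ¬ ((P.subtype hPL : Sylow 2 ↥(invClosure G)) : Subgroup ↥(invClosure G)).Normal := by
    intro hN
    apply hnn
    haveI := Sylow.characteristic_of_normal (P.subtype hPL) hN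
    have := ConjAct.normal_of_characteristic_of_normal (H := invClosure G)
      (K := ((P.subtype hPL : Sylow 2 ↥(invClosure G)) : Subgroup ↥(invClosure G)))
    rw [Sylow.coe_subtype, Subgroup.map_subgroupOf_eq_of_le hPL] at this
    exact this
  have hC : ∀ t : ↥(invClosure G), orderOf t = 2 →
      IsMulCommutative (Subgroup.centralizer ({t} : Set ↥(invClosure G))) ∧
      ∀ c ∈ Subgroup.centralizer ({t} : Set ↥(invClosure G)), c ^ 2 = 1 := by
    intro t ht
    have ht' : orderOf (t : G) = 2 := by rw [Subgroup.orderOf_coe]; exact ht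
    constructor
    · refine ⟨⟨fun a b => ?_⟩⟩
      have ha : ((a : ↥(invClosure G)) : G) ∈ Subgroup.centralizer ({(t : G)} : Set G) := by
        rw [Subgroup.mem_centralizer_iff]
        intro y hy
        rw [Set.mem_singleton_iff] at hy
        subst hy
        have := Subgroup.mem_centralizer_iff.mp a.2 t rfl
        exact congrArg Subtype.val this
      have hb : ((b : ↥(invClosure G)) : G) ∈ Subgroup.centralizer ({(t : G)} : Set G) := by
        rw [Subgroup.mem_centralizer_iff]
        intro y hy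
        rw [Set.mem_singleton_iff] at hy
        subst hy
        have := Subgroup.mem_centralizer_iff.mp b.2 t rfl
        exact congrArg Subtype.val this
      have hcomm := (h (t : G) ht').is_comm.comm ⟨_, ha⟩ ⟨_, hb⟩
      have hcomm' := congrArg Subtype.val hcomm
      apply Subtype.ext
      apply Subtype.ext
      exact hcomm'
    · intro c hcm
      have hct : Commute (c : G) (t : G) := by
        have := Subgroup.mem_centralizer_iff.mp hcm t rfl
        exact (congrArg Subtype.val this).symm
      have := aic_sq_eq_one hc' (t : G) (c : G) ht' c.2 hct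
      apply Subtype.ext
      simpa using this
  obtain ⟨F, hF1, hF2, hcard, ⟨e⟩⟩ := Cfsg.Agent.S1230.result (P.subtype hPL) hTnc hTnn hC
  letI := hF1
  letI := hF2
  have hchar : CharP F 2 := by
    obtain ⟨p, hp⟩ := CharP.exists F
    haveI := hp
    have hpp : p.Prime := CharP.char_is_prime F p
    haveI : Fact p.Prime := ⟨hpp⟩
    obtain ⟨n, -, hn⟩ := FiniteField.card F p
    obtain ⟨k, hk⟩ := (IsPGroup.iff_card.mp (P.subtype hPL).2)
    have hdvd : p ∣ 2 ^ k := by
      rw [← hk, ← hcard, hn]
      exact dvd_pow_self p n.ne_zero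
    have hp2 : p = 2 := (Nat.prime_dvd_prime_iff_eq hpp Nat.prime_two).mp (hpp.dvd_of_dvd_pow hdvd)
    subst hp2
    exact hp
  haveI := hchar
  -- `PSL₂ ≃ SL₂` in characteristic two
  have ePSL : Matrix.ProjectiveSpecialLinearGroup (Fin 2) F ≃* Matrix.SpecialLinearGroup (Fin 2) F :=
    (QuotientGroup.quotientMulEquivOfEq (aic_sl2_center_bot F)).trans QuotientGroup.quotientBot
  -- the direct decomposition
  let ψ : ↥(invClosure G) × ↥(Subgroup.center G) →* G :=
    { toFun := fun p => (p.1 : G) * (p.2 : G)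
      map_one' := by simp
      map_mul' := by
        rintro ⟨l1, z1⟩ ⟨l2, z2⟩
        simp only [Prod.mk_mul_mk, Subgroup.coe_mul]
        have := Subgroup.mem_center_iff.mp z1.2 (l2 : G)
        simp only [mul_assoc]
        congr 1
        rw [← mul_assoc, this, mul_assoc] }
  have hψinj : Function.Injective ψ := by
    rw [injective_iff_map_eq_one]
    rintro ⟨l, z⟩ hlz
    have hlz' : (l : G) * (z : G) = 1 := hlz
    have hl : (l : G) = (z : G)⁻¹ := eq_inv_of_mul_eq_one_left hlz'
    have hmem : (l : G) ∈ invClosure G ⊓ Subgroup.center G :=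
      ⟨l.2, by rw [hl]; exact (Subgroup.center G).inv_mem z.2⟩
    rw [hc3, Subgroup.mem_bot] at hmem
    have hz : (z : G) = 1 := by rw [hmem, one_mul] at hlz'; exact hlz'
    exact Prod.ext (Subtype.ext hmem) (Subtype.ext hz)
  have hψsurj : Function.Surjective ψ := by
    intro g
    have hg : g ∈ ((invClosure G ⊔ Subgroup.center G : Subgroup G) : Set G) := by
      rw [hc4]; exact Set.mem_univ g
    rw [Subgroup.mul_normal, Set.mem_mul] at hg
    obtain ⟨l, hl, z, hz, rfl⟩ := hg
    exact ⟨(⟨l, hl⟩, ⟨z, hz⟩), rfl⟩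
  have eG : G ≃* ↥(invClosure G) × ↥(Subgroup.center G) :=
    (MulEquiv.ofBijective ψ ⟨hψinj, hψsurj⟩).symm
  -- the centre has odd order
  have hZodd : Odd (Nat.card ↥(Subgroup.center G)) := by
    rw [← Nat.not_even_iff_odd, even_iff_two_dvd]
    intro h2
    haveI : Fact (Nat.Prime 2) := ⟨Nat.prime_two⟩
    obtain ⟨z, hz⟩ := exists_prime_orderOf_dvd_card' 2 h2
    have hz' : orderOf (z : G) = 2 := by rw [Subgroup.orderOf_coe]; exact hz
    have hmem : (z : G) ∈ invClosure G ⊓ Subgroup.center G :=
      ⟨Subgroup.subset_closure hz', z.2⟩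
    rw [hc3, Subgroup.mem_bot] at hmem
    rw [hmem, orderOf_one] at hz'
    omega
  letI instZ : CommGroup ↥(Subgroup.center G) :=
    { (inferInstance : Group ↥(Subgroup.center G)) with mul_comm := mul_comm' }
  obtain ⟨A, hA1, hA2, hAcard, ⟨eA⟩⟩ := aic_exists_small ↥(Subgroup.center G)
  refine ⟨F, hF1, hF2, A, hA1, hA2, hchar, ?_, ?_⟩
  · rw [hAcard]
    exact hZodd
  · exact ⟨eG.trans (MulEquiv.prodCongr (e.trans ePSL) eA)⟩

end Cfsg.Agent.Helper61
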