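import Mathlib
import Cfsg.Prelude.Def_CaseTheorems
import Cfsg.Prelude.Def_OddOrderLocal
import Cfsg.Agent.Helper49.OddCyclic
import Cfsg.Agent.Helper49.MinNormal
import Cfsg.Agent.Helper29.PCube

set_option autoImplicit false
set_option linter.unusedSectionVars false
set_option linter.unusedVariables false
set_option linter.unusedSimpArgs false
set_option linter.style.haveILetI false

namespace Cfsg.Agent.Helper61

variable {G : Type*} [Group G] [Finite G] {p : ℕ} [Fact p.Prime]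

/-- three pairwise commuting elements of order dividing `p`, forming a strictly increasing chain
`⟨w⟩ < ⟨y, w⟩ < ⟨f, y, w⟩`, contradict `p`-rank at most `2`. -/
theorem bkJ3e_rank (n : ℕ) (hG : Nat.card G = p ^ n) (hrk : Cfsg.PRankLE p 2 G)
    (f y w : G) (hfy : f * y = y * f) (hfw : f * w = w * f) (hyw : y * w = w * y)
    (hf : f ^ p = 1) (hy : y ^ p = 1) (hw : w ^ p = 1) (hw1 : w ≠ 1)
    (hyW : y ∉ Subgroup.zpowers w) (hfA : f ∉ Subgroup.closure ({y, w} : Set G)) : False := by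
  classical
  have hpp : p.Prime := Fact.out
  have hcomm : ∀ a ∈ ({f, y, w} : Set G), ∀ b ∈ ({f, y, w} : Set G), a * b = b * a := by
    intro a ha b hb
    simp only [Set.mem_insert_iff, Set.mem_singleton_iff] at ha hb
    rcases ha with rfl | rfl | rfl <;> rcases hb with rfl | rfl | rfl <;>
      first | rfl | assumption | (symm; assumption)
  have hpow : ∀ a ∈ ({f, y, w} : Set G), a ^ p = 1 := by
    intro a ha
    simp only [Set.mem_insert_iff, Set.mem_singleton_iff] at ha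
    rcases ha with rfl | rfl | rfl <;> assumption
  have hA := hrk (Subgroup.closure ({f, y, w} : Set G)) (Subgroup.isMulCommutative_closure hcomm)
    (Cfsg.Agent.Helper49.pow_eq_one_of_mem_closure_of_commute hcomm hpow)
  have hWA0 : Subgroup.zpowers w < Subgroup.closure ({y, w} : Set G) := by
    refine lt_of_le_of_ne ?_ ?_
    · rw [Subgroup.zpowers_le]
      exact Subgroup.subset_closure (by simp)
    · intro h
      apply hyW
      rw [h]
      exact Subgroup.subset_closure (by simp)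
  have hA0A : Subgroup.closure ({y, w} : Set G) < Subgroup.closure ({f, y, w} : Set G) := by
    refine lt_of_le_of_ne ?_ ?_
    · apply Subgroup.closure_mono
      intro a ha
      exact Set.mem_insert_of_mem _ ha
    · intro h
      apply hfA
      rw [h]
      exact Subgroup.subset_closure (by simp)
  have h1 := Cfsg.Agent.Helper29.card_lt_card_of_lt' hWA0
  have h2 := Cfsg.Agent.Helper29.card_lt_card_of_lt' hA0A
  have hd : ∀ H : Subgroup G, ∃ k, Nat.card H = p ^ k := by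
    intro H
    have hdvd : Nat.card H ∣ p ^ n := hG ▸ Subgroup.card_subgroup_dvd_card H
    obtain ⟨m, -, hm⟩ := (Nat.dvd_prime_pow hpp).mp hdvd
    exact ⟨m, hm⟩
  obtain ⟨a, ha⟩ := hd (Subgroup.zpowers w)
  obtain ⟨b, hb⟩ := hd (Subgroup.closure ({y, w} : Set G))
  obtain ⟨c, hc⟩ := hd (Subgroup.closure ({f, y, w} : Set G))
  rw [ha, hb] at h1
  rw [hb, hc] at h2
  rw [hc] at hA
  have hab : a < b := (Nat.pow_lt_pow_iff_right hpp.one_lt).mp h1
  have hbc : b < c := (Nat.pow_lt_pow_iff_right hpp.one_lt).mp h2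
  have hc2 : c ≤ 2 := (Nat.pow_le_pow_iff_right hpp.one_lt).mp hA
  have ha0 : a ≠ 0 := by
    rintro rfl
    rw [pow_zero, Nat.card_zpowers] at ha
    exact hw1 (orderOf_eq_one_iff.mp ha)
  omega

/-- PIECE J3e of CALL S3888. -/
theorem bk_f2_z (hp : p ≠ 2) (n : ℕ) (hG : Nat.card G = p ^ n) (hrk : Cfsg.PRankLE p 2 G)
    (E : Subgroup G) [E.Normal] (hE : Nat.card E = p ^ 3) (hexp : ∀ e ∈ E, e ^ p = 1)
    (x y w : G) (hx : x ∈ E) (hy : y ∈ E) (hw : w ∈ E) (hw1 : w ≠ 1)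
    (hwc : w ∈ Subgroup.center G) (hxy : x * y * x⁻¹ * y⁻¹ = w)
    (hY : ∀ g : G, g * y * g⁻¹ * y⁻¹ ∈ Subgroup.zpowers w)
    (hcyc : IsCyclic (Subgroup.centralizer (E : Set G)))
    (hΩ : ∀ v ∈ Subgroup.centralizer (E : Set G), v ^ p = 1 → v ∈ Subgroup.zpowers w)
    (hpow : ∀ g : G, g ^ p ∈ Subgroup.centralizer (E : Set G))
    (hK : ∃ g : G, ¬ ∃ e ∈ E, ∃ c ∈ Subgroup.centralizer (E : Set G), g = e * c) :
    ∃ z : G, z * y = y * z ∧
      (¬ ∃ e ∈ E, ∃ c ∈ Subgroup.centralizer (E : Set G), z = e * c) ∧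
      ∀ v ∈ Subgroup.centralizer (E : Set G), v ∈ Subgroup.zpowers (z ^ p) := by
  classical
  have hpp : p.Prime := Fact.out
  have hEn : E.Normal := inferInstance
  obtain ⟨C, hCdef⟩ : ∃ C, C = Subgroup.centralizer (E : Set G) := ⟨_, rfl⟩
  rw [← hCdef] at hcyc hΩ hpow hK ⊢
  have hCmem : ∀ c, c ∈ C ↔ ∀ e ∈ E, e * c = c * e := by
    intro c
    rw [hCdef, Subgroup.mem_centralizer_iff]
    exact Iff.rfl
  have hwG : ∀ g : G, g * w = w * g := fun g => Subgroup.mem_center_iff.mp hwc g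
  have hwz : ∀ (i : ℤ) (g : G), g * w ^ i = w ^ i * g := fun i g =>
    (Commute.zpow_right (hwG g) i).eq
  have hCconj : ∀ c ∈ C, ∀ h : G, h * c * h⁻¹ ∈ C := by
    intro c hc h
    rw [hCmem]
    intro e he
    have he' : h⁻¹ * e * h ∈ E := by
      have := hEn.conj_mem e he h⁻¹
      rwa [inv_inv] at this
    have h1 := (hCmem c).mp hc _ he'
    calc e * (h * c * h⁻¹) = h * (h⁻¹ * e * h * c) * h⁻¹ := by group
      _ = h * (c * (h⁻¹ * e * h)) * h⁻¹ := by rw [h1]
      _ = h * c * h⁻¹ * e := by group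
  -- Step 1: `f ∉ K` commuting with `y`
  obtain ⟨g, hgK⟩ := hK
  obtain ⟨b, hb⟩ := Subgroup.mem_zpowers_iff.mp (hY g)
  have hxy' : x * y = w * y * x := by rw [← hxy]; group
  have h1 : y⁻¹ * x * y⁻¹⁻¹ = w * x := by
    rw [inv_inv]
    calc y⁻¹ * x * y = y⁻¹ * (x * y) := by group
      _ = y⁻¹ * (w * y * x) := by rw [hxy']
      _ = y⁻¹ * (y * w) * x := by rw [hwG y]; group
      _ = w * x := by group
  have h2 : ∀ i : ℤ, y⁻¹ * x ^ i * y = w ^ i * x ^ i := by
    intro i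
    have := conj_zpow (a := y⁻¹) (b := x) (i := i)
    rw [h1, inv_inv, (show Commute w x from (hwG x).symm).mul_zpow] at this
    exact this.symm
  have hxiy : ∀ i : ℤ, x ^ i * y = w ^ i * y * x ^ i := by
    intro i
    calc x ^ i * y = y * (y⁻¹ * x ^ i * y) := by group
      _ = y * (w ^ i * x ^ i) := by rw [h2]
      _ = (y * w ^ i) * x ^ i := by group
      _ = w ^ i * y * x ^ i := by rw [hwz i y]
  have hgy : g * y = w ^ b * y * g := by rw [hb]; group
  obtain ⟨f, hfdef⟩ : ∃ f, f = g * x ^ (-b) := ⟨_, rfl⟩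
  have hfy : f * y = y * f := by
    rw [hfdef]
    calc g * x ^ (-b) * y = g * (x ^ (-b) * y) := by group
      _ = g * (w ^ (-b) * y * x ^ (-b)) := by rw [hxiy]
      _ = (g * w ^ (-b)) * y * x ^ (-b) := by group
      _ = w ^ (-b) * (g * y) * x ^ (-b) := by rw [hwz (-b) g]; group
      _ = w ^ (-b) * (w ^ b * y * g) * x ^ (-b) := by rw [hgy]
      _ = y * (g * x ^ (-b)) := by group
  have hfK : ¬ ∃ e ∈ E, ∃ c ∈ C, f = e * c := by
    rintro ⟨e, he, c, hc, hfe⟩
    apply hgK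
    refine ⟨e * x ^ b, E.mul_mem he (E.zpow_mem hx b), c, hc, ?_⟩
    have h3 : x ^ b * c = c * x ^ b := (hCmem c).mp hc _ (E.zpow_mem hx b)
    calc g = g * x ^ (-b) * x ^ b := by group
      _ = e * c * x ^ b := by rw [← hfdef, hfe]
      _ = e * (c * x ^ b) := by group
      _ = e * (x ^ b * c) := by rw [h3]
      _ = e * x ^ b * c := by group
  -- Step 2: the cyclic group `C`
  obtain ⟨c0, hc0⟩ := hcyc.exists_generator
  obtain ⟨c₀, hc₀def⟩ : ∃ c₀ : G, c₀ = (c0 : G) := ⟨_, rfl⟩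
  have hc₀C : c₀ ∈ C := hc₀def ▸ c0.2
  have hCgen : ∀ v ∈ C, ∃ k : ℤ, c₀ ^ k = v := by
    intro v hv
    obtain ⟨k, hk⟩ := Subgroup.mem_zpowers_iff.mp (hc0 ⟨v, hv⟩)
    refine ⟨k, ?_⟩
    have := congrArg Subtype.val hk
    rw [hc₀def]
    simpa using this
  have hCcomm : ∀ a ∈ C, ∀ b ∈ C, a * b = b * a := by
    intro a ha b hb
    obtain ⟨i, rfl⟩ := hCgen a ha
    obtain ⟨j, rfl⟩ := hCgen b hb
    rw [← zpow_add, ← zpow_add, add_comm]
  obtain ⟨m, hm⟩ := hCgen (f ^ p) (hpow f)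
  by_cases hpm : (p : ℤ) ∣ m
  · -- `f ^ p` is a `p`-th power in `C`: contradiction
    exfalso
    obtain ⟨m', rfl⟩ := hpm
    obtain ⟨t, htdef⟩ : ∃ t, t = c₀ ^ m' := ⟨_, rfl⟩
    have htC : t ∈ C := htdef ▸ C.zpow_mem hc₀C m'
    have htp : t ^ p = f ^ p := by
      rw [htdef, ← hm, ← zpow_natCast, ← zpow_mul, mul_comm]
    obtain ⟨u, hudef⟩ : ∃ u, u = f * t * f⁻¹ * t⁻¹ := ⟨_, rfl⟩
    have hftC : f * t * f⁻¹ ∈ C := hCconj t htC f
    have huC : u ∈ C := hudef ▸ C.mul_mem hftC (C.inv_mem htC)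
    have hup : u ^ p = 1 := by
      have hc : Commute (f * t * f⁻¹) t⁻¹ := hCcomm _ hftC _ (C.inv_mem htC)
      rw [hudef, hc.mul_pow, conj_pow, inv_pow, htp]
      group
    obtain ⟨k, hk⟩ := Subgroup.mem_zpowers_iff.mp (hΩ u huC hup)
    have hucen : ∀ g : G, g * u = u * g := by
      intro g
      rw [← hk]
      exact hwz k g
    have hu' : u = f⁻¹ * u * f := by
      rw [mul_assoc, ← hucen f]; group
    have hrel : t⁻¹ * f = f * t⁻¹ * u := by
      calc t⁻¹ * f = f * t⁻¹ * (f⁻¹ * (f * t * f⁻¹ * t⁻¹) * f) := by group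
        _ = f * t⁻¹ * u := by rw [← hudef, ← hu']
    have hf'p : (f * t⁻¹) ^ p = 1 := by
      rw [Cfsg.Agent.Helper49.mul_pow_prime_of_central hpp hp hrel (hucen f).symm
        (hucen t⁻¹).symm hup, inv_pow, htp, mul_inv_cancel]
    have hf'K : ¬ ∃ e ∈ E, ∃ c ∈ C, f * t⁻¹ = e * c := by
      rintro ⟨e, he, c, hc, hfe⟩
      apply hfK
      refine ⟨e, he, c * t, C.mul_mem hc htC, ?_⟩
      calc f = f * t⁻¹ * t := by group
        _ = e * c * t := by rw [hfe]
        _ = e * (c * t) := by group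
    have hty : t⁻¹ * y = y * t⁻¹ := ((hCmem t⁻¹).mp (C.inv_mem htC) y hy).symm
    have hf'y : f * t⁻¹ * y = y * (f * t⁻¹) := by
      calc f * t⁻¹ * y = f * (t⁻¹ * y) := by group
        _ = f * (y * t⁻¹) := by rw [hty]
        _ = (f * y) * t⁻¹ := by group
        _ = y * (f * t⁻¹) := by rw [hfy]; group
    refine bkJ3e_rank n hG hrk (f * t⁻¹) y w hf'y (hwG _) (hwG y) hf'p (hexp y hy) (hexp w hw) hw1
      ?_ ?_
    · -- `y ∉ ⟨w⟩`
      intro hyw
      obtain ⟨k, hk⟩ := Subgroup.mem_zpowers_iff.mp hyw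
      apply hw1
      have hxy2 : x * y = y * x := by rw [← hk]; exact hwz k x
      rw [← hxy, hxy2]; group
    · -- `f t⁻¹ ∉ ⟨y, w⟩`
      intro hmem
      apply hf'K
      have hle : Subgroup.closure ({y, w} : Set G) ≤ E := by
        rw [Subgroup.closure_le]
        intro a ha
        simp only [Set.mem_insert_iff, Set.mem_singleton_iff] at ha
        rcases ha with rfl | rfl
        · exact hy
        · exact hw
      exact ⟨f * t⁻¹, hle hmem, 1, C.one_mem, (mul_one _).symm⟩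
  · -- `f ^ p` generates `C`
    refine ⟨f, hfy, hfK, ?_⟩
    have hc₀mem : c₀ ∈ Subgroup.zpowers (f ^ p) := by
      have hdvd : orderOf c₀ ∣ p ^ n := hG ▸ orderOf_dvd_natCard c₀
      obtain ⟨a, -, ha⟩ := (Nat.dvd_prime_pow hpp).mp hdvd
      have hcop : IsCoprime ((p : ℤ) ^ a) m :=
        ((Nat.prime_iff_prime_int.mp hpp).coprime_iff_not_dvd.mpr hpm).pow_left
      obtain ⟨r, s, hrs⟩ := hcop
      have h3 : c₀ ^ ((p : ℤ) ^ a) = 1 := by
        have : ((p : ℤ) ^ a) = ((p ^ a : ℕ) : ℤ) := by push_cast; rfl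
        rw [this, zpow_natCast, ← ha, pow_orderOf_eq_one]
      have h4 : c₀ = (f ^ p) ^ s := by
        calc c₀ = c₀ ^ (1 : ℤ) := (zpow_one c₀).symm
          _ = c₀ ^ (r * (p : ℤ) ^ a + s * m) := by rw [hrs]
          _ = (c₀ ^ ((p : ℤ) ^ a)) ^ r * (c₀ ^ m) ^ s := by
              rw [zpow_add, zpow_mul', zpow_mul']
          _ = (f ^ p) ^ s := by rw [h3, one_zpow, one_mul, hm]
      rw [h4]
      exact Subgroup.zpow_mem _ (Subgroup.mem_zpowers _) s
    intro v hv
    obtain ⟨k, rfl⟩ := hCgen v hv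
    exact Subgroup.zpow_mem _ hc₀mem k

end Cfsg.Agent.Helper61
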