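import Mathlib
import Cfsg.Agent.Helper98.C3A

set_option autoImplicit false
set_option linter.unusedSectionVars false
set_option linter.unusedVariables false
set_option linter.unusedSimpArgs false
set_option linter.style.haveILetI false

namespace Cfsg.Agent.Helper61

open Cfsg.Agent.Helper98 Module

section C3A1
variable {F K V : Type*} [Field F] [Field K] [Algebra F K] [AddCommGroup V] [Module F V]
  [Module K V] [IsScalarTower F K V]

/-- PIECE A of CALL S5886: a subring of `K` containing all `(q-1)`-th powers is everything. -/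
theorem c3_lemS [Fintype F] [Finite K] (h2 : 2 ≤ finrank F K) (S : Set K)
    (h1 : (1 : K) ∈ S) (hadd : ∀ a b, a ∈ S → b ∈ S → a + b ∈ S) (hneg : ∀ a, a ∈ S → -a ∈ S)
    (hmul : ∀ a b, a ∈ S → b ∈ S → a * b ∈ S) (hpow : ∀ k : K, k ^ (Fintype.card F - 1) ∈ S) :
    ∀ k : K, k ∈ S := by
  classical
  haveI : Fintype K := Fintype.ofFinite K
  set q := Fintype.card F with hq
  have hq1 : 1 < q := Fintype.one_lt_card
  obtain ⟨p, hp⟩ := CharP.exists F
  haveI := hp
  haveI : Fact p.Prime := ⟨CharP.char_is_prime F p⟩
  haveI : CharP K p := charP_of_injective_algebraMap (algebraMap F K).injective p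
  obtain ⟨n, hn⟩ : ∃ n, q = p ^ n := by
    obtain ⟨n, hpr, hcard⟩ := FiniteField.card F p
    exact ⟨n, hcard⟩
  have hfrob : ∀ a b : K, (a + b) ^ q = a ^ q + b ^ q := by
    intro a b
    rw [hn]
    exact add_pow_char_pow a b p n
  have h0 : (0 : K) ∈ S := by simpa using hadd 1 (-1) h1 (hneg 1 h1)
  have hsub : ∀ a b, a ∈ S → b ∈ S → a - b ∈ S := fun a b ha hb => by
    rw [sub_eq_add_neg]; exact hadd a (-b) ha (hneg b hb)
  have hpowS : ∀ a, a ∈ S → ∀ m : ℕ, a ^ m ∈ S := by
    intro a ha m
    induction m with
    | zero => simpa using h1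
    | succ m ih => rw [pow_succ]; exact hmul _ _ ih ha
  have hinv : ∀ a, a ∈ S → a⁻¹ ∈ S := by
    intro a ha
    by_cases ha0 : a = 0
    · subst ha0; simpa using h0
    · have hK : 2 ≤ Fintype.card K := Fintype.one_lt_card
      have h := FiniteField.pow_card_sub_one_eq_one a ha0
      have h' : a * a ^ (Fintype.card K - 2) = 1 := by
        rw [← pow_succ', show Fintype.card K - 2 + 1 = Fintype.card K - 1 by omega]; exact h
      rw [inv_eq_of_mul_eq_one_right h']
      exact hpowS a ha _
  -- elements outside `S` are fixed by the `q`-Frobenius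
  have hkey : ∀ k1 : K, k1 ∉ S → k1 ^ q = k1 := by
    intro k1 hk1
    have hs := hpow k1
    have ht := hpow (1 + k1)
    have e1 : (1 + k1) * (1 + k1) ^ (q - 1) = 1 + k1 * k1 ^ (q - 1) := by
      rw [← pow_succ', ← pow_succ', show q - 1 + 1 = q by omega, hfrob, one_pow]
    have e0 : k1 ^ q = k1 * k1 ^ (q - 1) := by
      rw [← pow_succ', show q - 1 + 1 = q by omega]
    rw [e0]
    generalize k1 ^ (q - 1) = s at hs e1 ⊢
    generalize (1 + k1) ^ (q - 1) = t at ht e1
    have e2 : (t - s) * k1 = 1 - t := by linear_combination e1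
    by_cases hts : t = s
    · rw [hts, sub_self, zero_mul] at e2
      have hs1 : s = 1 := (sub_eq_zero.mp e2.symm).symm
      rw [hs1, mul_one]
    · exfalso
      apply hk1
      have hne : t - s ≠ 0 := sub_ne_zero.mpr hts
      have : k1 = (t - s)⁻¹ * (1 - t) := by
        rw [← e2, ← mul_assoc, inv_mul_cancel₀ hne, one_mul]
      rw [this]
      exact hmul _ _ (hinv _ (hsub _ _ ht hs)) (hsub _ _ h1 ht)
  by_contra hcon
  push Not at hcon
  obtain ⟨k1, hk1⟩ := hcon
  have hall : ∀ k : K, k ^ q = k := by
    intro k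
    by_cases hk : k ∈ S
    · have hk' : k + k1 ∉ S := by
        intro h
        apply hk1
        have := hsub _ _ h hk
        simpa using this
      have h3 := hkey _ hk'
      rw [hfrob, hkey k1 hk1] at h3
      exact add_right_cancel h3
    · exact hkey k hk
  -- so `K` has at most `q` elements
  have hdeg : (Polynomial.X ^ q - Polynomial.X : Polynomial K).natDegree = q :=
    FiniteField.X_pow_card_sub_X_natDegree_eq K hq1
  have hne : (Polynomial.X ^ q - Polynomial.X : Polynomial K) ≠ 0 :=
    FiniteField.X_pow_card_sub_X_ne_zero K hq1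
  have hle : Fintype.card K ≤ q := by
    have hsubset : (Finset.univ : Finset K) ⊆ (Polynomial.X ^ q - Polynomial.X : Polynomial K).roots.toFinset := by
      intro k _
      rw [Multiset.mem_toFinset, Polynomial.mem_roots hne]
      simp [hall k]
    calc Fintype.card K = (Finset.univ : Finset K).card := rfl
      _ ≤ (Polynomial.X ^ q - Polynomial.X : Polynomial K).roots.toFinset.card := Finset.card_le_card hsubset
      _ ≤ Multiset.card (Polynomial.X ^ q - Polynomial.X : Polynomial K).roots := Multiset.toFinset_card_le _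
      _ ≤ (Polynomial.X ^ q - Polynomial.X : Polynomial K).natDegree := Polynomial.card_roots' _
      _ = q := hdeg
  haveI : Module.Finite F K := Module.Finite.of_finite
  have hcard : Fintype.card K = q ^ finrank F K := Module.card_eq_pow_finrank
  have : q ^ 2 ≤ q ^ finrank F K := Nat.pow_le_pow_right (by omega) h2
  nlinarith

end C3A1

end Cfsg.Agent.Helper61
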