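import Mathlib
import Cfsg.Agent.Helper98.C3A

set_option autoImplicit false
set_option linter.unusedSectionVars false
set_option linter.unusedVariables false
set_option linter.unusedSimpArgs false
set_option linter.style.haveILetI false

namespace Cfsg.Agent.Helper61

open Cfsg.Agent.Helper98 Module

section C3B1
variable {F K V : Type*} [Field F] [Field K] [Algebra F K] [AddCommGroup V] [Module F V]
  [Module K V] [IsScalarTower F K V]

/-- the `F`-subalgebra of multipliers stabilising a subspace of `K` -/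
def c3_stabAlg (N : Submodule F K) : Subalgebra F K where
  carrier := {k | ∀ z ∈ N, k * z ∈ N}
  mul_mem' := by
    intro a b ha hb z hz
    rw [mul_assoc]
    exact ha _ (hb z hz)
  add_mem' := by
    intro a b ha hb z hz
    rw [add_mul]
    exact N.add_mem (ha z hz) (hb z hz)
  algebraMap_mem' := by
    intro c z hz
    rw [← Algebra.smul_def]
    exact N.smul_mem c hz

theorem c3_mem_stabAlg (N : Submodule F K) (k : K) :
    k ∈ c3_stabAlg N ↔ ∀ z ∈ N, k * z ∈ N := Iff.rfl

/-- PIECE B of CALL S5886: a ring of endomorphisms of `K` containing all multiplications and one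
further element contains a rank-one endomorphism. -/
theorem c3_minrank [Finite K] (hr : (finrank F K).Prime) (E : Set (Module.End F K))
    (hadd : ∀ a b, a ∈ E → b ∈ E → a + b ∈ E) (hneg : ∀ a, a ∈ E → -a ∈ E)
    (hmul : ∀ a b, a ∈ E → b ∈ E → a * b ∈ E) (hL : ∀ k : K, LinearMap.mulLeft F k ∈ E)
    (e₀ : Module.End F K) (he₀ : e₀ ∈ E) (hne : ∀ k : K, e₀ ≠ LinearMap.mulLeft F k) :
    ∃ ρ ∈ E, ∃ (lam : K →ₗ[F] F) (j₀ : K), lam ≠ 0 ∧ j₀ ≠ 0 ∧ ∀ z, ρ z = lam z • j₀ := by
  classical
  haveI : Module.Finite F K := Module.Finite.of_finite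
  -- a nonzero non-injective element of `E`
  have he1E : e₀ - LinearMap.mulLeft F (e₀ 1) ∈ E := by
    rw [sub_eq_add_neg]
    exact hadd _ _ he₀ (hneg _ (hL _))
  have he1ne : e₀ - LinearMap.mulLeft F (e₀ 1) ≠ 0 := fun h => hne _ (sub_eq_zero.mp h)
  have he1ni : ¬ Function.Injective (e₀ - LinearMap.mulLeft F (e₀ 1)) := by
    intro hinj
    have h1 : (e₀ - LinearMap.mulLeft F (e₀ 1)) 1 = (e₀ - LinearMap.mulLeft F (e₀ 1)) 0 := by
      simp
    exact one_ne_zero (hinj h1)
  have hex : ∃ n, ∃ ρ ∈ E, ρ ≠ 0 ∧ ¬ Function.Injective ρ ∧ finrank F (LinearMap.range ρ) = n :=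
    ⟨_, _, he1E, he1ne, he1ni, rfl⟩
  obtain ⟨ρ, hρE, hρ0, hρni, hρn⟩ := Nat.find_spec hex
  have hmin : ∀ ρ' ∈ E, ρ' ≠ 0 → ¬ Function.Injective ρ' →
      finrank F (LinearMap.range ρ) ≤ finrank F (LinearMap.range ρ') := by
    intro ρ' h1 h2 h3
    rw [hρn]
    exact Nat.find_min' hex ⟨ρ', h1, h2, h3, rfl⟩
  have hkerne : LinearMap.ker ρ ≠ ⊥ := fun h => hρni (LinearMap.ker_eq_bot.mp h)
  obtain ⟨z, hzN, hz0⟩ := (Submodule.ne_bot_iff _).mp hkerne
  -- the dichotomy for `ρ ∘ mulLeft k ∘ ρ`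
  have hdich : ∀ k : K, ρ * LinearMap.mulLeft F k * ρ = 0 ∨
      LinearMap.ker (ρ * LinearMap.mulLeft F k * ρ) = LinearMap.ker ρ := by
    intro k
    by_cases h0 : ρ * LinearMap.mulLeft F k * ρ = 0
    · exact Or.inl h0
    · right
      have hkle : LinearMap.ker ρ ≤ LinearMap.ker (ρ * LinearMap.mulLeft F k * ρ) := by
        intro x hx
        rw [LinearMap.mem_ker] at hx ⊢
        simp [Module.End.mul_apply, hx]
      have hni : ¬ Function.Injective (ρ * LinearMap.mulLeft F k * ρ) := by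
        intro hinj
        apply hkerne
        rw [eq_bot_iff]
        exact hkle.trans (LinearMap.ker_eq_bot.mpr hinj).le
      have hrle : LinearMap.range (ρ * LinearMap.mulLeft F k * ρ) ≤ LinearMap.range ρ := by
        rintro _ ⟨x, rfl⟩
        exact ⟨k * ρ x, by simp [Module.End.mul_apply]⟩
      have hfr := hmin _ (hmul _ _ (hmul _ _ hρE (hL k)) hρE) h0 hni
      have hreq : finrank F (LinearMap.range (ρ * LinearMap.mulLeft F k * ρ)) =
          finrank F (LinearMap.range ρ) := le_antisymm (Submodule.finrank_mono hrle) hfr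
      have hrn1 := LinearMap.finrank_range_add_finrank_ker ρ
      have hrn2 := LinearMap.finrank_range_add_finrank_ker (ρ * LinearMap.mulLeft F k * ρ)
      exact (Submodule.eq_of_le_of_finrank_le hkle (by omega)).symm
  -- any two elements of the range are proportional
  have hprop : ∀ a1 a2 : K, ρ a1 ≠ 0 → ∃ c : F, ρ a2 = c • ρ a1 := by
    intro a1 a2 hj1
    by_contra hcon
    push Not at hcon
    have hstep : ∀ z' : K, ρ z' = 0 → z' ≠ 0 → ρ (ρ a2 * (ρ a1)⁻¹ * z') = 0 := by
      intro z' hz' hz'0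
      rcases hdich (z' * (ρ a1)⁻¹) with h | h
      · have := congrArg (fun f : Module.End F K => f a2) h
        simp only [Module.End.mul_apply, LinearMap.mulLeft_apply, LinearMap.zero_apply] at this
        rw [← this]
        congr 1
        ring
      · exfalso
        have hmem : a1 ∈ LinearMap.ker (ρ * LinearMap.mulLeft F (z' * (ρ a1)⁻¹) * ρ) := by
          rw [LinearMap.mem_ker]
          simp only [Module.End.mul_apply, LinearMap.mulLeft_apply]
          rw [mul_assoc, inv_mul_cancel₀ hj1, mul_one, hz']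
        rw [h, LinearMap.mem_ker] at hmem
        exact hj1 hmem
    have ht : ρ a2 * (ρ a1)⁻¹ ∈ c3_stabAlg (LinearMap.ker ρ) := by
      intro z' hz'
      rw [LinearMap.mem_ker] at hz' ⊢
      by_cases hz'0 : z' = 0
      · subst hz'0; simp
      · exact hstep z' hz' hz'0
    haveI := Subalgebra.isSimpleOrder_of_finrank_prime F K hr
    rcases eq_bot_or_eq_top (c3_stabAlg (LinearMap.ker ρ)) with hA | hA
    · rw [hA, Algebra.mem_bot] at ht
      obtain ⟨c, hc⟩ := ht
      apply hcon c
      rw [Algebra.smul_def, hc, mul_assoc, inv_mul_cancel₀ hj1, mul_one]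
    · apply hρ0
      ext x
      have hx : x * z⁻¹ ∈ c3_stabAlg (LinearMap.ker ρ) := by rw [hA]; exact Algebra.mem_top
      have := hx z hzN
      rw [mul_assoc, inv_mul_cancel₀ hz0, mul_one, LinearMap.mem_ker] at this
      simpa using this
  obtain ⟨x₀, hx₀⟩ : ∃ x₀, ρ x₀ ≠ 0 := by
    by_contra hcon
    push Not at hcon
    exact hρ0 (LinearMap.ext fun x => by simpa using hcon x)
  obtain ⟨χ, hχ⟩ := c3_exists_dual_one (K := F) (V := K) (ρ x₀) hx₀
  refine ⟨ρ, hρE, χ.comp ρ, ρ x₀, ?_, hx₀, ?_⟩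
  · intro h
    have := congrArg (fun f : K →ₗ[F] F => f x₀) h
    simp [hχ] at this
  · intro z'
    obtain ⟨c, hc⟩ := hprop x₀ z' hx₀
    rw [LinearMap.comp_apply, hc, map_smul, hχ, smul_eq_mul, mul_one]

end C3B1

end Cfsg.Agent.Helper61
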