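import Mathlib
import Cfsg.Agent.Helper98.C3A

set_option autoImplicit false
set_option linter.unusedSectionVars false
set_option linter.unusedVariables false
set_option linter.unusedSimpArgs false
set_option linter.style.haveILetI false

namespace Cfsg.Agent.Helper61

open Cfsg.Agent.Helper98 Module

section C3C1
variable {F K V : Type*} [Field F] [Field K] [Algebra F K] [AddCommGroup V] [Module F V]
  [Module K V] [IsScalarTower F K V]

/-- the `F`-subalgebra of elements of `K` whose multiplication commutes with `b` -/
def c3_commAlg (b : Module.End F K) : Subalgebra F K where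
  carrier := {k | ∀ x, k * b x = b (k * x)}
  mul_mem' := by
    intro a c ha hc x
    rw [mul_assoc, hc x, ha, mul_assoc]
  add_mem' := by
    intro a c ha hc x
    rw [add_mul, add_mul, map_add, ha, hc]
  algebraMap_mem' := by
    intro c x
    rw [← Algebra.smul_def, ← Algebra.smul_def, map_smul]

theorem c3_mem_commAlg (b : Module.End F K) (k : K) :
    k ∈ c3_commAlg b ↔ ∀ x, k * b x = b (k * x) := Iff.rfl

theorem c3_conj_apply (b : Module.End F K) (s : F) (k x : K) :
    ((1 - s • b) * LinearMap.mulLeft F k * (1 + s • b)) x =
      k * x + algebraMap F K s * (k * b x) - algebraMap F K s * b (k * x)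
        - algebraMap F K s * algebraMap F K s * b (k * b x) := by
  simp only [Module.End.mul_apply, LinearMap.add_apply, LinearMap.sub_apply, Module.End.one_apply,
    LinearMap.smul_apply, LinearMap.mulLeft_apply, mul_add, map_add, map_smul]
  simp only [Algebra.smul_def]
  ring

/-- PIECE C1 of CALL S5886. -/
theorem c3_L6i [Finite K] (hr : (finrank F K).Prime) (h3 : 3 ≤ finrank F K) (b : Module.End F K)
    (hb2 : b * b = 0) (hb : b ≠ 0) :
    ∃ k : K, ∀ k' : K, (1 - b) * LinearMap.mulLeft F k * (1 + b) ≠ LinearMap.mulLeft F k' := by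
  classical
  haveI : Module.Finite F K := Module.Finite.of_finite
  by_contra hcon
  push Not at hcon
  choose θ hθ using hcon
  have hbb : ∀ x, b (b x) = 0 := fun x => by
    have := congrArg (fun f : Module.End F K => f x) hb2
    simpa [Module.End.mul_apply] using this
  obtain ⟨x₀, hx₀⟩ : ∃ x₀, b x₀ ≠ 0 := by
    by_contra hcon
    push Not at hcon
    exact hb (LinearMap.ext fun x => by simpa using hcon x)
  -- the formula `θ k * x = k * x + k * b x - b (k * x) - b (k * b x)`
  have hform : ∀ k x : K, θ k * x = k * x + k * b x - b (k * x) - b (k * b x) := by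
    intro k x
    have h1 := congrArg (fun f : Module.End F K => f x) (hθ k)
    have h2 := c3_conj_apply b 1 k x
    simp only [one_smul, map_one, one_mul] at h2
    simp only [LinearMap.mulLeft_apply] at h1
    rw [← h1, h2]
  haveI := Subalgebra.isSimpleOrder_of_finrank_prime F K hr
  rcases eq_bot_or_eq_top (c3_commAlg b) with hA | hA
  · -- `ker b` is a line
    have hker : LinearMap.ker b ≤ Submodule.span F {b x₀} := by
      intro x hx
      rw [LinearMap.mem_ker] at hx
      -- k := x / u
      have hk : x * (b x₀)⁻¹ ∈ c3_commAlg b := by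
        have e1 : θ (x * (b x₀)⁻¹) = x * (b x₀)⁻¹ := by
          have h := hform (x * (b x₀)⁻¹) (b x₀)
          rw [hbb, mul_zero, map_zero, mul_assoc, inv_mul_cancel₀ hx₀, mul_one, hx] at h
          have h' : θ (x * (b x₀)⁻¹) * b x₀ = x := by rw [h]; ring
          exact (eq_mul_inv_iff_mul_eq₀ hx₀).mpr h'
        intro y
        -- from θ k = k : k * b y - b (k * y) - b (k * b y) = 0 for all y
        have h := hform (x * (b x₀)⁻¹) y
        rw [e1] at h
        have h' := hform (x * (b x₀)⁻¹) (b y)
        rw [e1, hbb, mul_zero, map_zero] at h'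
        -- h' : k * b y = k * b y + 0 - b (k * b y) - 0
        have h'' : b (x * (b x₀)⁻¹ * b y) = 0 := by linear_combination h'
        rw [h''] at h
        linear_combination -h
      rw [hA, Algebra.mem_bot] at hk
      obtain ⟨c, hc⟩ := hk
      rw [Submodule.mem_span_singleton]
      refine ⟨c, ?_⟩
      rw [Algebra.smul_def, hc, mul_assoc, inv_mul_cancel₀ hx₀, mul_one]
    have hrange : LinearMap.range b ≤ LinearMap.ker b := by
      rintro _ ⟨x, rfl⟩
      rw [LinearMap.mem_ker]
      exact hbb x
    have h1 : finrank F (LinearMap.ker b) ≤ 1 := by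
      have := Submodule.finrank_mono hker
      have h2 := finrank_span_le_card (R := F) ({b x₀} : Set K)
      simp only [Set.toFinset_singleton, Finset.card_singleton] at h2
      omega
    have h2 : finrank F (LinearMap.range b) ≤ 1 := (Submodule.finrank_mono hrange).trans h1
    have := LinearMap.finrank_range_add_finrank_ker b
    omega
  · -- `b` is a multiplication
    have hall : ∀ k x : K, k * b x = b (k * x) := by
      intro k
      have hk : k ∈ c3_commAlg b := by rw [hA]; exact Algebra.mem_top
      exact hk
    have hb1 : b 1 = 0 := by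
      have := hall (b 1) 1
      rw [mul_one, hbb] at this
      exact mul_self_eq_zero.mp this
    apply hb
    ext x
    have := hall x 1
    rw [mul_one, hb1, mul_zero] at this
    simpa using this.symm

/-- PIECE C2 of CALL S5886. -/
theorem c3_L6ii [Fintype F] (h3 : 3 ≤ Fintype.card F) (b : Module.End F K)
    (hb2 : b * b = 0) (hb : b ≠ 0) :
    ∃ (s : F) (k : K), ∀ k' : K,
      (1 - s • b) * LinearMap.mulLeft F k * (1 + s • b) ≠ LinearMap.mulLeft F k' := by
  classical
  by_contra hcon
  push Not at hcon
  choose θ hθ using hcon
  have hbb : ∀ x, b (b x) = 0 := fun x => by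
    have := congrArg (fun f : Module.End F K => f x) hb2
    simpa [Module.End.mul_apply] using this
  obtain ⟨x₀, hx₀⟩ : ∃ x₀, b x₀ ≠ 0 := by
    by_contra hcon
    push Not at hcon
    exact hb (LinearMap.ext fun x => by simpa using hcon x)
  have hform : ∀ (s : F) (k x : K), θ s k * x =
      k * x + algebraMap F K s * (k * b x) - algebraMap F K s * b (k * x)
        - algebraMap F K s * algebraMap F K s * b (k * b x) := by
    intro s k x
    have h1 := congrArg (fun f : Module.End F K => f x) (hθ s k)
    simp only [LinearMap.mulLeft_apply] at h1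
    rw [← h1, c3_conj_apply]
  -- a scalar different from `0` and `1`
  obtain ⟨s, hs0, hs1⟩ : ∃ s : F, s ≠ 0 ∧ s ≠ 1 := by
    by_contra hcon
    push Not at hcon
    have hsub : (Finset.univ : Finset F) ⊆ {0, 1} := by
      intro s _
      by_cases h : s = 0
      · simp [h]
      · simp [hcon s h]
    have := Finset.card_le_card hsub
    have h2 : (({0, 1} : Finset F)).card ≤ 2 := Finset.card_le_two
    rw [Finset.card_univ] at this
    omega
  set σ := algebraMap F K s with hσ
  have hσ0 : σ ≠ 0 := by
    rw [hσ]; exact (map_ne_zero (algebraMap F K)).mpr hs0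
  have hσ1 : σ ≠ 1 := by
    rw [hσ]
    intro h
    apply hs1
    exact (algebraMap F K).injective (by rw [h, map_one])
  -- elimination of the linear term
  have hel : ∀ k x : K, (σ * σ - σ) * b (k * b x) = (σ * θ 1 k - θ s k - (σ - 1) * k) * x := by
    intro k x
    have h1 := hform 1 k x
    have h2 := hform s k x
    rw [map_one] at h1
    rw [← hσ] at h2
    linear_combination (-σ) * h1 + h2
  have hzero : ∀ k x : K, b (k * b x) = 0 := by
    intro k x
    have h1 := hel k (b x₀)
    rw [hbb, mul_zero, map_zero, mul_zero] at h1
    have h2 : σ * θ 1 k - θ s k - (σ - 1) * k = 0 := by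
      rcases mul_eq_zero.mp h1.symm with h | h
      · exact h
      · exact absurd h hx₀
    have h3 := hel k x
    rw [h2, zero_mul] at h3
    have hne : σ * σ - σ ≠ 0 := by
      have : σ * σ - σ = σ * (σ - 1) := by ring
      rw [this]
      exact mul_ne_zero hσ0 (sub_ne_zero.mpr hσ1)
    exact (mul_eq_zero.mp h3).resolve_left hne
  apply hb
  ext x
  have := hzero (x * (b x₀)⁻¹) x₀
  rw [mul_assoc, inv_mul_cancel₀ hx₀, mul_one] at this
  simpa using this

end C3C1

end Cfsg.Agent.Helper61
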