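import Cfsg.Agent.Helper61.GSOPCore

/-!
# CALL S4625 (helper17), piece OP

`PΩ⁺_{2m}(q)`, `q` even, `m ≥ 4`, has a `2`-subgroup of odd index in which every square is a product
of commutators.
-/

set_option autoImplicit false

namespace Cfsg.Agent.Helper61

open Cfsg Cfsg.Agent.Helper17

/-- PIECE OP -/
theorem goodSyl2_POmegaPlus (F : Type) [Field F] [Fintype F] [CharP F 2] (m : ℕ) (hm : 4 ≤ m) :
    GoodSyl2 (POmega F (quadFormPlus m F)) := by
  have h1 : GoodSyl2 ↥(Omega F (quadFormPlus m F)) := by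
    obtain ⟨k, c, N, hU, hG, hN⟩ := GSOP.card_data (F := F) (m := m) (by omega)
    exact goodSyl2_subgroupOf (Omega F (quadFormPlus m F)) (GSOP.Usub m F)
      (GSOP.Usub_le_omega (by omega)) k c N hU hG hN
      {g | g ∈ GSOP.Usub m F ∧ g ^ 2 = 1} GSOP.Usub_eq_closure (by
        rintro s ⟨-, hs⟩
        rw [hs]
        exact one_mem _)
  exact h1.of_surjective (QuotientGroup.mk' _) (QuotientGroup.mk'_surjective _)

end Cfsg.Agent.Helper61
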