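import Mathlib
import Cfsg.Agent.Helper44.Dickson
import Cfsg.Agent.Helper44.PSLnC

/-!
# CALL S4625 (helper17), piece OP: matrix lemmas

The matrices `uMat A B = [[A, A B], [0, A⁻ᵀ]]` (`A` unitriangular, `B` symmetric with zero diagonal)
are isometries of the hyperbolic form `Σ x_i y_i` in characteristic two, and a unitriangular matrix is
a product of "one-column" unitriangular matrices, which are involutions in characteristic two.
-/

set_option autoImplicit false

namespace Cfsg.Agent.Helper61.GSOP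

open Matrix Cfsg Cfsg.Agent.Helper44 Cfsg.Agent.Helper44.PSLn

variable {F : Type} [Field F] {m : ℕ}

/-- symmetric with zero diagonal (alternating, in characteristic two) -/
def IsAlt (B : Mn m F) : Prop := Bᵀ = B ∧ ∀ i, B i i = 0

theorem isAlt_zero : IsAlt (0 : Mn m F) := ⟨Matrix.transpose_zero, fun _ => rfl⟩

theorem IsAlt.add {B B' : Mn m F} (h : IsAlt B) (h' : IsAlt B') : IsAlt (B + B') :=
  ⟨by rw [Matrix.transpose_add, h.1, h'.1],
    fun i => by rw [Matrix.add_apply, h.2, h'.2, add_zero]⟩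

theorem IsAlt.dot [CharP F 2] {B : Mn m F} (h : IsAlt B) (v : Fin m → F) :
    v ⬝ᵥ (B *ᵥ v) = 0 := by
  have h1 := trace_mul_eq_zero_of_symm B (vecMulVec v v) h.1 h.2 (by
    ext i j
    simp [vecMulVec_apply, mul_comm])
  rw [← h1]
  simp only [Matrix.trace, Matrix.diag, Matrix.mul_apply, vecMulVec_apply, dotProduct, mulVec,
    Finset.mul_sum]
  apply Finset.sum_congr rfl
  intro i _
  apply Finset.sum_congr rfl
  intro j _
  ring

theorem IsAlt.conj [CharP F 2] {B : Mn m F} (h : IsAlt B) (X : Mn m F) : IsAlt (X * B * Xᵀ) := by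
  refine ⟨?_, fun i => ?_⟩
  · rw [Matrix.transpose_mul, Matrix.transpose_mul, Matrix.transpose_transpose, h.1,
      Matrix.mul_assoc]
  · have h1 := h.dot (fun j => X i j)
    rw [← h1]
    simp only [Matrix.mul_apply, Matrix.transpose_apply, dotProduct, mulVec, Finset.mul_sum,
      Finset.sum_mul]
    rw [Finset.sum_comm]
    apply Finset.sum_congr rfl
    intro j _
    apply Finset.sum_congr rfl
    intro k _
    ring

/-- the matrix `[[A, A B], [0, A⁻ᵀ]]` -/
noncomputable def uMat (A B : Mn m F) : Matrix (Fin m ⊕ Fin m) (Fin m ⊕ Fin m) F :=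
  Matrix.fromBlocks A (A * B) 0 (A⁻¹)ᵀ

theorem uMat_one : uMat (1 : Mn m F) 0 = 1 := by
  unfold uMat
  rw [Matrix.mul_zero, inv_one, Matrix.transpose_one, Matrix.fromBlocks_one]

theorem uMat_mul (A B A' B' : Mn m F) (hA' : A'.det = 1) :
    uMat A B * uMat A' B' = uMat (A * A') (A'⁻¹ * B * (A'⁻¹)ᵀ + B') := by
  have h1 : A' * A'⁻¹ = 1 := Matrix.mul_nonsing_inv A' (by rw [hA']; exact isUnit_one)
  have h2 : A * A' * (A'⁻¹ * B * (A'⁻¹)ᵀ) = A * B * (A'⁻¹)ᵀ := by
    calc A * A' * (A'⁻¹ * B * (A'⁻¹)ᵀ) = A * (A' * A'⁻¹) * B * (A'⁻¹)ᵀ := by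
          simp only [Matrix.mul_assoc]
      _ = A * B * (A'⁻¹)ᵀ := by rw [h1, Matrix.mul_one]
  unfold uMat
  rw [Matrix.fromBlocks_multiply]
  congr 1
  · rw [Matrix.mul_zero, add_zero]
  · rw [Matrix.mul_add, h2, Matrix.mul_assoc A A' B', add_comm]
  · rw [Matrix.zero_mul, Matrix.mul_zero, add_zero]
  · rw [Matrix.zero_mul, zero_add, Matrix.mul_inv_rev, Matrix.transpose_mul]

theorem uMat_det (A B : Mn m F) (hA : A.det = 1) : (uMat A B).det = 1 := by
  unfold uMat
  rw [Matrix.det_fromBlocks_zero₂₁, Matrix.det_transpose, Matrix.det_nonsing_inv, hA]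
  simp

theorem uMat_isometry [CharP F 2] (A B : Mn m F) (hA : A.det = 1) (hB : IsAlt B)
    (v : Fin m ⊕ Fin m → F) :
    quadFormPlus m F (uMat A B *ᵥ v) = quadFormPlus m F v := by
  have hq : ∀ w : Fin m ⊕ Fin m → F,
      quadFormPlus m F w = (w ∘ Sum.inl) ⬝ᵥ (w ∘ Sum.inr) := fun w => rfl
  have h1 : A⁻¹ * A = 1 := Matrix.nonsing_inv_mul A (by rw [hA]; exact isUnit_one)
  rw [hq, hq, uMat, Matrix.fromBlocks_mulVec]
  simp only [Sum.elim_comp_inl, Sum.elim_comp_inr, Matrix.zero_mulVec, zero_add]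
  rw [← Matrix.mulVec_mulVec, ← Matrix.mulVec_add, Matrix.dotProduct_mulVec,
    Matrix.vecMul_transpose, Matrix.mulVec_mulVec, h1, Matrix.one_mulVec, add_dotProduct,
    dotProduct_comm (B *ᵥ _), hB.dot, add_zero]

theorem uMat_inj {A B A' B' : Mn m F} (hA : A.det = 1) (h : uMat A B = uMat A' B') :
    A = A' ∧ B = B' := by
  unfold uMat at h
  rw [Matrix.fromBlocks_inj] at h
  obtain ⟨h1, h2, -, -⟩ := h
  refine ⟨h1, ?_⟩
  rw [← h1] at h2
  have h3 : A⁻¹ * A = 1 := Matrix.nonsing_inv_mul A (by rw [hA]; exact isUnit_one)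
  calc B = A⁻¹ * A * B := by rw [h3, Matrix.one_mul]
    _ = A⁻¹ * (A * B') := by rw [Matrix.mul_assoc, h2]
    _ = B' := by rw [← Matrix.mul_assoc, h3, Matrix.one_mul]

/-! ### column factorisation of unitriangular matrices -/

/-- the part of column `k` of `A - 1` -/
def colN (k : ℕ) (A : Mn m F) : Mn m F :=
  Matrix.of fun i j => if (j : ℕ) = k then A i j - (1 : Mn m F) i j else 0

/-- the matrix with column `k` from `A` and the other columns from `1` -/
def colK (k : ℕ) (A : Mn m F) : Mn m F := 1 + colN k A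

/-- the matrix with the columns `< k` from `A` and the other columns from `1` -/
def trunc (k : ℕ) (A : Mn m F) : Mn m F :=
  Matrix.of fun i j => if (j : ℕ) < k then A i j else (1 : Mn m F) i j

theorem colK_apply (k : ℕ) (A : Mn m F) (i j : Fin m) :
    colK k A i j = if (j : ℕ) = k then A i j else (1 : Mn m F) i j := by
  unfold colK colN
  rw [Matrix.add_apply, Matrix.of_apply]
  split_ifs <;> ring

theorem isUni_colK {A : Mn m F} (hA : IsUni A) (k : ℕ) : IsUni (colK k A) := by
  refine ⟨fun i j hij => ?_, fun i => ?_⟩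
  · rw [colK_apply]
    split_ifs
    · exact hA.1 i j hij
    · exact Matrix.one_apply_ne (ne_of_gt hij)
  · rw [colK_apply]
    split_ifs
    · exact hA.2 i
    · exact Matrix.one_apply_eq i

theorem isUni_trunc {A : Mn m F} (hA : IsUni A) (k : ℕ) : IsUni (trunc k A) := by
  refine ⟨fun i j hij => ?_, fun i => ?_⟩
  · show (if (j : ℕ) < k then A i j else (1 : Mn m F) i j) = 0
    split_ifs
    · exact hA.1 i j hij
    · exact Matrix.one_apply_ne (ne_of_gt hij)
  · show (if (i : ℕ) < k then A i i else (1 : Mn m F) i i) = 1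
    split_ifs
    · exact hA.2 i
    · exact Matrix.one_apply_eq i

theorem trunc_zero (A : Mn m F) : trunc 0 A = 1 := by
  ext i j
  show (if (j : ℕ) < 0 then A i j else (1 : Mn m F) i j) = (1 : Mn m F) i j
  rw [if_neg (Nat.not_lt_zero _)]

theorem trunc_of_le (A : Mn m F) {k : ℕ} (hk : m ≤ k) : trunc k A = A := by
  ext i j
  show (if (j : ℕ) < k then A i j else (1 : Mn m F) i j) = A i j
  rw [if_pos (lt_of_lt_of_le j.2 hk)]

theorem colN_mul_apply (k : ℕ) (A M : Mn m F) (i l : Fin m) :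
    (colN k A * M) i l =
      if h : k < m then (A i ⟨k, h⟩ - (1 : Mn m F) i ⟨k, h⟩) * M ⟨k, h⟩ l else 0 := by
  rw [Matrix.mul_apply]
  split_ifs with h
  · rw [Finset.sum_eq_single (⟨k, h⟩ : Fin m)]
    · show (if ((⟨k, h⟩ : Fin m) : ℕ) = k then A i ⟨k, h⟩ - (1 : Mn m F) i ⟨k, h⟩ else 0) * _ = _
      rw [if_pos rfl]
    · intro j _ hj
      show (if (j : ℕ) = k then A i j - (1 : Mn m F) i j else 0) * _ = 0
      rw [if_neg, zero_mul]
      intro hjk
      exact hj (Fin.ext hjk)
    · intro hh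
      exact absurd (Finset.mem_univ _) hh
  · apply Finset.sum_eq_zero
    intro j _
    show (if (j : ℕ) = k then A i j - (1 : Mn m F) i j else 0) * _ = 0
    rw [if_neg, zero_mul]
    intro hjk
    exact h (hjk ▸ j.2)

theorem trunc_succ {A : Mn m F} (hA : IsUni A) (k : ℕ) :
    trunc (k + 1) A = colK k A * trunc k A := by
  ext i l
  unfold colK
  rw [Matrix.add_mul, Matrix.one_mul, Matrix.add_apply, colN_mul_apply]
  by_cases h : k < m
  · rw [dif_pos h]
    have ht : trunc k A ⟨k, h⟩ l = (1 : Mn m F) ⟨k, h⟩ l := by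
      show (if (l : ℕ) < k then A ⟨k, h⟩ l else (1 : Mn m F) ⟨k, h⟩ l) = _
      split_ifs with hl
      · rw [hA.1 ⟨k, h⟩ l (by exact hl), Matrix.one_apply_ne]
        intro hh
        rw [← hh] at hl
        exact lt_irrefl _ hl
      · rfl
    rw [ht]
    show (if (l : ℕ) < k + 1 then A i l else (1 : Mn m F) i l)
      = (if (l : ℕ) < k then A i l else (1 : Mn m F) i l) + _
    by_cases hl : (l : ℕ) = k
    · have hl' : l = ⟨k, h⟩ := Fin.ext hl
      subst hl'
      rw [if_pos (Nat.lt_succ_self k), if_neg (lt_irrefl k), Matrix.one_apply_eq]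
      ring
    · have hne : (⟨k, h⟩ : Fin m) ≠ l := fun hh => hl (by rw [← hh])
      rw [Matrix.one_apply_ne hne, mul_zero, add_zero]
      by_cases hlk : (l : ℕ) < k
      · rw [if_pos hlk, if_pos (Nat.lt_succ_of_lt hlk)]
      · rw [if_neg hlk, if_neg (by omega)]
  · rw [dif_neg h, add_zero, trunc_of_le A (by omega : m ≤ k + 1), trunc_of_le A (by omega : m ≤ k)]

theorem colK_mul_self [CharP F 2] {A : Mn m F} (hA : IsUni A) (k : ℕ) :
    colK k A * colK k A = 1 := by
  have hNN : colN k A * colN k A = 0 := by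
    ext i l
    rw [colN_mul_apply, Matrix.zero_apply]
    split_ifs with h
    · have : colN k A ⟨k, h⟩ l = 0 := by
        show (if (l : ℕ) = k then A ⟨k, h⟩ l - (1 : Mn m F) ⟨k, h⟩ l else 0) = 0
        split_ifs with hl
        · have hl' : l = ⟨k, h⟩ := Fin.ext hl
          rw [hl', hA.2, Matrix.one_apply_eq, sub_self]
        · rfl
      rw [this, mul_zero]
    · rfl
  have hadd : colN k A + colN k A = 0 := by
    ext i j
    rw [Matrix.add_apply, Matrix.zero_apply]
    exact CharTwo.add_self_eq_zero _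
  unfold colK
  rw [Matrix.add_mul, Matrix.mul_add, Matrix.mul_add, Matrix.one_mul, Matrix.one_mul,
    Matrix.mul_one, hNN, add_zero, add_assoc, hadd, add_zero]

end Cfsg.Agent.Helper61.GSOP
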