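import Mathlib
import Cfsg.Agent.Helper44.OmegaPlus
import Cfsg.Agent.Helper17.GoodSyl
import Cfsg.Agent.S0287
import Cfsg.Agent.Helper61.GSOPMat

/-!
# CALL S4625 (helper17), piece OP

`PΩ⁺_{2m}(q)`, `q` even, `m ≥ 4`: the group `U` of the matrices `[[A, A B], [0, A⁻ᵀ]]` (`A` upper
unitriangular, `B` alternating) is a Sylow `2`-subgroup of `Ω⁺_{2m}(q)` generated by involutions.
-/

set_option autoImplicit false
set_option linter.unusedSectionVars false
set_option linter.unusedVariables false
set_option linter.style.haveILetI false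

namespace Cfsg.Agent.Helper61.GSOP

open Matrix Cfsg Cfsg.Agent.Helper44 Cfsg.Agent.Helper44.PSLn Cfsg.Agent.Helper17

variable {F : Type} [Field F] [Fintype F] [CharP F 2] {m : ℕ}

/-- the element of the isometry group with matrix `uMat A B` -/
noncomputable def uElt (A B : Mn m F) (hA : IsUni A) (hB : IsAlt B) :
    ↥(isometryGroup F (quadFormPlus m F)) :=
  ⟨Matrix.GeneralLinearGroup.mkOfDetNeZero (uMat A B)
      (by rw [uMat_det A B (det_eq_one_of_isUni hA)]; exact one_ne_zero),
    (mem_isometryGroup_iff F _ _).mpr (uMat_isometry A B (det_eq_one_of_isUni hA) hB)⟩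

theorem isoMat_uElt (A B : Mn m F) (hA : IsUni A) (hB : IsAlt B) :
    isoMat (uElt A B hA hB) = uMat A B := rfl

theorem isoMat_injective {g h : ↥(isometryGroup F (quadFormPlus m F))}
    (e : isoMat g = isoMat h) : g = h :=
  Subtype.ext (Units.ext e)

/-- the unipotent submonoid -/
def Umon (m : ℕ) (F : Type) [Field F] [Fintype F] [CharP F 2] :
    Submonoid ↥(isometryGroup F (quadFormPlus m F)) where
  carrier := {g | ∃ A B : Mn m F, IsUni A ∧ IsAlt B ∧ isoMat g = uMat A B}
  mul_mem' := by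
    rintro g h ⟨A, B, hA, hB, hg⟩ ⟨A', B', hA', hB', hh⟩
    refine ⟨A * A', A'⁻¹ * B * (A'⁻¹)ᵀ + B', hA.mul hA', (hB.conj _).add hB', ?_⟩
    show isoMat g * isoMat h = _
    rw [hg, hh, uMat_mul _ _ _ _ (det_eq_one_of_isUni hA')]
  one_mem' := ⟨1, 0, isUni_one, isAlt_zero, by
    show (1 : Matrix (Fin m ⊕ Fin m) (Fin m ⊕ Fin m) F) = _
    rw [uMat_one]⟩

/-- the unipotent subgroup -/
def Usub (m : ℕ) (F : Type) [Field F] [Fintype F] [CharP F 2] :
    Subgroup ↥(isometryGroup F (quadFormPlus m F)) :=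
  { Umon m F with
    inv_mem' := by
      intro x hx
      have h1 : x⁻¹ = x ^ (orderOf x - 1) := by
        apply inv_eq_of_mul_eq_one_right
        rw [← pow_succ', Nat.sub_add_cancel (orderOf_pos x), pow_orderOf_eq_one]
      rw [h1]
      exact (Umon m F).pow_mem hx _ }

theorem mem_Usub (g : ↥(isometryGroup F (quadFormPlus m F))) :
    g ∈ Usub m F ↔ ∃ A B : Mn m F, IsUni A ∧ IsAlt B ∧ isoMat g = uMat A B := Iff.rfl

theorem uElt_mem (A B : Mn m F) (hA : IsUni A) (hB : IsAlt B) : uElt A B hA hB ∈ Usub m F :=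
  ⟨A, B, hA, hB, rfl⟩

theorem Usub_le_omega (hm : 3 ≤ m) : Usub m F ≤ Omega F (quadFormPlus m F) := by
  rintro g ⟨A, B, hA, hB, hg⟩
  rw [mem_omega_plus_iff (by omega) (Or.inr (by omega)), hg]
  simp [dk, uMat]

/-! ### the order of `U` -/

/-- unitriangular matrices and their entries above the diagonal -/
def uniEquiv' : {A : Mn m F // IsUni A} ≃ ({p : Fin m × Fin m // p.1 < p.2} → F) where
  toFun A := fun p => A.1 p.1.1 p.1.2
  invFun a := ⟨uniMat a, isUni_uniMat a⟩
  left_inv := by
    rintro ⟨s, hs⟩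
    apply Subtype.ext
    ext i j
    show (if h : i < j then s i j else if i = j then 1 else 0) = s i j
    by_cases h : i < j
    · rw [dif_pos h]
    · rw [dif_neg h]
      by_cases h2 : i = j
      · subst h2
        rw [if_pos rfl, hs.2]
      · rw [if_neg h2, hs.1 i j (lt_of_le_of_ne (not_lt.mp h) (Ne.symm h2))]
  right_inv := by
    intro a
    funext p
    show (if h : p.1.1 < p.1.2 then a ⟨(p.1.1, p.1.2), h⟩ else if p.1.1 = p.1.2 then 1 else 0)
      = a p
    rw [dif_pos p.2]

/-- the alternating matrix with prescribed entries above the diagonal -/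
def altMat (b : {p : Fin m × Fin m // p.1 < p.2} → F) : Mn m F :=
  Matrix.of fun i j => if h : i < j then b ⟨(i, j), h⟩ else if h' : j < i then b ⟨(j, i), h'⟩ else 0

theorem isAlt_altMat (b : {p : Fin m × Fin m // p.1 < p.2} → F) : IsAlt (altMat b) := by
  refine ⟨?_, fun i => ?_⟩
  · ext i j
    show (if h : j < i then b ⟨(j, i), h⟩ else if h' : i < j then b ⟨(i, j), h'⟩ else 0)
      = (if h : i < j then b ⟨(i, j), h⟩ else if h' : j < i then b ⟨(j, i), h'⟩ else 0)
    by_cases h1 : i < j
    · rw [dif_neg (lt_asymm h1), dif_pos h1, dif_pos h1]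
    · by_cases h2 : j < i
      · rw [dif_pos h2, dif_neg h1, dif_pos h2]
      · rw [dif_neg h2, dif_neg h1, dif_neg h1, dif_neg h2]
  · show (if h : i < i then b ⟨(i, i), h⟩ else if h' : i < i then b ⟨(i, i), h'⟩ else 0) = 0
    rw [dif_neg (lt_irrefl i), dif_neg (lt_irrefl i)]

/-- alternating matrices and their entries above the diagonal -/
def altEquiv : {B : Mn m F // IsAlt B} ≃ ({p : Fin m × Fin m // p.1 < p.2} → F) where
  toFun B := fun p => B.1 p.1.1 p.1.2
  invFun b := ⟨altMat b, isAlt_altMat b⟩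
  left_inv := by
    rintro ⟨s, hs⟩
    apply Subtype.ext
    ext i j
    show (if h : i < j then s i j else if h' : j < i then s j i else 0) = s i j
    have hsym : s j i = s i j := by
      have := congrFun (congrFun hs.1 i) j
      rwa [Matrix.transpose_apply] at this
    by_cases h : i < j
    · rw [dif_pos h]
    · rw [dif_neg h]
      by_cases h2 : j < i
      · rw [dif_pos h2, hsym]
      · rw [dif_neg h2]
        have hij : i = j := le_antisymm (not_lt.mp h2) (not_lt.mp h)
        subst hij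
        rw [hs.2]
  right_inv := by
    intro b
    funext p
    show (if h : p.1.1 < p.1.2 then b ⟨(p.1.1, p.1.2), h⟩
      else if h' : p.1.2 < p.1.1 then b ⟨(p.1.2, p.1.1), h'⟩ else 0) = b p
    rw [dif_pos p.2]

theorem card_Usub : Nat.card (Usub m F)
    = Fintype.card F ^ (∑ i ∈ Finset.range m, i) * Fintype.card F ^ (∑ i ∈ Finset.range m, i) := by
  have hbij : Function.Bijective
      (fun p : {A : Mn m F // IsUni A} × {B : Mn m F // IsAlt B} =>
        (⟨uElt p.1.1 p.2.1 p.1.2 p.2.2, uElt_mem _ _ _ _⟩ : Usub m F)) := by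
    constructor
    · rintro ⟨⟨A, hA⟩, ⟨B, hB⟩⟩ ⟨⟨A', hA'⟩, ⟨B', hB'⟩⟩ h
      have h1 : uMat A B = uMat A' B' := congrArg (fun x : Usub m F => isoMat x.1) h
      obtain ⟨e1, e2⟩ := uMat_inj (det_eq_one_of_isUni hA) h1
      subst e1
      subst e2
      rfl
    · rintro ⟨g, A, B, hA, hB, hg⟩
      refine ⟨(⟨A, hA⟩, ⟨B, hB⟩), ?_⟩
      apply Subtype.ext
      exact isoMat_injective hg.symm
  rw [← Nat.card_congr (Equiv.ofBijective _ hbij), Nat.card_prod, Nat.card_congr uniEquiv',
    Nat.card_congr altEquiv, Nat.card_fun, card_pairs_lt, Nat.card_eq_fintype_card]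

/-! ### generation by involutions -/

theorem Usub_eq_closure :
    Usub m F = Subgroup.closure {g | g ∈ Usub m F ∧ g ^ 2 = 1} := by
  apply le_antisymm
  · -- every element is a product of involutions
    have hcol : ∀ (A : Mn m F) (hA : IsUni A) (k : ℕ),
        uElt (colK k A) 0 (isUni_colK hA k) isAlt_zero
          ∈ Subgroup.closure {g | g ∈ Usub m F ∧ g ^ 2 = 1} := by
      intro A hA k
      apply Subgroup.subset_closure
      refine ⟨uElt_mem _ _ _ _, ?_⟩
      rw [pow_two]
      apply isoMat_injective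
      show uMat (colK k A) 0 * uMat (colK k A) 0 = 1
      rw [uMat_mul _ _ _ _ (det_eq_one_of_isUni (isUni_colK hA k)), colK_mul_self hA k,
        Matrix.mul_zero, Matrix.zero_mul, add_zero, uMat_one]
    have htr : ∀ (A : Mn m F) (hA : IsUni A) (k : ℕ),
        uElt (trunc k A) 0 (isUni_trunc hA k) isAlt_zero
          ∈ Subgroup.closure {g | g ∈ Usub m F ∧ g ^ 2 = 1} := by
      intro A hA k
      induction k with
      | zero =>
        have e : uElt (trunc 0 A) 0 (isUni_trunc hA 0) isAlt_zero = 1 := by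
          apply isoMat_injective
          show uMat (trunc 0 A) 0 = 1
          rw [trunc_zero, uMat_one]
        rw [e]
        exact one_mem _
      | succ k ih =>
        have e : uElt (trunc (k + 1) A) 0 (isUni_trunc hA (k + 1)) isAlt_zero
            = uElt (colK k A) 0 (isUni_colK hA k) isAlt_zero
              * uElt (trunc k A) 0 (isUni_trunc hA k) isAlt_zero := by
          apply isoMat_injective
          show uMat (trunc (k + 1) A) 0 = uMat (colK k A) 0 * uMat (trunc k A) 0
          rw [uMat_mul _ _ _ _ (det_eq_one_of_isUni (isUni_trunc hA k)), trunc_succ hA k,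
            Matrix.mul_zero, Matrix.zero_mul, add_zero]
        rw [e]
        exact mul_mem (hcol A hA k) ih
    rintro g ⟨A, B, hA, hB, hg⟩
    have e : g = uElt (trunc m A) 0 (isUni_trunc hA m) isAlt_zero
        * uElt 1 B isUni_one hB := by
      apply isoMat_injective
      show isoMat g = uMat (trunc m A) 0 * uMat 1 B
      rw [uMat_mul _ _ _ _ (det_eq_one_of_isUni isUni_one), trunc_of_le A (le_refl m), hg,
        Matrix.mul_one, Matrix.mul_zero, Matrix.zero_mul, zero_add]
    rw [e]
    refine mul_mem (htr A hA m) (Subgroup.subset_closure ⟨uElt_mem _ _ _ _, ?_⟩)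
    rw [pow_two]
    apply isoMat_injective
    show uMat 1 B * uMat 1 B = 1
    have hBB : B + B = 0 := by
      ext i j
      rw [Matrix.add_apply, Matrix.zero_apply]
      exact CharTwo.add_self_eq_zero _
    rw [uMat_mul _ _ _ _ (det_eq_one_of_isUni isUni_one), inv_one, Matrix.transpose_one,
      Matrix.one_mul, Matrix.mul_one, Matrix.one_mul, hBB, uMat_one]
  · rw [Subgroup.closure_le]
    intro g hg
    exact hg.1

/-! ### the order of `Ω` -/

theorem omega_eq_ker (hm : 3 ≤ m) :
    Omega F (quadFormPlus m F) = (dkHom (F := F) (m := m)).ker := by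
  ext g
  rw [mem_omega_plus_iff (by omega) (Or.inr (by omega)), MonoidHom.mem_ker]
  constructor
  · intro h
    show Multiplicative.ofAdd (dk (isoMat g)) = 1
    rw [h]
    rfl
  · intro h
    exact ofAdd_eq_one.mp h

theorem omega_index (hm : 3 ≤ m) :
    ∃ j, 1 ≤ j ∧ (Omega F (quadFormPlus m F)).index = 2 ^ j := by
  rw [omega_eq_ker hm, Subgroup.index_ker]
  obtain ⟨n, -, hn⟩ := FiniteField.card F 2
  have hc : Nat.card (Multiplicative F) = 2 ^ (n : ℕ) := by
    rw [Nat.card_eq_fintype_card, Fintype.card_multiplicative, hn]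
  have hdvd : Nat.card (dkHom (F := F) (m := m)).range ∣ 2 ^ (n : ℕ) := by
    have h0 := Subgroup.card_subgroup_dvd_card (dkHom (F := F) (m := m)).range
    rwa [hc] at h0
  obtain ⟨j, hj, hj2⟩ := (Nat.dvd_prime_pow Nat.prime_two).mp hdvd
  refine ⟨j, ?_, hj2⟩
  by_contra hj0
  have hj0' : j = 0 := by omega
  rw [hj0', pow_zero] at hj2
  have hsub := (Nat.card_eq_one_iff_unique.mp hj2).1
  obtain ⟨a, ha1⟩ := exists_nonsingular_plus (F := F) (m := m) (by omega)
  have ha : (Helper43.plusQF m F) a ≠ 0 := by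
    show quadFormPlus m F a ≠ 0
    rw [ha1]
    exact one_ne_zero
  have hra : dk (isoMat (Cfsg.Agent.Helper45.reflO (Helper43.plusQF m F) a ha)) = 1 :=
    dk_reflection a (by rw [ha1]; exact one_ne_zero)
  have h1 : (⟨dkHom (Cfsg.Agent.Helper45.reflO (Helper43.plusQF m F) a ha), ⟨_, rfl⟩⟩ :
      (dkHom (F := F) (m := m)).range) = 1 := Subsingleton.elim _ _
  have h2 : dkHom (Cfsg.Agent.Helper45.reflO (Helper43.plusQF m F) a ha) = 1 := congrArg Subtype.val h1
  have h3 : dk (isoMat (Cfsg.Agent.Helper45.reflO (Helper43.plusQF m F) a ha)) = 0 := ofAdd_eq_one.mp h2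
  rw [hra] at h3
  exact one_ne_zero h3

theorem card_data (hm : 3 ≤ m) : ∃ k c N : ℕ, Nat.card (Usub m F) = 2 ^ k ∧
    c * Nat.card (Omega F (quadFormPlus m F)) = 2 ^ k * N ∧ Odd N := by
  obtain ⟨n, -, hn⟩ := FiniteField.card F 2
  obtain ⟨j, hj, hidx⟩ := omega_index (F := F) hm
  have hs2 : (∑ i ∈ Finset.range m, i) * 2 = m * (m - 1) := Finset.sum_range_id_mul_two m
  have hO := Cfsg.Agent.S0287.result (F := F) (q := Fintype.card F) rfl m (by omega)
  have hmul := (Omega F (quadFormPlus m F)).card_mul_index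
  rw [hidx, hO] at hmul
  have hP : Fintype.card F ^ (m * (m - 1)) = 2 ^ ((n : ℕ) * ((∑ i ∈ Finset.range m, i) * 2)) := by
    rw [← hs2, hn, ← pow_mul]
  have hj' : 2 ^ j = 2 * 2 ^ (j - 1) := by
    rw [← pow_succ']
    congr 1
    omega
  have hqeven : Even (Fintype.card F) := by
    rw [hn]
    exact Nat.even_pow.mpr ⟨even_two, n.ne_zero⟩
  have hodd : ∀ t : ℕ, t ≠ 0 → Odd (Fintype.card F ^ t - 1) := by
    intro t ht
    exact Nat.Even.sub_odd (Nat.one_le_pow _ _ Fintype.card_pos)
      (Nat.even_pow.mpr ⟨hqeven, ht⟩) odd_one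
  refine ⟨(n : ℕ) * ((∑ i ∈ Finset.range m, i) * 2), 2 ^ (j - 1),
    (Fintype.card F ^ m - 1) * ∏ i ∈ Finset.range (m - 1), (Fintype.card F ^ (2 * (i + 1)) - 1),
    ?_, ?_, ?_⟩
  · rw [card_Usub, ← pow_add, hn, ← pow_mul]
    congr 1
    ring
  · rw [hP, hj'] at hmul
    have h2 : 2 * (2 ^ (j - 1) * Nat.card (Omega F (quadFormPlus m F)))
        = 2 * (2 ^ ((n : ℕ) * ((∑ i ∈ Finset.range m, i) * 2))
          * ((Fintype.card F ^ m - 1)
            * ∏ i ∈ Finset.range (m - 1), (Fintype.card F ^ (2 * (i + 1)) - 1))) := by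
      calc 2 * (2 ^ (j - 1) * Nat.card (Omega F (quadFormPlus m F)))
          = Nat.card (Omega F (quadFormPlus m F)) * (2 * 2 ^ (j - 1)) := by ring
        _ = _ := hmul
        _ = _ := by ring
    exact Nat.eq_of_mul_eq_mul_left (by norm_num) h2
  · apply Odd.mul (hodd m (by omega))
    apply Finset.prod_induction _ Odd (fun a b ha hb => ha.mul hb) odd_one
    intro i _
    exact hodd _ (by omega)

end Cfsg.Agent.Helper61.GSOP
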