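import Mathlib
import Cfsg.Agent.Helper9.OrdTools
import Cfsg.Agent.Helper9.OrdTools2
import Cfsg.Agent.Helper8.SylFix

/-!
# CALL S0983 (helper82), piece A3960

A simple group of order `3960 = 2^3 3^2 5 11`: the normalizer of a Sylow `11`-subgroup `P` has
order `88`, its centralizer has order `44`, an involution of `C(P)` fixes only `P` among the Sylow
`11`-subgroups, and `N(P)` has no element of order four.
-/

set_option autoImplicit false
set_option linter.unusedSectionVars false
set_option linter.unusedVariables false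
set_option linter.style.haveILetI false

namespace Cfsg.Agent.Helper61

open Subgroup

theorem o3960_arith_n11 (n : ℕ) (hd : n ∣ 360) (hm : n % 11 = 1) (hn : n ≠ 1) :
    n = 12 ∨ n = 45 := by
  have hle : n ≤ 360 := Nat.le_of_dvd (by norm_num) hd
  obtain ⟨t, rfl⟩ : ∃ t, n = 11 * t + 1 := ⟨n / 11, by omega⟩
  have ht : t ≤ 32 := by omega
  interval_cases t <;> omega

theorem o3960_arith_cent (e c : ℕ) (he : e ∣ 10) (he1 : 1 < e) (h : 88 = e * c) (hc : 11 ∣ c) :
    c = 44 := by
  obtain ⟨m, rfl⟩ := hc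
  have hle : e ≤ 10 := Nat.le_of_dvd (by norm_num) he
  interval_cases e <;> omega

/-- A permutation `σ` with `σ ^ 4 = 1` on `4 m + 1` points (`m` odd), fixing `x₀`, whose square
fixes only `x₀`, is odd. -/
theorem o983_sign_of_order_four {α : Type*} [Fintype α] [DecidableEq α] (σ : Equiv.Perm α)
    (h4 : σ ^ 4 = 1) (x₀ : α) (hx₀ : σ x₀ = x₀) (hfix : ∀ x, σ (σ x) = x → x = x₀) (m : ℕ)
    (hcard : Fintype.card α = 4 * m + 1) (hm : Odd m) : Equiv.Perm.sign σ = -1 := by
  have hall : ∀ n ∈ σ.cycleType, n = 4 := by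
    intro n hn
    have hdvd : n ∣ 4 := (Equiv.Perm.dvd_of_mem_cycleType hn).trans (orderOf_dvd_of_pow_eq_one h4)
    have hle := Equiv.Perm.two_le_of_mem_cycleType hn
    have hle4 := Nat.le_of_dvd (by norm_num) hdvd
    have hn2 : n ≠ 2 := by
      rintro rfl
      rw [Equiv.Perm.cycleType_def, Multiset.mem_map] at hn
      obtain ⟨c, hc, hc2⟩ := hn
      obtain ⟨hcyc, hcσ⟩ := Equiv.Perm.mem_cycleFactorsFinset_iff.mp (Finset.mem_val.mp hc)
      have hc2' : c.support.card = 2 := hc2
      have hne : c.support.Nonempty := by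
        rw [← Finset.card_pos, hc2']; norm_num
      obtain ⟨a, ha⟩ := hne
      have hca : c a ∈ c.support := Equiv.Perm.apply_mem_support.mpr ha
      have hcc : c ^ 2 = 1 := by
        rw [← hc2', ← hcyc.orderOf]; exact pow_orderOf_eq_one c
      have e1 : σ (σ a) = a := by
        rw [← hcσ a ha, ← hcσ (c a) hca]
        have := congrArg (fun τ : Equiv.Perm α => τ a) hcc
        simpa [pow_two] using this
      have ha0 := hfix a e1
      have : c a = a := by rw [hcσ a ha, ha0, hx₀]
      exact (Equiv.Perm.mem_support.mp ha) this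
    interval_cases n
    · exact absurd rfl hn2
    · omega
    · rfl
  have hrep := Multiset.eq_replicate_card.mpr hall
  have hsum : σ.cycleType.sum = 4 * Multiset.card σ.cycleType := by
    conv_lhs => rw [hrep]
    rw [Multiset.sum_replicate, smul_eq_mul, mul_comm]
  have hfp := Equiv.Perm.card_fixedPoints σ
  have hle := Equiv.Perm.sum_cycleType_le σ
  have hfix1 : Fintype.card (Function.fixedPoints σ) = 1 := by
    rw [Fintype.card_eq_one_iff]
    refine ⟨⟨x₀, hx₀⟩, ?_⟩
    rintro ⟨y, hy⟩
    apply Subtype.ext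
    have hy' : σ y = y := hy
    exact hfix y (by rw [hy', hy'])
  have hcardm : Multiset.card σ.cycleType = m := by omega
  have h5 : 4 * m + m = 2 * (2 * m) + m := by ring
  rw [Equiv.Perm.sign_of_cycleType, hsum, hcardm, h5, pow_add, pow_mul, hm.neg_one_pow]
  simp

/-- a simple group whose order is not a prime has two non-commuting elements. -/
theorem o983_exists_not_comm {G : Type*} [Group G] [Finite G] [IsSimpleGroup G]
    (hG : ¬ (Nat.card G).Prime) : ∃ a b : G, a * b ≠ b * a := by
  by_contra hcon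
  push Not at hcon
  haveI : IsMulCommutative G := ⟨⟨hcon⟩⟩
  exact hG (Group.is_simple_iff_prime_card.mp inferInstance)

variable {G : Type*} [Group G] [Finite G] [IsSimpleGroup G]

/-- in a simple group of order `3960` with `45` Sylow `11`-subgroups, an involution centralizing
the Sylow `11`-subgroup `P` fixes no other Sylow `11`-subgroup. -/
theorem o3960_fix_invol (h : Nat.card G = 3960) (hn : Nat.card (Sylow 11 G) = 45)
    (P : Sylow 11 G) (t : G) (ht : t ∈ centralizer ((P : Subgroup G) : Set G))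
    (ht2 : orderOf t = 2) (Q : Sylow 11 G) (hQ : t • Q = Q) : Q = P := by
  classical
  haveI : Fact (Nat.Prime 11) := ⟨by norm_num⟩
  haveI : Fact (Nat.Prime 2) := ⟨by norm_num⟩
  have hna : ∃ a b : G, a * b ≠ b * a := o983_exists_not_comm (by rw [h]; norm_num)
  have ht1 : t ≠ 1 := by
    rintro rfl
    simp at ht2
  have hmod1 := Cfsg.Agent.Helper8.SylFix.card_fixedBy_modEq_one P t
    (fun x hx => Subgroup.mem_centralizer_iff.mp ht x hx)
  have hmod2 := Cfsg.Agent.Helper8.SylFix.card_fixedBy_modEq (G := G) (p := 11) (q := 2) (k := 1) t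
    (by rw [ht2, pow_one])
  have hlt := Cfsg.Agent.Helper8.SylFix.card_fixedBy_lt (G := G) (p := 11) (by rw [hn]; norm_num)
    t ht1
  rw [hn] at hmod2 hlt
  unfold Nat.ModEq at hmod1 hmod2
  have hcases : Nat.card (MulAction.fixedBy (Sylow 11 G) t) = 1 ∨
      Nat.card (MulAction.fixedBy (Sylow 11 G) t) = 23 := by omega
  have hPfix : P ∈ MulAction.fixedBy (Sylow 11 G) t := by
    rw [MulAction.mem_fixedBy, Sylow.smul_eq_iff_mem_normalizer]
    exact Subgroup.centralizer_le_normalizer _ ht
  have hQfix : Q ∈ MulAction.fixedBy (Sylow 11 G) t := by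
    rw [MulAction.mem_fixedBy]; exact hQ
  rcases hcases with h1 | h23
  · have hsub := (Nat.card_eq_one_iff_unique.mp h1).1
    have := hsub.elim ⟨Q, hQfix⟩ ⟨P, hPfix⟩
    exact congrArg Subtype.val this
  · exfalso
    haveI : Fintype (Sylow 11 G) := Fintype.ofFinite _
    have hcard : Fintype.card (Sylow 11 G) = 45 := by
      rw [← Nat.card_eq_fintype_card, hn]
    obtain ⟨σ, hσ⟩ : ∃ σ : Equiv.Perm (Sylow 11 G), σ = MulAction.toPermHom G (Sylow 11 G) t :=
      ⟨_, rfl⟩
    have hσ2 : σ ^ 2 = 1 := by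
      rw [hσ, ← map_pow, ← ht2, pow_orderOf_eq_one, map_one]
    have hfp : Function.fixedPoints σ = MulAction.fixedBy (Sylow 11 G) t := by
      ext a
      rw [Function.mem_fixedPoints, MulAction.mem_fixedBy, hσ]
      rfl
    have hfix : Fintype.card (Function.fixedPoints σ) + 2 * 11 = Fintype.card (Sylow 11 G) := by
      rw [hcard, ← Nat.card_eq_fintype_card, hfp, h23]
    have hsign := Cfsg.Agent.Helper8.SylFix.sign_of_involution σ hσ2 11 hfix (by decide)
    have htriv := Cfsg.Agent.Helper9.OrdTools.hom_trivial hna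
      (Equiv.Perm.sign.comp (MulAction.toPermHom G (Sylow 11 G))) t
    rw [MonoidHom.comp_apply, ← hσ, hsign] at htriv
    exact absurd htriv (by decide)

theorem o3960_a (h : Nat.card G = 3960) (P : Sylow 11 G) :
    Nat.card (normalizer ((P : Subgroup G) : Set G)) = 88 ∧
    Nat.card (centralizer ((P : Subgroup G) : Set G)) = 44 ∧
    (∀ t ∈ centralizer ((P : Subgroup G) : Set G), orderOf t = 2 →
      ∀ Q : Sylow 11 G, t • Q = Q → Q = P) ∧
    (∀ u ∈ normalizer ((P : Subgroup G) : Set G), orderOf u ≠ 4) := by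
  classical
  haveI : Fact (Nat.Prime 11) := ⟨by norm_num⟩
  haveI : Fact (Nat.Prime 2) := ⟨by norm_num⟩
  have hna : ∃ a b : G, a * b ≠ b * a := o983_exists_not_comm (by rw [h]; norm_num)
  have hP : Nat.card (P : Subgroup G) = 11 := by
    have h1 := Cfsg.Agent.Helper9.OrdTools.sylow_card (p := 11) 1 360 (by rw [h]; norm_num) (by norm_num) P
    simpa using h1
  obtain ⟨hdvd, hmod, hne, hmul⟩ := Cfsg.Agent.Helper9.OrdTools.sylow_num P
    (by rw [hP]; norm_num) (by rw [hP, h]; norm_num)
  have hidx : (P : Subgroup G).index = 360 := by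
    have h1 := (P : Subgroup G).card_mul_index
    rw [hP, h] at h1
    omega
  rw [hidx] at hdvd
  obtain ⟨e, he, he1, heq, h11⟩ := Cfsg.Agent.Helper9.OrdTools.normalizer_centralizer_prime P
    hP (by rw [h]; norm_num)
  have hn : Nat.card (Sylow 11 G) = 45 := by
    rcases o3960_arith_n11 _ hdvd hmod hne with h12 | h45
    · exfalso
      have hc := Cfsg.Agent.Helper9.OrdTools.card_centralizer_of_num P hP (by rw [h12])
      rw [hc] at heq
      rw [h12, h] at hmul
      have hN : Nat.card (normalizer ((P : Subgroup G) : Set G)) = 330 := by omega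
      rw [hN] at heq
      have he30 : e = 30 := by omega
      rw [he30] at he
      omega
    · exact h45
  have hN : Nat.card (normalizer ((P : Subgroup G) : Set G)) = 88 := by
    rw [hn, h] at hmul
    omega
  rw [hN] at heq
  have hC : Nat.card (centralizer ((P : Subgroup G) : Set G)) = 44 :=
    o3960_arith_cent e _ he he1 heq h11
  refine ⟨hN, hC, fun t ht ht2 Q hQ => o3960_fix_invol h hn P t ht ht2 Q hQ, ?_⟩
  intro u hu hu4
  -- `u ^ 2 ∈ C(P)` as `C(P)` has index two in `N(P)`
  have hCN : centralizer ((P : Subgroup G) : Set G) ≤ normalizer ((P : Subgroup G) : Set G) :=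
    Subgroup.centralizer_le_normalizer _
  have hidx2 : ((centralizer ((P : Subgroup G) : Set G)).subgroupOf
      (normalizer ((P : Subgroup G) : Set G))).index = 2 := by
    have h1 := ((centralizer ((P : Subgroup G) : Set G)).subgroupOf
      (normalizer ((P : Subgroup G) : Set G))).card_mul_index
    rw [Nat.card_congr (Subgroup.subgroupOfEquivOfLe hCN).toEquiv, hC, hN] at h1
    omega
  have hu2 : u * u ∈ centralizer ((P : Subgroup G) : Set G) := by
    have h1 := Subgroup.mul_self_mem_of_index_two hidx2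
      (⟨u, hu⟩ : normalizer ((P : Subgroup G) : Set G))
    rw [Subgroup.mem_subgroupOf] at h1
    exact h1
  have hu2o : orderOf (u * u) = 2 := by
    rw [← pow_two, orderOf_pow' u (by norm_num), hu4]
    norm_num
  haveI : Fintype (Sylow 11 G) := Fintype.ofFinite _
  have hcard : Fintype.card (Sylow 11 G) = 4 * 11 + 1 := by
    rw [← Nat.card_eq_fintype_card, hn]
  obtain ⟨σ, hσ⟩ : ∃ σ : Equiv.Perm (Sylow 11 G), σ = MulAction.toPermHom G (Sylow 11 G) u :=
    ⟨_, rfl⟩
  have hσ4 : σ ^ 4 = 1 := by
    rw [hσ, ← map_pow, ← hu4, pow_orderOf_eq_one, map_one]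
  have hσP : σ P = P := by
    rw [hσ]
    exact Sylow.smul_eq_iff_mem_normalizer.mpr hu
  have hσfix : ∀ Q : Sylow 11 G, σ (σ Q) = Q → Q = P := by
    intro Q hQ
    apply o3960_fix_invol h hn P (u * u) hu2 hu2o Q
    rw [mul_smul]
    rw [hσ] at hQ
    exact hQ
  have hsign := o983_sign_of_order_four σ hσ4 P hσP hσfix 11 hcard (by decide)
  have htriv := Cfsg.Agent.Helper9.OrdTools.hom_trivial hna
    (Equiv.Perm.sign.comp (MulAction.toPermHom G (Sylow 11 G))) u
  rw [MonoidHom.comp_apply, ← hσ, hsign] at htriv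
  exact absurd htriv (by decide)

end Cfsg.Agent.Helper61
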