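import Mathlib
import Cfsg.Agent.Helper9.OrdTools
import Cfsg.Agent.Helper9.OrdTools2
import Cfsg.Agent.Helper8.SylFix

/-!
# CALL S0983 (helper82), piece B3960

No simple group of order `3960`, given the local data at a Sylow `11`-subgroup of piece A3960.
-/

set_option autoImplicit false
set_option linter.unusedSectionVars false
set_option linter.unusedVariables false
set_option linter.style.haveILetI false

namespace Cfsg.Agent.Helper61

open Subgroup

variable {G : Type*} [Group G] [Finite G] [IsSimpleGroup G]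

theorem o3960_b (h : Nat.card G = 3960) (P : Sylow 11 G)
    (hN : Nat.card (normalizer ((P : Subgroup G) : Set G)) = 88)
    (hC : Nat.card (centralizer ((P : Subgroup G) : Set G)) = 44)
    (hfix : ∀ t ∈ centralizer ((P : Subgroup G) : Set G), orderOf t = 2 →
      ∀ Q : Sylow 11 G, t • Q = Q → Q = P)
    (h4 : ∀ u ∈ normalizer ((P : Subgroup G) : Set G), orderOf u ≠ 4) : False := by
  classical
  haveI : Fact (Nat.Prime 11) := ⟨by norm_num⟩
  haveI : Fact (Nat.Prime 2) := ⟨by norm_num⟩
  -- a subgroup `T` of order `8` inside `N(P)`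
  obtain ⟨K, hK⟩ := Sylow.exists_subgroup_card_pow_prime
    (G := ↥(normalizer ((P : Subgroup G) : Set G))) 2 (n := 3) (by rw [hN]; norm_num)
  obtain ⟨T, hT⟩ : ∃ T : Subgroup G, T = K.map (normalizer ((P : Subgroup G) : Set G)).subtype :=
    ⟨_, rfl⟩
  have hTcard : Nat.card T = 8 := by
    rw [hT, Subgroup.card_map_of_injective (Subgroup.subtype_injective _), hK]
    norm_num
  have hTN : T ≤ normalizer ((P : Subgroup G) : Set G) := by
    rw [hT]
    exact Subgroup.map_subtype_le K
  -- `T` is a Sylow `2`-subgroup of `G`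
  have hS8 : ∀ S : Sylow 2 G, Nat.card (S : Subgroup G) = 8 := fun S => by
    have h1 := Cfsg.Agent.Helper9.OrdTools.sylow_card (p := 2) 3 495 (by rw [h]; norm_num)
      (by norm_num) S
    rw [h1]; norm_num
  have hTp : IsPGroup 2 T := IsPGroup.of_card (n := 3) (by rw [hTcard]; norm_num)
  obtain ⟨S, hTS⟩ := hTp.exists_le_sylow
  have hST : (S : Subgroup G) = T :=
    (Subgroup.eq_of_le_of_card_ge hTS (by rw [hTcard, hS8 S])).symm
  -- every element of `T` squares to one
  have hsq : ∀ u ∈ T, u * u = 1 := by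
    intro u hu
    have hdvd : orderOf u ∣ 8 := hTcard ▸ Subgroup.orderOf_dvd_natCard T hu
    have hne4 : orderOf u ≠ 4 := h4 u (hTN hu)
    have hne8 : orderOf u ≠ 8 := by
      intro h8
      apply h4 (u * u) (hTN (mul_mem hu hu))
      rw [← pow_two, orderOf_pow' u (by norm_num), h8]
      norm_num
    have hpos : 0 < orderOf u := orderOf_pos u
    have h2 : orderOf u ∣ 2 := by
      generalize orderOf u = k at hdvd hne4 hne8 hpos
      have hle : k ≤ 8 := Nat.le_of_dvd (by norm_num) hdvd
      interval_cases k <;> omega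
    rw [← pow_two]
    exact orderOf_dvd_iff_pow_eq_one.mp h2
  have hinv : ∀ u ∈ T, u⁻¹ = u := fun u hu => inv_eq_of_mul_eq_one_left (hsq u hu)
  have hcomm : ∀ a ∈ T, ∀ b ∈ T, a * b = b * a := by
    intro a ha b hb
    have h2 : a * b = (a * b)⁻¹ := (hinv _ (mul_mem ha hb)).symm
    rw [h2, mul_inv_rev, hinv a ha, hinv b hb]
  -- numerical data at all Sylow `11`-subgroups
  have hP11 : ∀ Q : Sylow 11 G, Nat.card (Q : Subgroup G) = 11 := fun Q => by
    have h1 := Cfsg.Agent.Helper9.OrdTools.sylow_card (p := 11) 1 360 (by rw [h]; norm_num)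
      (by norm_num) Q
    simpa using h1
  have hmulQ : ∀ Q : Sylow 11 G,
      Nat.card (normalizer ((Q : Subgroup G) : Set G)) * Nat.card (Sylow 11 G) = Nat.card G :=
    fun Q => (Cfsg.Agent.Helper9.OrdTools.sylow_num Q (by rw [hP11]; norm_num)
      (by rw [hP11, h]; norm_num)).2.2.2
  have hn : Nat.card (Sylow 11 G) = 45 := by
    have h1 := hmulQ P
    rw [hN, h] at h1
    omega
  have hN' : ∀ Q : Sylow 11 G, Nat.card (normalizer ((Q : Subgroup G) : Set G)) = 88 := by
    intro Q
    have h1 := hmulQ Q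
    rw [hn, h] at h1
    omega
  have hC' : ∀ Q : Sylow 11 G, Nat.card (centralizer ((Q : Subgroup G) : Set G)) = 44 :=
    fun Q => by rw [← Cfsg.Agent.Helper9.OrdTools.card_centralizer_sylow_eq P Q, hC]
  have hmem2 : ∀ Q : Sylow 11 G, ∀ a ∈ normalizer ((Q : Subgroup G) : Set G),
      ∀ b ∈ normalizer ((Q : Subgroup G) : Set G),
      (a * b ∈ centralizer ((Q : Subgroup G) : Set G) ↔
        (a ∈ centralizer ((Q : Subgroup G) : Set G) ↔
          b ∈ centralizer ((Q : Subgroup G) : Set G))) := by
    intro Q a ha b hb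
    have hCN : centralizer ((Q : Subgroup G) : Set G) ≤ normalizer ((Q : Subgroup G) : Set G) :=
      Subgroup.centralizer_le_normalizer _
    have hidx2 : ((centralizer ((Q : Subgroup G) : Set G)).subgroupOf
        (normalizer ((Q : Subgroup G) : Set G))).index = 2 := by
      have h1 := ((centralizer ((Q : Subgroup G) : Set G)).subgroupOf
        (normalizer ((Q : Subgroup G) : Set G))).card_mul_index
      rw [Nat.card_congr (Subgroup.subgroupOfEquivOfLe hCN).toEquiv, hC' Q, hN' Q] at h1
      omega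
    have h1 := Subgroup.mul_mem_iff_of_index_two hidx2
      (a := (⟨a, ha⟩ : normalizer ((Q : Subgroup G) : Set G)))
      (b := (⟨b, hb⟩ : normalizer ((Q : Subgroup G) : Set G)))
    simpa [Subgroup.mem_subgroupOf] using h1
  -- `N_G(T) ≤ N(P)`
  have hNT : normalizer (T : Set G) ≤ normalizer ((P : Subgroup G) : Set G) := by
    intro g hg
    apply Sylow.smul_eq_iff_mem_normalizer.mp
    have hTN' : ∀ y ∈ T, y ∈ normalizer (((g • P : Sylow 11 G) : Subgroup G) : Set G) := by
      intro y hy
      apply Sylow.smul_eq_iff_mem_normalizer.mp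
      rw [← mul_smul]
      have h1 : g⁻¹ * y * g ∈ T := by
        have h0 := (Subgroup.mem_normalizer_iff.mp (inv_mem hg)) y
        rw [inv_inv] at h0
        exact h0.mp hy
      have h2 : (g⁻¹ * y * g) • P = P := Sylow.smul_eq_iff_mem_normalizer.mpr (hTN h1)
      have h3 : y * g = g * (g⁻¹ * y * g) := by group
      rw [h3, mul_smul, h2]
    haveI : Fintype T := Fintype.ofFinite _
    obtain ⟨a, b, hab, hfab⟩ := Fintype.exists_ne_map_eq_of_card_lt
      (fun y : T => (((y : G) ∈ centralizer ((P : Subgroup G) : Set G),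
        (y : G) ∈ centralizer (((g • P : Sylow 11 G) : Subgroup G) : Set G)) : Prop × Prop))
      (by rw [Fintype.card_prod, Fintype.card_prop, ← Nat.card_eq_fintype_card, hTcard]; norm_num)
    have hf1 : ((a : G) ∈ centralizer ((P : Subgroup G) : Set G)) ↔
        ((b : G) ∈ centralizer ((P : Subgroup G) : Set G)) :=
      iff_of_eq (congrArg Prod.fst hfab)
    have hf2 : ((a : G) ∈ centralizer (((g • P : Sylow 11 G) : Subgroup G) : Set G)) ↔
        ((b : G) ∈ centralizer (((g • P : Sylow 11 G) : Subgroup G) : Set G)) :=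
      iff_of_eq (congrArg Prod.snd hfab)
    have hyT : (a : G) * (b : G) ∈ T := mul_mem a.2 b.2
    have hyC : (a : G) * (b : G) ∈ centralizer ((P : Subgroup G) : Set G) :=
      (hmem2 P a (hTN a.2) b (hTN b.2)).mpr hf1
    have hyC' : (a : G) * (b : G) ∈ centralizer (((g • P : Sylow 11 G) : Subgroup G) : Set G) :=
      (hmem2 (g • P) a (hTN' a a.2) b (hTN' b b.2)).mpr hf2
    have hy1 : (a : G) * (b : G) ≠ 1 := by
      intro h1
      apply hab
      apply Subtype.ext
      have h5 : (a : G) = (b : G)⁻¹ := eq_inv_of_mul_eq_one_left h1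
      rw [h5, hinv b b.2]
    have hy2 : orderOf ((a : G) * (b : G)) = 2 :=
      orderOf_eq_prime (by rw [pow_two]; exact hsq _ hyT) hy1
    have hfixP' : ((a : G) * (b : G)) • (g • P : Sylow 11 G) = g • P :=
      Sylow.smul_eq_iff_mem_normalizer.mpr (Subgroup.centralizer_le_normalizer _ hyC')
    exact hfix _ hyC hy2 (g • P) hfixP'
  have hTNT : T ≤ normalizer (T : Set G) := Subgroup.le_normalizer
  have hd1 : 8 ∣ Nat.card (normalizer (T : Set G)) := hTcard ▸ Subgroup.card_dvd_of_le hTNT
  have hd2 : Nat.card (normalizer (T : Set G)) ∣ 88 := hN ▸ Subgroup.card_dvd_of_le hNT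
  have hcases : Nat.card (normalizer (T : Set G)) = 8 ∨
      Nat.card (normalizer (T : Set G)) = 88 := by
    generalize Nat.card (normalizer (T : Set G)) = k at hd1 hd2
    obtain ⟨j, rfl⟩ := hd1
    have hle : 8 * j ≤ 88 := Nat.le_of_dvd (by norm_num) hd2
    have hj : j ≤ 11 := by omega
    interval_cases j <;> omega
  rcases hcases with h8 | h88
  · -- `N_G(T) = T ≤ C_G(T)`: Burnside
    have hNTeq : normalizer (T : Set G) = T :=
      (Subgroup.eq_of_le_of_card_ge hTNT (by rw [h8, hTcard])).symm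
    apply Cfsg.Agent.Helper9.OrdTools.not_normalizer_le_centralizer S (by rw [hS8]; norm_num)
      (by rw [hS8, h]; norm_num)
    rw [hST, hNTeq]
    intro y hy
    rw [Subgroup.mem_centralizer_iff]
    intro x hx
    exact hcomm x hx y hy
  · -- `N_G(T) = N(P)`: then `T ≤ C(P)`
    have hNTeq : normalizer (T : Set G) = normalizer ((P : Subgroup G) : Set G) :=
      Subgroup.eq_of_le_of_card_ge hNT (by rw [h88, hN])
    have hPN : (P : Subgroup G) ≤ normalizer (T : Set G) := by
      rw [hNTeq]
      exact Subgroup.le_normalizer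
    have hdisj : (P : Subgroup G) ⊓ T = ⊥ :=
      disjoint_iff.mp (Subgroup.disjoint_of_coprime_natCard (by rw [hP11, hTcard]; norm_num))
    have hTC : T ≤ centralizer ((P : Subgroup G) : Set G) := by
      intro y hy
      rw [Subgroup.mem_centralizer_iff]
      intro x hx
      have h1 : x * y * x⁻¹ ∈ T := (Subgroup.mem_normalizer_iff.mp (hPN hx) y).mp hy
      have h2 : y * x⁻¹ * y⁻¹ ∈ (P : Subgroup G) :=
        (Subgroup.mem_normalizer_iff.mp (hTN hy) x⁻¹).mp (inv_mem hx)
      have h3 : x * y * x⁻¹ * y⁻¹ ∈ (P : Subgroup G) ⊓ T := by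
        refine Subgroup.mem_inf.mpr ⟨?_, mul_mem h1 (inv_mem hy)⟩
        have h5 : x * y * x⁻¹ * y⁻¹ = x * (y * x⁻¹ * y⁻¹) := by group
        rw [h5]
        exact mul_mem hx h2
      rw [hdisj, Subgroup.mem_bot] at h3
      have h4 : x * y * x⁻¹ * y⁻¹ * (y * x) = y * x := by rw [h3, one_mul]
      rw [← h4]
      group
    have h5 := Subgroup.card_dvd_of_le hTC
    rw [hTcard, hC] at h5
    omega

end Cfsg.Agent.Helper61
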