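import Mathlib

/-!
# CALL S0983 part E (helper82), piece EAR

Arithmetic: a positive `c < 2 ^ 13` all of whose prime divisors are `≤ t` divides `(t!) ^ 13`.
-/

set_option autoImplicit false

namespace Cfsg.Agent.Helper61

theorem eng_dvd_factorial_pow (c t : ℕ) (hc0 : 0 < c) (hc : c < 2 ^ 13)
    (h : ∀ r : ℕ, r.Prime → r ∣ c → r ≤ t) : c ∣ t.factorial ^ 13 := by
  have hf0 : t.factorial ^ 13 ≠ 0 := pow_ne_zero _ (Nat.factorial_ne_zero t)
  rw [← Nat.factorization_prime_le_iff_dvd hc0.ne' hf0]
  intro r hr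
  by_cases hrc : r ∣ c
  · have hrt : r ∣ t.factorial := Nat.dvd_factorial hr.pos (h r hr hrc)
    have h1 : 0 < t.factorial.factorization r :=
      hr.factorization_pos_of_dvd (Nat.factorial_ne_zero t) hrt
    rw [Nat.factorization_pow, Finsupp.smul_apply, smul_eq_mul]
    have h2 : c.factorization r < 13 := by
      have hd : r ^ c.factorization r ∣ c := Nat.ordProj_dvd c r
      have hle : r ^ c.factorization r ≤ c := Nat.le_of_dvd hc0 hd
      have h3 : 2 ^ c.factorization r ≤ r ^ c.factorization r := Nat.pow_le_pow_left hr.two_le _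
      have h4 : 2 ^ c.factorization r < 2 ^ 13 := by omega
      exact (Nat.pow_lt_pow_iff_right (by norm_num)).mp h4
    nlinarith
  · rw [Nat.factorization_eq_zero_of_not_dvd hrc]
    exact Nat.zero_le _

end Cfsg.Agent.Helper61
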