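import Mathlib
import Cfsg.Agent.Helper9.OrdTools
import Cfsg.Agent.Helper82.SylCent

/-!
# CALL S0983 part E (helper82), piece ET

Sylow arithmetic for a Sylow subgroup of prime order in a simple group.
-/

set_option autoImplicit false
set_option linter.unusedVariables false
set_option linter.unusedSectionVars false
set_option linter.style.haveILetI false

namespace Cfsg.Agent.Helper61

open Subgroup

variable {G : Type*} [Group G] [Finite G] [IsSimpleGroup G]

theorem eng_syl_one (hG : ¬ IsMulCommutative G) (p m : ℕ) (hp : p.Prime)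
    (hcard : Nat.card G = p * m) (hpm : ¬ p ∣ m) (hm : 1 < m) :
    ∃ e c : ℕ, e ∣ p - 1 ∧ 1 < e ∧ Nat.card (Sylow p G) * e * c = m ∧
      ∀ r : ℕ, r.Prime → r ∣ c → r * p + 1 ≤ Nat.card (Sylow p G) := by
  haveI : Fact p.Prime := ⟨hp⟩
  obtain ⟨P⟩ : Nonempty (Sylow p G) := inferInstance
  have hP : Nat.card (P : Subgroup G) = p := by
    have h1 := Cfsg.Agent.Helper9.OrdTools.sylow_card (p := p) 1 m (by rw [hcard, pow_one]) hpm P
    rwa [pow_one] at h1
  have hplt : p < Nat.card G := by
    rw [hcard]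
    nlinarith [hp.pos]
  obtain ⟨hdvd, hmod, hne, hmul⟩ := Cfsg.Agent.Helper9.OrdTools.sylow_num P
    (by rw [hP]; exact hp.one_lt) (by rw [hP]; exact hplt)
  obtain ⟨e, he, he1, heq, hpC⟩ :=
    Cfsg.Agent.Helper9.OrdTools.normalizer_centralizer_prime P hP hplt
  obtain ⟨c, hc⟩ := hpC
  have hmeq : Nat.card (Sylow p G) * e * c = m := by
    rw [heq, hc, hcard] at hmul
    have h5 : p * (Nat.card (Sylow p G) * e * c) = p * m := by
      rw [← hmul]
      ring
    exact Nat.eq_of_mul_eq_mul_left hp.pos h5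
  refine ⟨e, c, he, he1, hmeq, ?_⟩
  intro r hr hrc
  haveI : Fact r.Prime := ⟨hr⟩
  have hrp : r ≠ p := by
    rintro rfl
    apply hpm
    rw [← hmeq]
    exact Dvd.dvd.mul_left hrc _
  have hrC : r ∣ Nat.card (centralizer ((P : Subgroup G) : Set G)) := by
    rw [hc]
    exact Dvd.dvd.mul_left hrc p
  obtain ⟨y, hy⟩ := exists_prime_orderOf_dvd_card'
    (G := ↥(centralizer ((P : Subgroup G) : Set G))) r hrC
  have h1 : 1 < Nat.card (Sylow p G) := by
    have h0 := Nat.card_pos (α := Sylow p G)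
    omega
  exact Cfsg.Agent.Helper82.prime_mul_lt_card_sylow hrp P (y : G) y.2
    (by rw [Subgroup.orderOf_coe]; exact hy) h1

end Cfsg.Agent.Helper61
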