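import Mathlib

set_option autoImplicit false

namespace Cfsg.Agent.Helper61

open Nat

namespace OSylAr

/-- 2-adic valuation of `q ^ (2 (i+1)) - 1`, `q` odd (copy of `Helper37.v2_pow_sub_one`) -/
theorem v2_pow_sub_one (q : ℕ) (hq : Odd q) (hq1 : 1 < q) (i : ℕ) :
    padicValNat 2 (q ^ (2 * (i + 1)) - 1) = padicValNat 2 (q ^ 2 - 1) + padicValNat 2 (i + 1) := by
  have hx : ¬ 2 ∣ q := by
    rcases hq with ⟨t, rfl⟩
    omega
  have hxy : 2 ∣ q - 1 := by
    rcases hq with ⟨t, rfl⟩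
    exact ⟨t, by omega⟩
  have h1 := padicValNat.pow_two_sub_pow (x := q) (y := 1) hq1 hxy hx (n := 2 * (i + 1))
    (by omega) ⟨i + 1, by ring⟩
  have h2 := padicValNat.pow_two_sub_pow (x := q) (y := 1) hq1 hxy hx (n := 2)
    (by omega) ⟨1, by ring⟩
  rw [one_pow] at h1 h2
  have h3 : padicValNat 2 (2 * (i + 1)) = 1 + padicValNat 2 (i + 1) := by
    rw [padicValNat.mul (by norm_num) (by omega)]
    simp
  have h4 : padicValNat 2 2 = 1 := by simp
  rw [h3] at h1
  rw [h4] at h2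
  omega

theorem pow_pos' (q : ℕ) (hq1 : 1 < q) (i : ℕ) : q ^ (2 * (i + 1)) - 1 ≠ 0 := by
  have : 1 < q ^ (2 * (i + 1)) := Nat.one_lt_pow (by omega) hq1
  omega

theorem prod_ne (q : ℕ) (hq1 : 1 < q) (n : ℕ) :
    ∏ i ∈ Finset.range n, (q ^ (2 * (i + 1)) - 1) ≠ 0 :=
  Finset.prod_ne_zero_iff.mpr (fun i _ => pow_pos' q hq1 i)

theorem v2_prod (q : ℕ) (hq : Odd q) (hq1 : 1 < q) (n : ℕ) :
    padicValNat 2 (∏ i ∈ Finset.range n, (q ^ (2 * (i + 1)) - 1)) =
      n * padicValNat 2 (q ^ 2 - 1) + padicValNat 2 (n !) := by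
  induction n with
  | zero => simp
  | succ k ih =>
    rw [Finset.prod_range_succ, padicValNat.mul (prod_ne q hq1 k) (pow_pos' q hq1 k), ih,
      v2_pow_sub_one q hq hq1 k,
      Nat.factorial_succ, padicValNat.mul (by omega) (Nat.factorial_ne_zero k)]
    ring

theorem v2_odd (n : ℕ) (h : Odd n) : padicValNat 2 n = 0 := by
  apply padicValNat.eq_zero_of_not_dvd
  rcases h with ⟨t, rfl⟩
  omega

theorem v2_two_mod_four (n : ℕ) (h : n % 4 = 2) : padicValNat 2 n = 1 := by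
  obtain ⟨k, rfl⟩ : ∃ k, n = 2 * k := ⟨n / 2, by omega⟩
  have hk : Odd k := by
    rw [Nat.odd_iff]
    omega
  rw [padicValNat.mul (by norm_num) (by rcases hk with ⟨t, rfl⟩; omega), v2_odd k hk]
  simp

theorem v2_sq_sub_one (q : ℕ) (hq1 : 1 < q) :
    padicValNat 2 (q ^ 2 - 1) = padicValNat 2 (q - 1) + padicValNat 2 (q + 1) := by
  have h : q ^ 2 - 1 = (q - 1) * (q + 1) := by
    have := Nat.sq_sub_sq q 1
    rw [one_pow] at this
    rw [this, mul_comm]
  rw [h, padicValNat.mul (by omega) (by omega)]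

theorem odd_pow_sub_one (q : ℕ) (hq : Odd q) (hq1 : 1 < q) (j : ℕ) :
    ∃ s : ℕ, Odd s ∧ q ^ (2 * j + 1) - 1 = (q - 1) * s := by
  induction j with
  | zero => exact ⟨1, odd_one, by simp⟩
  | succ j ih =>
    obtain ⟨s, hs, he⟩ := ih
    refine ⟨q ^ 2 * s + q + 1, ?_, ?_⟩
    · have h1 : Odd (q ^ 2 * s) := (hq.pow).mul hs
      have h2 : Even (q + 1) := hq.add_one
      rw [add_assoc]
      exact h1.add_even h2
    · have h1 : 1 ≤ q ^ (2 * j + 1) := Nat.one_le_pow _ _ (by omega)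
      have h2 : 1 ≤ q ^ (2 * (j + 1) + 1) := Nat.one_le_pow _ _ (by omega)
      have h3 : q ^ (2 * j + 1) = (q - 1) * s + 1 := by omega
      obtain ⟨r, rfl⟩ : ∃ r, q = r + 1 := ⟨q - 1, by omega⟩
      have h4 : (r + 1) ^ (2 * (j + 1) + 1) = (r + 1) ^ 2 * (r + 1) ^ (2 * j + 1) := by
        rw [← pow_add]
        congr 1
        ring
      rw [h4, h3]
      simp only [Nat.add_sub_cancel]
      have : (r + 1) ^ 2 * (r * s + 1) = r * ((r + 1) ^ 2 * s + (r + 1) + 1) + 1 := by ring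
      rw [this]
      simp

theorem odd_pow_add_one (q : ℕ) (hq : Odd q) (hq1 : 1 < q) (j : ℕ) :
    ∃ s : ℕ, Odd s ∧ q ^ (2 * j + 1) + 1 = (q + 1) * s := by
  induction j with
  | zero => exact ⟨1, odd_one, by simp⟩
  | succ j ih =>
    obtain ⟨s, hs, he⟩ := ih
    have hs1 : 1 ≤ s := by rcases hs with ⟨t, rfl⟩; omega
    have hle : q - 1 ≤ q ^ 2 * s := by
      have : q ≤ q ^ 2 * s := by
        calc q = q * 1 := (mul_one q).symm
          _ ≤ q ^ 2 * s := by
            rw [pow_two, mul_assoc]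
            exact Nat.mul_le_mul_left q (by nlinarith)
      omega
    refine ⟨q ^ 2 * s - (q - 1), ?_, ?_⟩
    · have h1 : Odd (q ^ 2 * s) := (hq.pow).mul hs
      have h2 : Even (q - 1) := by
        rcases hq with ⟨t, rfl⟩
        exact ⟨t, by omega⟩
      exact Nat.Odd.sub_even hle h1 h2
    · have h4 : q ^ (2 * (j + 1) + 1) = q ^ 2 * q ^ (2 * j + 1) := by
        rw [← pow_add]
        congr 1
        ring
      have h5 : q ^ 2 * q ^ (2 * j + 1) + q ^ 2 = q ^ 2 * ((q + 1) * s) := by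
        rw [← he]
        ring
      rw [h4]
      zify [hle] at h5 ⊢
      rw [Nat.cast_sub hq1.le]
      push_cast
      linear_combination h5

theorem v2_odd_pow_sub_one (q : ℕ) (hq : Odd q) (hq1 : 1 < q) (n : ℕ) (hn : Odd n) :
    padicValNat 2 (q ^ n - 1) = padicValNat 2 (q - 1) := by
  obtain ⟨j, rfl⟩ := hn
  obtain ⟨s, hs, he⟩ := odd_pow_sub_one q hq hq1 j
  rw [he, padicValNat.mul (by omega) (by rcases hs with ⟨t, rfl⟩; omega), v2_odd s hs, add_zero]

theorem v2_odd_pow_add_one (q : ℕ) (hq : Odd q) (hq1 : 1 < q) (n : ℕ) (hn : Odd n) :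
    padicValNat 2 (q ^ n + 1) = padicValNat 2 (q + 1) := by
  obtain ⟨j, rfl⟩ := hn
  obtain ⟨s, hs, he⟩ := odd_pow_add_one q hq hq1 j
  rw [he, padicValNat.mul (by omega) (by rcases hs with ⟨t, rfl⟩; omega), v2_odd s hs, add_zero]

theorem v2_even_pow_add_one (q : ℕ) (hq : Odd q) (n : ℕ) (hn : Even n) :
    padicValNat 2 (q ^ n + 1) = 1 := by
  obtain ⟨j, rfl⟩ := hn
  apply v2_two_mod_four
  have h1 : q ^ (j + j) = (q ^ 2) ^ j := by rw [← pow_mul]; congr 1; ring
  have h2 : q ^ 2 % 4 = 1 := by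
    rcases hq with ⟨t, rfl⟩
    have : (2 * t + 1) ^ 2 = 4 * (t * t + t) + 1 := by ring
    rw [this]
    omega
  have h3 : (q ^ 2) ^ j % 4 = 1 := by
    rw [Nat.pow_mod, h2]
    simp
  rw [h1]
  omega


theorem fact2 (n : ℕ) : n.factorization 2 = padicValNat 2 n :=
  Nat.factorization_def n Nat.prime_two

theorem v2_factorial (m : ℕ) (hm : 1 ≤ m) :
    padicValNat 2 (m !) = padicValNat 2 ((m - 1)!) + padicValNat 2 m := by
  obtain ⟨k, rfl⟩ : ∃ k, m = k + 1 := ⟨m - 1, by omega⟩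
  rw [Nat.factorial_succ, padicValNat.mul (by omega) (Nat.factorial_ne_zero k)]
  simp only [Nat.add_sub_cancel]
  ring

theorem v2_shape (q e A m : ℕ) (hq : Odd q) (hq1 : 1 < q) (hA : A ≠ 0) :
    padicValNat 2 (2 * q ^ e * A * ∏ i ∈ Finset.range m, (q ^ (2 * (i + 1)) - 1)) =
      1 + padicValNat 2 A + (m * padicValNat 2 (q ^ 2 - 1) + padicValNat 2 (m !)) := by
  have hqe : q ^ e ≠ 0 := pow_ne_zero _ (by omega)
  rw [padicValNat.mul (mul_ne_zero (mul_ne_zero two_ne_zero hqe) hA) (prod_ne q hq1 m),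
    padicValNat.mul (mul_ne_zero two_ne_zero hqe) hA, padicValNat.mul two_ne_zero hqe,
    v2_odd _ hq.pow, v2_prod q hq hq1 m]
  simp

theorem mul_pred (m d : ℕ) (hm : 1 ≤ m) : m * d = (m - 1) * d + d := by
  obtain ⟨k, rfl⟩ : ∃ k, m = k + 1 := ⟨m - 1, by omega⟩
  simp only [Nat.add_sub_cancel]
  ring

end OSylAr

open OSylAr

theorem osyl_ar_odd (q m : ℕ) (hq : Odd q) (hq1 : 1 < q) :
    (2 * q ^ (m ^ 2) * ∏ i ∈ Finset.range m, (q ^ (2 * (i + 1)) - 1)).factorization 2 =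
      m * (q ^ 2 - 1).factorization 2 + (m.factorial).factorization 2 + 1 := by
  simp only [fact2]
  have h := v2_shape q (m ^ 2) 1 m hq hq1 one_ne_zero
  rw [mul_one] at h
  rw [h]
  simp
  omega

theorem osyl_ar_plus (q m : ℕ) (hq : Odd q) (hq1 : 1 < q) (hm : 1 ≤ m) :
    (q % 4 = 1 ∨ Even m →
        (2 * q ^ (m * (m - 1)) * (q ^ m - 1) *
          ∏ i ∈ Finset.range (m - 1), (q ^ (2 * (i + 1)) - 1)).factorization 2 =
          m * (q ^ 2 - 1).factorization 2 + (m.factorial).factorization 2) ∧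
      (q % 4 = 3 ∧ Odd m →
        (2 * q ^ (m * (m - 1)) * (q ^ m - 1) *
          ∏ i ∈ Finset.range (m - 1), (q ^ (2 * (i + 1)) - 1)).factorization 2 =
          (m - 1) * (q ^ 2 - 1).factorization 2 + ((m - 1).factorial).factorization 2 + 2) := by
  simp only [fact2]
  have hA : q ^ m - 1 ≠ 0 := by
    have : 1 < q ^ m := Nat.one_lt_pow (by omega) hq1
    omega
  rw [v2_shape q (m * (m - 1)) (q ^ m - 1) (m - 1) hq hq1 hA]
  have hfac := v2_factorial m hm
  have hd := v2_sq_sub_one q hq1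
  have hmd := mul_pred m (padicValNat 2 (q ^ 2 - 1)) hm
  constructor
  · intro h
    rcases Nat.even_or_odd m with hme | hmo
    · obtain ⟨j, hj⟩ := hme
      have hj1 : 1 ≤ j := by omega
      have h1 : padicValNat 2 (q ^ m - 1) = padicValNat 2 (q ^ 2 - 1) + padicValNat 2 j := by
        have h0 := v2_pow_sub_one q hq hq1 (j - 1)
        have e : 2 * (j - 1 + 1) = m := by omega
        rw [e, Nat.sub_add_cancel hj1] at h0
        exact h0
      have h2 : padicValNat 2 m = 1 + padicValNat 2 j := by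
        rw [hj, ← two_mul, padicValNat.mul two_ne_zero (by omega)]
        simp
      rw [h1, hfac, h2, hmd]
      omega
    · have hq4 : q % 4 = 1 := by
        rcases h with h | h
        · exact h
        · exact absurd h (Nat.not_even_iff_odd.mpr hmo)
      have h1 := v2_odd_pow_sub_one q hq hq1 m hmo
      have h2 : padicValNat 2 (q + 1) = 1 := v2_two_mod_four _ (by omega)
      have h3 : padicValNat 2 m = 0 := v2_odd m hmo
      rw [h1, hfac, h3, hmd]
      omega
  · rintro ⟨hq4, hmo⟩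
    have h1 := v2_odd_pow_sub_one q hq hq1 m hmo
    have h2 : padicValNat 2 (q - 1) = 1 := v2_two_mod_four _ (by omega)
    rw [h1, h2]
    omega

theorem osyl_ar_minus (q m : ℕ) (hq : Odd q) (hq1 : 1 < q) (hm : 1 ≤ m) :
    (q % 4 = 3 ∧ Odd m →
        (2 * q ^ (m * (m - 1)) * (q ^ m + 1) *
          ∏ i ∈ Finset.range (m - 1), (q ^ (2 * (i + 1)) - 1)).factorization 2 =
          m * (q ^ 2 - 1).factorization 2 + (m.factorial).factorization 2) ∧
      (q % 4 = 1 ∨ Even m →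
        (2 * q ^ (m * (m - 1)) * (q ^ m + 1) *
          ∏ i ∈ Finset.range (m - 1), (q ^ (2 * (i + 1)) - 1)).factorization 2 =
          (m - 1) * (q ^ 2 - 1).factorization 2 + ((m - 1).factorial).factorization 2 + 2) := by
  simp only [fact2]
  have hA : q ^ m + 1 ≠ 0 := by omega
  rw [v2_shape q (m * (m - 1)) (q ^ m + 1) (m - 1) hq hq1 hA]
  have hfac := v2_factorial m hm
  have hd := v2_sq_sub_one q hq1
  have hmd := mul_pred m (padicValNat 2 (q ^ 2 - 1)) hm
  constructor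
  · rintro ⟨hq4, hmo⟩
    have h1 := v2_odd_pow_add_one q hq hq1 m hmo
    have h2 : padicValNat 2 (q - 1) = 1 := v2_two_mod_four _ (by omega)
    have h3 : padicValNat 2 m = 0 := v2_odd m hmo
    rw [h1, hfac, h3, hmd]
    omega
  · intro h
    rcases Nat.even_or_odd m with hme | hmo
    · rw [v2_even_pow_add_one q hq m hme]
      omega
    · have hq4 : q % 4 = 1 := by
        rcases h with h | h
        · exact h
        · exact absurd h (Nat.not_even_iff_odd.mpr hmo)
      have h1 := v2_odd_pow_add_one q hq hq1 m hmo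
      have h2 : padicValNat 2 (q + 1) = 1 := v2_two_mod_four _ (by omega)
      rw [h1, h2]
      omega



end Cfsg.Agent.Helper61
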