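import Mathlib
import Cfsg.Agent.Helper8.Ord1440
import Cfsg.Agent.S0985

set_option autoImplicit false
set_option linter.unusedSectionVars false
set_option linter.unusedVariables false
set_option linter.unusedSimpArgs false
set_option linter.style.haveILetI false

namespace Cfsg.Agent.Helper61

open Subgroup Cfsg.Agent.Helper9.OrdTools Cfsg.Agent.Helper8

variable {G : Type*} [Group G] [Finite G]

/-- PIECE C of CALL S0976: a simple group of order 4032 does not have exactly nine Sylow
2-subgroups. -/
theorem ord4032_n2_ne_9 [IsSimpleGroup G] (hG : Nat.card G = 4032) :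
    Nat.card (Sylow 2 G) ≠ 9 := by
  classical
  intro h9
  haveI : Fact (Nat.Prime 2) := ⟨Nat.prime_two⟩
  haveI : Fact (Nat.Prime 7) := ⟨by norm_num⟩
  obtain ⟨y, hy⟩ := exists_prime_orderOf_dvd_card' (G := G) 7 (by rw [hG]; norm_num)
  have hy1 : y ≠ 1 := by
    rintro rfl
    simp at hy
  have hmod := SylFix.card_fixedBy_modEq (G := G) (p := 2) (q := 7) (k := 1) y
    (by rw [hy, pow_one])
  have hlt := SylFix.card_fixedBy_lt (G := G) (p := 2) (by rw [h9]; norm_num) y hy1
  have hA : Nat.card (MulAction.fixedBy (Sylow 2 G) y) = 2 := by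
    rw [h9] at hmod hlt
    unfold Nat.ModEq at hmod
    omega
  obtain ⟨⟨S1, hS1⟩, ⟨S2, hS2⟩, hne, huniv⟩ := Nat.card_eq_two_iff.mp hA
  have hS12 : S1 ≠ S2 := fun h => hne (Subtype.ext h)
  rw [MulAction.mem_fixedBy, Sylow.smul_eq_iff_mem_normalizer] at hS1 hS2
  have hc1 : Nat.card (S1 : Subgroup G) = 2 ^ 6 :=
    sylow_card 6 63 (by rw [hG]; norm_num) (by norm_num) S1
  have hc2 : Nat.card (S2 : Subgroup G) = 2 ^ 6 :=
    sylow_card 6 63 (by rw [hG]; norm_num) (by norm_num) S2
  have hi1 : (S1 : Subgroup G).index = 63 := by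
    have := (S1 : Subgroup G).card_mul_index
    rw [hc1, hG] at this
    omega
  have hi2 : (S2 : Subgroup G).index = 63 := by
    have := (S2 : Subgroup G).card_mul_index
    rw [hc2, hG] at this
    omega
  set D : Subgroup G := (S1 : Subgroup G) ⊓ (S2 : Subgroup G) with hD
  have hDne : D ≠ ⊥ := by
    intro hbot
    have := Subgroup.index_inf_le (H := (S1 : Subgroup G)) (K := (S2 : Subgroup G))
    rw [← hD, hbot, Subgroup.index_bot, hG, hi1, hi2] at this
    omega
  have hDp : IsPGroup 2 D := S1.2.to_le inf_le_left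
  have hzN1 : zpowers y ≤ normalizer ((S1 : Subgroup G) : Set G) := zpowers_le.mpr hS1
  have hzN2 : zpowers y ≤ normalizer ((S2 : Subgroup G) : Set G) := zpowers_le.mpr hS2
  have hconjD : ∀ c ∈ zpowers y, ∀ d ∈ D, c⁻¹ * d * c ∈ D := by
    intro c hc d hd
    have h1 := (Subgroup.mem_normalizer_iff.mp (inv_mem (hzN1 hc))) d
    have h2 := (Subgroup.mem_normalizer_iff.mp (inv_mem (hzN2 hc))) d
    rw [inv_inv] at h1 h2
    exact ⟨h1.mp hd.1, h2.mp hd.2⟩
  -- the fixed points of `D`, as a `⟨y⟩`-set
  let S₀ : SubMulAction (↥(zpowers y)) (Sylow 2 G) :=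
    { carrier := MulAction.fixedPoints D (Sylow 2 G)
      smul_mem' := by
        intro c Q hQ d
        have h3 := hQ ⟨_, hconjD c c.2 d d.2⟩
        change ((c : G)⁻¹ * (d : G) * (c : G)) • Q = Q at h3
        change (d : G) • ((c : G) • Q) = (c : G) • Q
        rw [← mul_smul]
        have : (d : G) * (c : G) = (c : G) * ((c : G)⁻¹ * (d : G) * (c : G)) := by group
        rw [this, mul_smul, h3] }
  have hz : IsPGroup 7 (zpowers y) :=
    IsPGroup.of_card (n := 1) (by rw [Nat.card_zpowers, hy, pow_one])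
  have h7 := hz.card_modEq_card_fixedPoints (↥S₀)
  have h2 := hDp.card_modEq_card_fixedPoints (Sylow 2 G)
  have hF : Nat.card (↥S₀) = Nat.card (MulAction.fixedPoints D (Sylow 2 G)) := rfl
  have hmem1 : S1 ∈ MulAction.fixedPoints D (Sylow 2 G) := by
    intro d
    change (d : G) • S1 = S1
    rw [Sylow.smul_eq_iff_mem_normalizer]
    exact Subgroup.le_normalizer d.2.1
  have hmem2 : S2 ∈ MulAction.fixedPoints D (Sylow 2 G) := by
    intro d
    change (d : G) • S2 = S2
    rw [Sylow.smul_eq_iff_mem_normalizer]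
    exact Subgroup.le_normalizer d.2.2
  have hfix2 : Nat.card (MulAction.fixedPoints (↥(zpowers y)) (↥S₀)) = 2 := by
    apply le_antisymm
    · refine le_of_le_of_eq ?_ hA
      refine Nat.card_le_card_of_injective
        (fun a => (⟨((a.1 : ↥S₀) : Sylow 2 G), ?_⟩ : MulAction.fixedBy (Sylow 2 G) y)) ?_
      · rw [MulAction.mem_fixedBy]
        have := a.2 ⟨y, Subgroup.mem_zpowers y⟩
        exact congrArg Subtype.val this
      · intro a b hab
        apply Subtype.ext
        apply Subtype.ext
        exact congrArg (fun z : MulAction.fixedBy (Sylow 2 G) y => (z : Sylow 2 G)) hab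
    · have hnt : Nontrivial (MulAction.fixedPoints (↥(zpowers y)) (↥S₀)) := by
        refine ⟨⟨⟨⟨S1, hmem1⟩, ?_⟩, ⟨⟨S2, hmem2⟩, ?_⟩, ?_⟩⟩
        · intro c
          apply Subtype.ext
          change (c : G) • S1 = S1
          rw [Sylow.smul_eq_iff_mem_normalizer]
          exact hzN1 c.2
        · intro c
          apply Subtype.ext
          change (c : G) • S2 = S2
          rw [Sylow.smul_eq_iff_mem_normalizer]
          exact hzN2 c.2
        · intro h
          apply hS12
          have := congrArg (fun a => ((a : ↥S₀) : Sylow 2 G)) (congrArg Subtype.val h)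
          exact this
      exact Finite.one_lt_card_iff_nontrivial.mpr hnt
  have hle9 : Nat.card (MulAction.fixedPoints D (Sylow 2 G)) ≤ 9 := by
    rw [← h9]
    exact Nat.card_le_card_of_injective _ Subtype.val_injective
  have hF9 : Nat.card (MulAction.fixedPoints D (Sylow 2 G)) = 9 := by
    rw [hfix2, hF] at h7
    rw [h9] at h2
    unfold Nat.ModEq at h7 h2
    omega
  apply hDne
  rw [Subgroup.eq_bot_iff_forall]
  intro d hd
  apply eq_one_of_smul_sylow (p := 2) (by rw [h9]; norm_num) d
  intro Q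
  have hbij := Function.Injective.bijective_of_nat_card_le
    (f := fun x : MulAction.fixedPoints D (Sylow 2 G) => (x : Sylow 2 G)) Subtype.coe_injective
    (by rw [hF9, h9])
  obtain ⟨x, hx⟩ := hbij.2 Q
  have := x.2 ⟨d, hd⟩
  rw [← hx]
  exact this

end Cfsg.Agent.Helper61
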