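import Mathlib
import Cfsg.Agent.Helper8.Ord1440
import Cfsg.Agent.S0985

set_option autoImplicit false
set_option linter.unusedSectionVars false
set_option linter.unusedVariables false
set_option linter.unusedSimpArgs false
set_option linter.style.haveILetI false

namespace Cfsg.Agent.Helper61

open Subgroup Cfsg.Agent.Helper9.OrdTools Cfsg.Agent.Helper8 Cfsg.Agent.Helper8.Ord459

variable {G : Type*} [Group G] [Finite G]

omit [Finite G] in
/-- an element of odd order does not invert an element of order other than `1, 2`. -/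
theorem ord4032E_conj_inv_odd (g s : G) (hodd : Odd (orderOf g)) (h : g * s * g⁻¹ = s⁻¹) :
    s * s = 1 := by
  obtain ⟨k, hk⟩ := hodd
  have h' : g * s = s⁻¹ * g := by rw [← h]; group
  have h3 : g * s⁻¹ * g⁻¹ = s := by
    calc g * s⁻¹ * g⁻¹ = (g * s * g⁻¹)⁻¹ := by group
      _ = s := by rw [h, inv_inv]
  have h'' : g * s⁻¹ = s * g := by
    calc g * s⁻¹ = (g * s⁻¹ * g⁻¹) * g := by group
      _ = s * g := by rw [h3]
  have h2 : g ^ 2 * s = s * g ^ 2 := by
    rw [pow_two, mul_assoc, h', ← mul_assoc, h'', mul_assoc]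
  have hc : Commute (g ^ 2) s := h2
  have hg : (g ^ 2) ^ (k + 1) = g := by
    rw [← pow_mul, show 2 * (k + 1) = orderOf g + 1 by omega, pow_succ, pow_orderOf_eq_one,
      one_mul]
  have hc' : Commute g s := by
    have := hc.pow_left (k + 1)
    rwa [hg] at this
  have h5 : g * s * g⁻¹ = s := by rw [hc'.eq, mul_inv_cancel_right]
  rw [h5] at h
  calc s * s = s * s⁻¹ := by rw [← h]
    _ = 1 := mul_inv_cancel s

/-- orbit counting: the `M`-conjugates of `a`, when the centralizer of `a` in `M` lies in `R`. -/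
theorem ord4032E_card_le (M R : Subgroup G) (a : G)
    (hstab : ∀ m ∈ M, m * a = a * m → m ∈ R) :
    Nat.card M ≤ Nat.card R *
      Nat.card (Set.range (fun m : M => (m : G) * a * (m : G)⁻¹)) := by
  classical
  rw [← Nat.card_prod]
  set φ : M → G := fun m : M => (m : G) * a * (m : G)⁻¹ with hφ
  have hφm : ∀ m : M, φ m = (m : G) * a * (m : G)⁻¹ := fun m => rfl
  have hc : ∀ b : Set.range φ, ∃ m : M, φ m = b := fun b => b.2
  choose c hcs using hc
  have hmem : ∀ m : M, ((c ⟨φ m, m, rfl⟩ : M) : G)⁻¹ * (m : G) ∈ R := by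
    intro m
    apply hstab
    · exact M.mul_mem (M.inv_mem (Subtype.property _)) m.2
    · have h1 : ((c ⟨φ m, m, rfl⟩ : M) : G) * a * ((c ⟨φ m, m, rfl⟩ : M) : G)⁻¹
          = (m : G) * a * (m : G)⁻¹ := hcs ⟨φ m, m, rfl⟩
      generalize ((c ⟨φ m, m, rfl⟩ : M) : G) = c0 at h1 ⊢
      have h2 : a = c0⁻¹ * ((m : G) * a * (m : G)⁻¹) * c0 := by rw [← h1]; group
      calc c0⁻¹ * (m : G) * a = c0⁻¹ * ((m : G) * a * (m : G)⁻¹) * c0 * (c0⁻¹ * (m : G)) := by
            group
        _ = a * (c0⁻¹ * (m : G)) := by rw [← h2]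
  refine Nat.card_le_card_of_injective
    (fun m : M => ((⟨_, hmem m⟩ : R), (⟨φ m, m, rfl⟩ : Set.range φ))) ?_
  intro m m' h
  have hb : (⟨φ m, m, rfl⟩ : Set.range φ) = ⟨φ m', m', rfl⟩ := (Prod.mk.inj h).2
  have h1 := congrArg Subtype.val (Prod.mk.inj h).1
  simp only at h1
  rw [hb] at h1
  exact Subtype.ext (mul_left_cancel h1)

theorem ord4032E_arith_n : ∀ n ≤ 64, 63 * n ∣ 4032 → n % 7 = 1 → n = 1 ∨ n = 8 ∨ n = 64 := by
  decide

theorem ord4032E_arith_M : ∀ c ≤ 36, 9 ∣ c → ∀ n ≤ 448, c * n = 4032 → n % 3 = 1 →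
    c = 9 ∨ c = 36 := by
  intro c hc h9 n hn h1 h2
  obtain ⟨k, rfl⟩ := h9
  have hk : k ≤ 4 := by omega
  interval_cases k <;> omega

/-- steps (a), (b): an element `s` of order 3 with `C_G(s) = N(P)`. -/
theorem ord4032E_struct [IsSimpleGroup G] (hG : Nat.card G = 4032)
    (hidx : ∀ H : Subgroup G, H.index ≠ 8) (h64 : Nat.card (Sylow 7 G) = 64) (P : Sylow 7 G) :
    ∃ s : G, orderOf s = 3 ∧
      centralizer ({s} : Set G) = normalizer ((P : Subgroup G) : Set G) ∧
      Nat.card (normalizer ((P : Subgroup G) : Set G)) = 63 ∧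
      Nat.card (centralizer ((P : Subgroup G) : Set G)) = 21 := by
  classical
  haveI : Fact (Nat.Prime 7) := ⟨by norm_num⟩
  haveI : Fact (Nat.Prime 3) := ⟨by norm_num⟩
  have hP : Nat.card (P : Subgroup G) = 7 := by
    have := sylow_card 1 576 (by rw [hG]; norm_num) (by norm_num) P
    simpa using this
  have hna : ∃ a b : G, a * b ≠ b * a :=
    exists_not_comm' P (by rw [hP]; norm_num) (by rw [hP, hG]; norm_num)
  obtain ⟨-, -, -, hNP⟩ := sylow_num P (by rw [hP]; norm_num) (by rw [hP, hG]; norm_num)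
  obtain ⟨e, he6, he1, heN, h7C⟩ := normalizer_centralizer_prime P hP (by rw [hG]; norm_num)
  have hPN0 : (P : Subgroup G) ≤ normalizer ((P : Subgroup G) : Set G) := Subgroup.le_normalizer
  have hPC0 : (P : Subgroup G) ≤ centralizer ((P : Subgroup G) : Set G) :=
    le_centralizer_of_prime P hP
  have hCN0 : centralizer ((P : Subgroup G) : Set G) ≤ normalizer ((P : Subgroup G) : Set G) :=
    Subgroup.centralizer_le_normalizer _
  have hNmem : ∀ g, g ∈ normalizer ((P : Subgroup G) : Set G) →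
      ∀ h ∈ (P : Subgroup G), g⁻¹ * h * g ∈ (P : Subgroup G) := by
    intro g hg h hh
    have := (Subgroup.mem_normalizer_iff.mp (inv_mem hg)) h
    rw [inv_inv] at this
    exact this.mp hh
  have hCmem : ∀ c, c ∈ centralizer ((P : Subgroup G) : Set G) ↔
      ∀ h ∈ (P : Subgroup G), h * c = c * h := fun c => Subgroup.mem_centralizer_iff
  obtain ⟨N, hNdef⟩ : ∃ N, N = normalizer ((P : Subgroup G) : Set G) := ⟨_, rfl⟩
  obtain ⟨C, hCdef⟩ : ∃ C, C = centralizer ((P : Subgroup G) : Set G) := ⟨_, rfl⟩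
  rw [← hNdef] at hNP heN hPN0 hCN0 hNmem
  rw [← hCdef] at heN h7C hPC0 hCN0 hCmem
  have hN : Nat.card N = 63 := by rw [h64, hG] at hNP; omega
  have hC : Nat.card C = 21 := by
    rw [hN] at heN
    have he' : e ≤ 6 := Nat.le_of_dvd (by norm_num) he6
    interval_cases e <;> omega
  -- s
  obtain ⟨s', hs'⟩ := exists_prime_orderOf_dvd_card' (G := ↥C) 3 (by rw [hC]; norm_num)
  obtain ⟨s, hsdef⟩ : ∃ s : G, s = (s' : G) := ⟨_, rfl⟩
  have hsC : s ∈ C := hsdef ▸ s'.2
  have hs3 : orderOf s = 3 := by rw [hsdef, Subgroup.orderOf_coe]; exact hs'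
  have hs1 : s ≠ 1 := by
    rintro rfl
    rw [orderOf_one] at hs3
    omega
  have hs33 : s ^ 3 = 1 := by rw [← hs3]; exact pow_orderOf_eq_one s
  -- x
  obtain ⟨x, hxP, hx1⟩ : ∃ x ∈ (P : Subgroup G), x ≠ 1 := by
    by_contra hcon
    push Not at hcon
    have : (P : Subgroup G) = ⊥ := (Subgroup.eq_bot_iff_forall _).mpr hcon
    rw [this, Subgroup.card_bot] at hP
    omega
  have hzx := zpowers_eq_sylow P hP hxP hx1
  have hx7 : orderOf x = 7 := by rw [← Nat.card_zpowers, hzx, hP]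
  have hsx : Commute s x := ((hCmem s).mp hsC x hxP).symm
  have hw21 : orderOf (s * x) = 21 := by
    rw [hsx.orderOf_mul_eq_mul_orderOf_of_coprime (by rw [hs3, hx7]; norm_num), hs3, hx7]
  have hwC : s * x ∈ C := C.mul_mem hsC (hPC0 hxP)
  have hzw : zpowers (s * x) = C :=
    Subgroup.eq_of_le_of_card_ge (zpowers_le.mpr hwC) (by rw [Nat.card_zpowers, hC, hw21])
  have hw7 : (s * x) ^ 7 = s := by
    rw [hsx.mul_pow, ← hx7, pow_orderOf_eq_one, mul_one, hx7]
    calc s ^ 7 = (s ^ 3) ^ 2 * s := by rw [← pow_mul, ← pow_succ]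
      _ = s := by rw [hs33, one_pow, one_mul]
  -- (a)
  have hNs : ∀ g ∈ N, g * s = s * g := by
    intro g hg
    have hgsC : g * s * g⁻¹ ∈ C := by
      rw [hCmem]
      intro h hh
      have hgP : g⁻¹ * h * g ∈ (P : Subgroup G) := hNmem g hg h hh
      have h1 := (hCmem s).mp hsC _ hgP
      calc h * (g * s * g⁻¹) = g * (g⁻¹ * h * g * s) * g⁻¹ := by group
        _ = g * (s * (g⁻¹ * h * g)) * g⁻¹ := by rw [h1]
        _ = g * s * g⁻¹ * h := by group
    rw [← hzw] at hgsC
    obtain ⟨k, hk⟩ := Subgroup.mem_zpowers_iff.mp hgsC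
    have h3 : (g * s * g⁻¹) ^ 3 = 1 := by
      rw [conj_pow, hs33, mul_one, mul_inv_cancel]
    have h21 : ((21 : ℕ) : ℤ) ∣ k * 3 := by
      rw [← hw21]
      apply orderOf_dvd_iff_zpow_eq_one.mpr
      rw [zpow_mul, hk]
      exact_mod_cast h3
    have h7k : (7 : ℤ) ∣ k := by
      omega
    obtain ⟨m, rfl⟩ := h7k
    have hsm : g * s * g⁻¹ = s ^ m := by
      rw [← hk, zpow_mul]
      congr 1
      exact_mod_cast hw7
    have hmod : s ^ m = s ^ (m % 3) := by
      have := zpow_mod_orderOf s m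
      rw [hs3] at this
      exact this.symm
    rw [hmod] at hsm
    have hm3 : m % 3 = 0 ∨ m % 3 = 1 ∨ m % 3 = 2 := by omega
    rcases hm3 with h0 | h0 | h0
    · exfalso
      rw [h0, zpow_zero] at hsm
      apply hs1
      have : s = g⁻¹ * (g * s * g⁻¹) * g := by group
      rw [this, hsm]; group
    · rw [h0, zpow_one] at hsm
      calc g * s = g * s * g⁻¹ * g := by group
        _ = s * g := by rw [hsm]
    · exfalso
      rw [h0] at hsm
      have hsinv : s ^ (2 : ℤ) = s⁻¹ := by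
        rw [eq_inv_iff_mul_eq_one]
        have h4 : s ^ (2 : ℤ) = s ^ 2 := by exact_mod_cast zpow_natCast s 2
        rw [h4, ← pow_succ]; exact hs33
      rw [hsinv] at hsm
      have hodd : Odd (orderOf g) := by
        have hdvd : orderOf g ∣ 63 := by
          have := orderOf_dvd_natCard (⟨g, hg⟩ : N)
          rwa [Subgroup.orderOf_mk, hN] at this
        exact Odd.of_dvd_nat (by decide) hdvd
      have := ord4032E_conj_inv_odd g s hodd hsm
      have h2 : orderOf s ∣ 2 := orderOf_dvd_of_pow_eq_one (by rw [pow_two]; exact this)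
      rw [hs3] at h2
      omega
  -- (b)
  obtain ⟨X, hXdef⟩ : ∃ X : Subgroup G, X = centralizer ({s} : Set G) := ⟨_, rfl⟩
  have hmemX : ∀ x, x ∈ X ↔ x * s = s * x := by
    intro x
    rw [hXdef, Subgroup.mem_centralizer_iff]
    constructor
    · intro h; exact (h s rfl).symm
    · intro h y hy; rw [Set.mem_singleton_iff.mp hy]; exact h.symm
  have hNX : N ≤ X := fun g hg => (hmemX g).mpr (hNs g hg)
  have hPX : (P : Subgroup G) ≤ X := hPN0.trans hNX
  obtain ⟨n, hn7, hXcard⟩ := sylow_count_subgroup P X hPX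
  rw [← hNdef, inf_eq_right.mpr hNX, hN] at hXcard
  have hXG : Nat.card X ∣ 4032 := hG ▸ Subgroup.card_subgroup_dvd_card X
  rw [hXcard] at hXG
  have hn64 : n ≤ 64 := by
    have := Nat.le_of_dvd (by norm_num) hXG
    omega
  have hXN : X = N := by
    rcases ord4032E_arith_n n hn64 hXG hn7 with h1 | h1 | h1
    · rw [h1] at hXcard
      exact (Subgroup.eq_of_le_of_card_ge hNX (by rw [hXcard, hN])).symm
    · exfalso
      rw [h1] at hXcard
      apply hidx X
      have := X.card_mul_index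
      rw [hXcard, hG] at this
      omega
    · exfalso
      rw [h1] at hXcard
      have hXtop : X = ⊤ := by
        apply (Subgroup.card_eq_iff_eq_top X).mp
        rw [hXcard, hG]
      apply hs1
      apply eq_one_of_central hna s
      intro g
      exact (hmemX g).mp (hXtop ▸ Subgroup.mem_top g)
  subst hNdef
  subst hCdef
  subst hXdef
  exact ⟨s, hs3, hXN, hN, hC⟩

/-- step (d): no element inverts `s`. -/
theorem ord4032E_no_inv (P : Sylow 7 G) (s : G) (hs : orderOf s = 3)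
    (hX : centralizer ({s} : Set G) = normalizer ((P : Subgroup G) : Set G)) (g : G) :
    g * s * g⁻¹ ≠ s⁻¹ := by
  haveI : Fact (Nat.Prime 7) := ⟨by norm_num⟩
  intro h
  have hmemX : ∀ x, x ∈ normalizer ((P : Subgroup G) : Set G) ↔ x * s = s * x := by
    intro x
    rw [← hX, Subgroup.mem_centralizer_iff]
    constructor
    · intro h; exact (h s rfl).symm
    · intro h y hy; rw [Set.mem_singleton_iff.mp hy]; exact h.symm
  have hg : g ∈ normalizer ((P : Subgroup G) : Set G) := by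
    apply Sylow.smul_eq_iff_mem_normalizer.mp
    symm
    apply SylFix.eq_of_le_normalizer (g • P) P
    intro z hz
    rw [Sylow.coe_subgroup_smul, Subgroup.mem_smul_pointwise_iff_exists] at hz
    obtain ⟨h0, hh0, rfl⟩ := hz
    rw [MulAut.smul_def, MulAut.conj_apply, hmemX]
    have h1 : h0 * s = s * h0 := (hmemX h0).mp (Subgroup.le_normalizer hh0)
    have h2 : g⁻¹ * s * g = s⁻¹ := by
      have : s = g⁻¹ * s⁻¹ * g := by rw [← h]; group
      calc g⁻¹ * s * g = (g⁻¹ * s⁻¹ * g)⁻¹ := by group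
        _ = s⁻¹ := by rw [← this]
    have h3 : h0 * s⁻¹ = s⁻¹ * h0 := by
      calc h0 * s⁻¹ = s⁻¹ * (s * h0) * s⁻¹ := by group
        _ = s⁻¹ * (h0 * s) * s⁻¹ := by rw [h1]
        _ = s⁻¹ * h0 := by group
    calc g * h0 * g⁻¹ * s = g * (h0 * (g⁻¹ * s * g)) * g⁻¹ := by group
      _ = g * (h0 * s⁻¹) * g⁻¹ := by rw [h2]
      _ = g * (s⁻¹ * h0) * g⁻¹ := by rw [h3]
      _ = g * ((g⁻¹ * s * g) * h0) * g⁻¹ := by rw [h2]
      _ = s * (g * h0 * g⁻¹) := by group
  have h5 : g * s = s * g := (hmemX g).mp hg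
  have h6 : g * s * g⁻¹ = s := by rw [h5, mul_inv_cancel_right]
  rw [h6] at h
  have h2 : orderOf s ∣ 2 := by
    apply orderOf_dvd_of_pow_eq_one
    rw [pow_two]
    calc s * s = s * s⁻¹ := by rw [← h]
      _ = 1 := mul_inv_cancel s
  rw [hs] at h2
  omega

/-- PIECE E of CALL S0976. -/
theorem ord4032_n7_ne_64 [IsSimpleGroup G] (hG : Nat.card G = 4032)
    (hidx : ∀ H : Subgroup G, H.index ≠ 8) : Nat.card (Sylow 7 G) ≠ 64 := by
  classical
  intro h64
  haveI : Fact (Nat.Prime 7) := ⟨by norm_num⟩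
  haveI : Fact (Nat.Prime 3) := ⟨by norm_num⟩
  haveI : Fact (Nat.Prime 2) := ⟨by norm_num⟩
  obtain ⟨P⟩ : Nonempty (Sylow 7 G) := inferInstance
  obtain ⟨s, hs3, hX, hN, hC⟩ := ord4032E_struct hG hidx h64 P
  have hd := ord4032E_no_inv P s hs3 hX
  have hs1 : s ≠ 1 := by
    rintro rfl
    rw [orderOf_one] at hs3
    omega
  have hmemX : ∀ x, x ∈ normalizer ((P : Subgroup G) : Set G) ↔ x * s = s * x := by
    intro x
    rw [← hX, Subgroup.mem_centralizer_iff]
    constructor
    · intro h; exact (h s rfl).symm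
    · intro h y hy; rw [Set.mem_singleton_iff.mp hy]; exact h.symm
  have hP : Nat.card (P : Subgroup G) = 7 := by
    have := sylow_card 1 576 (by rw [hG]; norm_num) (by norm_num) P
    simpa using this
  -- the Sylow 3-subgroup `R`
  have hzs : IsPGroup 3 (zpowers s) :=
    IsPGroup.of_card (n := 1) (by rw [Nat.card_zpowers, hs3, pow_one])
  obtain ⟨R, hsR⟩ := hzs.exists_le_sylow
  have hsR' : s ∈ (R : Subgroup G) := hsR (Subgroup.mem_zpowers s)
  have hR : Nat.card (R : Subgroup G) = 3 ^ 2 :=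
    sylow_card 2 448 (by rw [hG]; norm_num) (by norm_num) R
  have hRab : ∀ a ∈ (R : Subgroup G), ∀ b ∈ (R : Subgroup G), a * b = b * a := by
    intro a ha b hb
    have := (IsPGroup.isMulCommutative_of_card_eq_prime_sq hR).is_comm.comm
      (⟨a, ha⟩ : (R : Subgroup G)) ⟨b, hb⟩
    exact congrArg Subtype.val this
  have hRN : (R : Subgroup G) ≤ normalizer ((P : Subgroup G) : Set G) :=
    fun r hr => (hmemX r).mpr (hRab r hr s hsR')
  obtain ⟨M, hMdef⟩ : ∃ M, M = normalizer ((R : Subgroup G) : Set G) := ⟨_, rfl⟩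
  have hRM : (R : Subgroup G) ≤ M := hMdef ▸ Subgroup.le_normalizer
  have hMmem : ∀ m ∈ M, ∀ r ∈ (R : Subgroup G), m * r * m⁻¹ ∈ (R : Subgroup G) := by
    intro m hm r hr
    exact ((Subgroup.mem_normalizer_iff.mp (hMdef ▸ hm)) r).mp hr
  -- (c)
  have hK : M ⊓ normalizer ((P : Subgroup G) : Set G) = (R : Subgroup G) := by
    symm
    apply Subgroup.eq_of_le_of_card_ge (le_inf hRM hRN)
    have hd1 : Nat.card (M ⊓ normalizer ((P : Subgroup G) : Set G) : Subgroup G) ∣ 63 :=
      hN ▸ Subgroup.card_dvd_of_le inf_le_right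
    have hd2 : 9 ∣ Nat.card (M ⊓ normalizer ((P : Subgroup G) : Set G) : Subgroup G) := by
      have := Subgroup.card_dvd_of_le (le_inf hRM hRN)
      rwa [hR] at this
    by_contra hgt
    push Not at hgt
    have h63 : Nat.card (M ⊓ normalizer ((P : Subgroup G) : Set G) : Subgroup G) = 63 := by
      obtain ⟨k, hk⟩ := hd2
      rw [hk] at hd1 hgt ⊢
      rw [hR] at hgt
      have hd1' : 9 * k ∣ 9 * 7 := hd1
      have : k ∣ 7 := Nat.dvd_of_mul_dvd_mul_left (by norm_num : 0 < 9) hd1'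
      rcases (Nat.dvd_prime (by norm_num : Nat.Prime 7)).mp this with h | h
      · omega
      · omega
    have hNM : normalizer ((P : Subgroup G) : Set G) ≤ M := by
      have := Subgroup.eq_of_le_of_card_ge
        (inf_le_right : M ⊓ normalizer ((P : Subgroup G) : Set G) ≤ _) (by rw [h63, hN])
      rw [← this]; exact inf_le_left
    have hRC : (R : Subgroup G) ≤ centralizer ((P : Subgroup G) : Set G) := by
      intro r hr
      rw [Subgroup.mem_centralizer_iff]
      intro h hh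
      have hbot : (R : Subgroup G) ⊓ (P : Subgroup G) = ⊥ :=
        disjoint_iff.mp (Subgroup.disjoint_of_coprime_natCard (by rw [hR, hP]; norm_num))
      have h1 : r * h * r⁻¹ * h⁻¹ ∈ (R : Subgroup G) ⊓ (P : Subgroup G) := by
        constructor
        · have hhM : h ∈ M := hNM (Subgroup.le_normalizer hh)
          have h2 := (R : Subgroup G).mul_mem hr (hMmem h hhM r⁻¹ (inv_mem hr))
          rw [show r * h * r⁻¹ * h⁻¹ = r * (h * r⁻¹ * h⁻¹) by group]; exact h2
        · have := (Subgroup.mem_normalizer_iff.mp (hRN hr) h).mp hh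
          exact (P : Subgroup G).mul_mem this (inv_mem hh)
      rw [hbot, Subgroup.mem_bot] at h1
      calc h * r = (r * h * r⁻¹ * h⁻¹)⁻¹ * (r * h) := by group
        _ = r * h := by rw [h1, inv_one, one_mul]
    have := Subgroup.card_dvd_of_le hRC
    rw [hR, hC] at this
    omega
  have hstab : ∀ m ∈ M, m * s = s * m → m ∈ (R : Subgroup G) := by
    intro m hm hms
    rw [← hK]
    exact ⟨hm, (hmemX m).mpr hms⟩
  have hstab' : ∀ m ∈ M, m * s⁻¹ = s⁻¹ * m → m ∈ (R : Subgroup G) := by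
    intro m hm h
    apply hstab m hm
    calc m * s = s * (s⁻¹ * m) * s := by group
      _ = s * (m * s⁻¹) * s := by rw [h]
      _ = s * m := by group
  -- orbit bounds
  have hA := ord4032E_card_le M (R : Subgroup G) s hstab
  have hB := ord4032E_card_le M (R : Subgroup G) s⁻¹ hstab'
  obtain ⟨A, hAdef⟩ : ∃ A : Set G, A = Set.range (fun m : M => (m : G) * s * (m : G)⁻¹) :=
    ⟨_, rfl⟩
  obtain ⟨B, hBdef⟩ : ∃ B : Set G, B = Set.range (fun m : M => (m : G) * s⁻¹ * (m : G)⁻¹) :=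
    ⟨_, rfl⟩
  rw [← hAdef] at hA
  rw [← hBdef] at hB
  have hAmem : ∀ z, z ∈ A ↔ ∃ m ∈ M, m * s * m⁻¹ = z := by
    intro z
    rw [hAdef]
    constructor
    · rintro ⟨m, rfl⟩
      exact ⟨m, m.2, rfl⟩
    · rintro ⟨m, hm, rfl⟩
      exact ⟨⟨m, hm⟩, rfl⟩
  have hBmem : ∀ z, z ∈ B ↔ ∃ m ∈ M, m * s⁻¹ * m⁻¹ = z := by
    intro z
    rw [hBdef]
    constructor
    · rintro ⟨m, rfl⟩
      exact ⟨m, m.2, rfl⟩
    · rintro ⟨m, hm, rfl⟩
      exact ⟨⟨m, hm⟩, rfl⟩
  have hdisj : Disjoint A B := by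
    rw [Set.disjoint_left]
    intro z hzA hzB
    obtain ⟨m, hm, rfl⟩ := (hAmem z).mp hzA
    obtain ⟨m', hm', hmm⟩ := (hBmem _).mp hzB
    apply hd (m'⁻¹ * m)
    calc m'⁻¹ * m * s * (m'⁻¹ * m)⁻¹ = m'⁻¹ * (m * s * m⁻¹) * m' := by group
      _ = m'⁻¹ * (m' * s⁻¹ * m'⁻¹) * m' := by rw [hmm]
      _ = s⁻¹ := by group
  have hsub : A ∪ B ⊆ ((R : Subgroup G) : Set G) \ {1} := by
    rintro z (hz | hz)
    · obtain ⟨m, hm, rfl⟩ := (hAmem z).mp hz
      refine ⟨hMmem m hm s hsR', ?_⟩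
      intro h1
      rw [Set.mem_singleton_iff] at h1
      apply hs1
      have : s = m⁻¹ * (m * s * m⁻¹) * m := by group
      rw [this, h1]; group
    · obtain ⟨m, hm, rfl⟩ := (hBmem z).mp hz
      refine ⟨hMmem m hm s⁻¹ (inv_mem hsR'), ?_⟩
      intro h1
      rw [Set.mem_singleton_iff] at h1
      apply hs1
      have : s = (m⁻¹ * (m * s⁻¹ * m⁻¹) * m)⁻¹ := by group
      rw [this, h1]; group
  have hcardR1 : (((R : Subgroup G) : Set G) \ {1}).ncard = 8 := by
    rw [Set.ncard_sdiff_singleton_of_mem (Subgroup.one_mem _)]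
    have : ((R : Subgroup G) : Set G).ncard = 9 := by
      rw [← Nat.card_coe_set_eq]; exact hR
    rw [this]
  have hABu : (A ∪ B).ncard = A.ncard + B.ncard :=
    Set.ncard_union_eq hdisj (Set.toFinite _) (Set.toFinite _)
  have hAB : A.ncard + B.ncard ≤ 8 := by
    rw [← hABu, ← hcardR1]
    exact Set.ncard_le_ncard hsub (Set.toFinite _)
  rw [Nat.card_coe_set_eq] at hA hB
  -- the order of `M`
  obtain ⟨h3a, h3b, h3c, h3d⟩ := sylow_num R (by rw [hR]; norm_num) (by rw [hR, hG]; norm_num)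
  rw [← hMdef] at h3d
  have h9M : 9 ∣ Nat.card M := by
    have := Subgroup.card_dvd_of_le hRM
    rwa [hR] at this
  have hM36 : Nat.card M ≤ 36 := by
    rw [hR] at hA hB
    omega
  have hn448 : Nat.card (Sylow 3 G) ≤ 448 := by
    have hidxR : (R : Subgroup G).index = 448 := by
      have := (R : Subgroup G).card_mul_index
      rw [hR, hG] at this
      omega
    rw [hidxR] at h3a
    exact Nat.le_of_dvd (by norm_num) h3a
  rcases ord4032E_arith_M _ hM36 h9M _ hn448 (by rw [h3d, hG]) h3b with hM9 | hM36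
  · -- `N(R) = R`: Burnside
    have hMR : (R : Subgroup G) = M :=
      Subgroup.eq_of_le_of_card_ge hRM (by rw [hM9, hR]; norm_num)
    apply not_normalizer_le_centralizer R (by rw [hR]; norm_num) (by rw [hR, hG]; norm_num)
    rw [← hMdef, ← hMR]
    intro r hr
    rw [Subgroup.mem_centralizer_iff]
    intro h hh
    exact hRab h hh r hr
  · -- `|N(R)| = 36`
    rw [hM36, hR] at hA hB
    have hAB8 : A ∪ B = ((R : Subgroup G) : Set G) \ {1} := by
      apply Set.eq_of_subset_of_ncard_le hsub ?_ (Set.toFinite _)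
      rw [hcardR1, hABu]
      omega
    obtain ⟨y', hy'⟩ := exists_prime_orderOf_dvd_card' (G := ↥M) 2 (by rw [hM36]; norm_num)
    obtain ⟨y, hydef⟩ : ∃ y : G, y = (y' : G) := ⟨_, rfl⟩
    have hyM : y ∈ M := hydef ▸ y'.2
    have hy2 : orderOf y = 2 := by rw [hydef, Subgroup.orderOf_coe]; exact hy'
    have hyy : y * y = 1 := by rw [← pow_two, ← hy2]; exact pow_orderOf_eq_one y
    have hysR : y * s * y⁻¹ ∈ (R : Subgroup G) := hMmem y hyM s hsR'
    obtain ⟨r, hrdef⟩ : ∃ r, r = s * (y * s * y⁻¹) := ⟨_, rfl⟩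
    have hrR : r ∈ (R : Subgroup G) := hrdef ▸ (R : Subgroup G).mul_mem hsR' hysR
    have hyr : y * r = r * y := by
      have h1 : y * r * y⁻¹ = (y * s * y⁻¹) * s := by
        rw [hrdef]
        calc y * (s * (y * s * y⁻¹)) * y⁻¹ = (y * s * y⁻¹) * ((y * y) * s * (y * y)⁻¹) := by
              group
          _ = (y * s * y⁻¹) * s := by rw [hyy]; group
      have h2 : (y * s * y⁻¹) * s = r := by rw [hrdef]; exact hRab _ hysR _ hsR'
      calc y * r = y * r * y⁻¹ * y := by group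
        _ = r * y := by rw [h1, h2]
    by_cases hr1 : r = 1
    · apply hd y
      rw [hrdef] at hr1
      exact eq_inv_of_mul_eq_one_right hr1
    · have hrAB : r ∈ A ∪ B := by rw [hAB8]; exact ⟨hrR, hr1⟩
      have key : ∃ m : G, (m⁻¹ * y * m) * s = s * (m⁻¹ * y * m) := by
        rcases hrAB with hz | hz
        · obtain ⟨m, hm, hmr⟩ := (hAmem r).mp hz
          refine ⟨m, ?_⟩
          rw [← hmr] at hyr
          calc m⁻¹ * y * m * s = m⁻¹ * (y * (m * s * m⁻¹)) * m := by group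
            _ = m⁻¹ * ((m * s * m⁻¹) * y) * m := by rw [hyr]
            _ = s * (m⁻¹ * y * m) := by group
        · obtain ⟨m, hm, hmr⟩ := (hBmem r).mp hz
          refine ⟨m, ?_⟩
          rw [← hmr] at hyr
          have h1 : m⁻¹ * y * m * s⁻¹ = s⁻¹ * (m⁻¹ * y * m) := by
            calc m⁻¹ * y * m * s⁻¹ = m⁻¹ * (y * (m * s⁻¹ * m⁻¹)) * m := by group
              _ = m⁻¹ * ((m * s⁻¹ * m⁻¹) * y) * m := by rw [hyr]
              _ = s⁻¹ * (m⁻¹ * y * m) := by group
          generalize m⁻¹ * y * m = z at h1 ⊢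
          calc z * s = s * (s⁻¹ * z) * s := by group
            _ = s * (z * s⁻¹) * s := by rw [h1]
            _ = s * z := by group
      obtain ⟨m, hm⟩ := key
      have hzN : m⁻¹ * y * m ∈ normalizer ((P : Subgroup G) : Set G) := (hmemX _).mpr hm
      have hz2 : (m⁻¹ * y * m) ^ 2 = 1 := by
        rw [pow_two]
        calc m⁻¹ * y * m * (m⁻¹ * y * m) = m⁻¹ * (y * y) * m := by group
          _ = 1 := by rw [hyy]; group
      have hdvd2 : orderOf (m⁻¹ * y * m) ∣ 2 := orderOf_dvd_of_pow_eq_one hz2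
      have hdvd63 : orderOf (m⁻¹ * y * m) ∣ 63 := by
        have := orderOf_dvd_natCard (⟨_, hzN⟩ : normalizer ((P : Subgroup G) : Set G))
        rwa [Subgroup.orderOf_mk, hN] at this
      have h1 : orderOf (m⁻¹ * y * m) = 1 := by
        have := Nat.dvd_gcd hdvd2 hdvd63
        simpa using this
      rw [orderOf_eq_one_iff] at h1
      have hy1 : y = 1 := by
        have : y = m * (m⁻¹ * y * m) * m⁻¹ := by group
        rw [this, h1]; group
      rw [hy1, orderOf_one] at hy2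
      omega

end Cfsg.Agent.Helper61
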